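import Mathlib

/-!
# Complements in subgroup lattices over a unique maximal overgroup
-/

open scoped Pointwise
set_option linter.style.haveILetI false

namespace Cfsg.Agent.H36.Complemented

variable {G : Type*} [Group G] [Finite G]

theorem complement_of_interval (T X M : Subgroup G) (hTX : T ≤ X)
    (hint : ∀ Y : Subgroup G, T ≤ Y → Y ≤ X → ∃ C : Subgroup G, T ≤ C ∧ C ≤ X ∧ Y ⊔ C = X ∧ Y ⊓ C = T)
    (huniq : ∀ M' : Subgroup G, IsCoatom M' → X ≤ M' → M' = M)
    (H : Subgroup G) (hH : ¬ H ≤ M) (hHT : H ⊓ T = ⊥) :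
    ∃ C : Subgroup G, H ⊔ C = ⊤ ∧ H ⊓ C = ⊥ := by
  obtain ⟨C, hTC, hCX, hsup, hinf⟩ :=
    hint (T ⊔ H ⊓ X) le_sup_left (sup_le hTX inf_le_right)
  refine ⟨C, ?_, ?_⟩
  · have hX : X ≤ H ⊔ C := by
      rw [← hsup]
      exact sup_le (sup_le (hTC.trans le_sup_right) (inf_le_left.trans le_sup_left)) le_sup_right
    rcases eq_top_or_exists_le_coatom (H ⊔ C) with h | ⟨M', hM', hle⟩
    · exact h
    · exact absurd (le_sup_left.trans (hle.trans (huniq M' hM' (hX.trans hle)).le)) hH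
  · rw [eq_bot_iff, ← hHT]
    refine le_inf inf_le_left ?_
    calc H ⊓ C ≤ (T ⊔ H ⊓ X) ⊓ C :=
          le_inf ((le_inf inf_le_left (inf_le_right.trans hCX)).trans le_sup_right) inf_le_right
      _ = T := hinf

/-- The interval condition coming from a complemented quotient. -/
theorem interval_of_quotient (X N : Subgroup G) (hNX : N ≤ X) [(N.subgroupOf X).Normal]
    (hK : ComplementedLattice (Subgroup (X ⧸ N.subgroupOf X))) :
    ∀ Y : Subgroup G, N ≤ Y → Y ≤ X → ∃ C : Subgroup G, N ≤ C ∧ C ≤ X ∧ Y ⊔ C = X ∧ Y ⊓ C = N := by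
  intro Y hNY hYX
  set q := QuotientGroup.mk' (N.subgroupOf X) with hq
  obtain ⟨D, hD⟩ := hK.exists_isCompl ((Y.subgroupOf X).map q)
  refine ⟨(D.comap q).map X.subtype, ?_, Subgroup.map_subtype_le _, ?_, ?_⟩
  · intro n hn
    refine ⟨⟨n, hNX hn⟩, ?_, rfl⟩
    show q _ ∈ D
    rw [show q ⟨n, hNX hn⟩ = 1 from
      (QuotientGroup.eq_one_iff (N := N.subgroupOf X) _).2 hn]
    exact one_mem D
  · have h1 : Y.subgroupOf X ⊔ D.comap q = ⊤ := by
      have hker : q.ker ≤ D.comap q := Subgroup.ker_le_comap q D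
      rw [eq_top_iff]
      calc (⊤ : Subgroup X) = (((Y.subgroupOf X).map q) ⊔ D).comap q := by
            rw [hD.sup_eq_top, Subgroup.comap_top]
        _ = (((Y.subgroupOf X) ⊔ D.comap q).map q).comap q := by
            rw [Subgroup.map_sup, Subgroup.map_comap_eq_self_of_surjective (QuotientGroup.mk'_surjective _)]
        _ ≤ _ := by rw [Subgroup.comap_map_eq_self (hker.trans le_sup_right)]
    have h2 := congrArg (Subgroup.map X.subtype) h1
    rwa [Subgroup.map_sup, Subgroup.subgroupOf_map_subtype, inf_eq_left.2 hYX,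
      ← MonoidHom.range_eq_map, Subgroup.range_subtype] at h2
  · apply le_antisymm
    · rintro x ⟨hxY, x', hx', rfl⟩
      have h1 : q x' ∈ (Y.subgroupOf X).map q ⊓ D := ⟨⟨x', hxY, rfl⟩, hx'⟩
      rw [hD.inf_eq_bot, Subgroup.mem_bot] at h1
      exact (QuotientGroup.eq_one_iff (N := N.subgroupOf X) x').1 h1
    · intro n hn
      refine ⟨hNY hn, ⟨n, hNX hn⟩, ?_, rfl⟩
      show q _ ∈ D
      rw [show q ⟨n, hNX hn⟩ = 1 from
        (QuotientGroup.eq_one_iff (N := N.subgroupOf X) _).2 hn]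
      exact one_mem D

omit [Finite G] in
theorem interval_of_complemented (X : Subgroup G) (hK : ComplementedLattice (Subgroup X)) :
    ∀ Y : Subgroup G, (⊥ : Subgroup G) ≤ Y → Y ≤ X →
      ∃ C : Subgroup G, ⊥ ≤ C ∧ C ≤ X ∧ Y ⊔ C = X ∧ Y ⊓ C = ⊥ := by
  intro Y _ hYX
  obtain ⟨D, hD⟩ := hK.exists_isCompl (Y.subgroupOf X)
  refine ⟨D.map X.subtype, bot_le, Subgroup.map_subtype_le _, ?_, ?_⟩
  · have := congrArg (Subgroup.map X.subtype) hD.sup_eq_top
    rwa [Subgroup.map_sup, Subgroup.subgroupOf_map_subtype, inf_eq_left.2 hYX,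
      ← MonoidHom.range_eq_map, Subgroup.range_subtype] at this
  · have := congrArg (Subgroup.map X.subtype) hD.inf_eq_bot
    rwa [Subgroup.map_inf _ _ _ X.subtype_injective, Subgroup.subgroupOf_map_subtype,
      inf_eq_left.2 hYX, Subgroup.map_bot] at this

/-- Complements are transported by conjugation. -/
theorem complement_conj (H : Subgroup G) (g : G)
    (h : ∃ C : Subgroup G, H.map (MulAut.conj g).toMonoidHom ⊔ C = ⊤ ∧
      H.map (MulAut.conj g).toMonoidHom ⊓ C = ⊥) :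
    ∃ C : Subgroup G, H ⊔ C = ⊤ ∧ H ⊓ C = ⊥ := by
  obtain ⟨C, h1, h2⟩ := h
  refine ⟨C.comap (MulAut.conj g).toMonoidHom, ?_, ?_⟩
  · apply Subgroup.map_injective (f := (MulAut.conj g).toMonoidHom) (MulAut.conj g).injective
    rw [Subgroup.map_sup, Subgroup.map_comap_eq_self_of_surjective (MulAut.conj g).surjective, h1,
      Subgroup.map_top_of_surjective _ (MulAut.conj g).surjective]
  · apply Subgroup.map_injective (f := (MulAut.conj g).toMonoidHom) (MulAut.conj g).injective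
    rw [Subgroup.map_inf _ _ _ (MulAut.conj g).injective,
      Subgroup.map_comap_eq_self_of_surjective (MulAut.conj g).surjective, h2, Subgroup.map_bot]

theorem core_complements (X M : Subgroup G) (hK : ComplementedLattice (Subgroup X))
    (huniq : ∀ M' : Subgroup G, IsCoatom M' → X ≤ M' → M' = M) :
    (∀ H : Subgroup G, ¬ H ≤ M.normalCore → ∃ C : Subgroup G, H ⊔ C = ⊤ ∧ H ⊓ C = ⊥) ∧
    ComplementedLattice (Subgroup (G ⧸ M.normalCore)) := by
  have h1 : ∀ H : Subgroup G, ¬ H ≤ M.normalCore → ∃ C : Subgroup G, H ⊔ C = ⊤ ∧ H ⊓ C = ⊥ := by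
    intro H hH
    obtain ⟨x, hx, hx'⟩ := SetLike.not_le_iff_exists.1 hH
    obtain ⟨g, hg⟩ : ∃ g : G, g * x * g⁻¹ ∉ M := by
      by_contra h
      push Not at h
      exact hx' h
    refine complement_conj H g ?_
    exact complement_of_interval ⊥ X M bot_le (interval_of_complemented X hK) huniq _
      (fun h => hg (h ⟨x, hx, rfl⟩)) (inf_bot_eq _)
  refine ⟨h1, ⟨fun Hq => ?_⟩⟩
  set q := QuotientGroup.mk' M.normalCore with hq
  have hs := QuotientGroup.mk'_surjective M.normalCore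
  by_cases hb : Hq = ⊥
  · exact ⟨⊤, by rw [hb]; exact isCompl_bot_top⟩
  have hnle : ¬ Hq.comap q ≤ M.normalCore := by
    intro h
    apply hb
    rw [← Subgroup.map_comap_eq_self_of_surjective hs Hq, Subgroup.map_eq_bot_iff, QuotientGroup.ker_mk']
    exact h
  obtain ⟨C, hC1, hC2⟩ := h1 _ hnle
  refine ⟨C.map q, disjoint_iff.2 ?_, codisjoint_iff.2 ?_⟩
  · rw [eq_bot_iff]
    rintro _ ⟨hy, c, hc, rfl⟩
    have : c ∈ Hq.comap q ⊓ C := ⟨hy, hc⟩
    rw [hC2, Subgroup.mem_bot] at this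
    rw [this, map_one]
    exact one_mem _
  · have := congrArg (Subgroup.map q) hC1
    rwa [Subgroup.map_sup, Subgroup.map_comap_eq_self_of_surjective hs,
      Subgroup.map_top_of_surjective _ hs] at this

theorem simple_complemented [IsSimpleGroup G] (X M N : Subgroup G) (hM : IsCoatom M) (hXM : X ≤ M)
    (huniq : ∀ M' : Subgroup G, IsCoatom M' → X ≤ M' → M' = M) (hNX : N ≤ X)
    (hN : (Nat.card N).Prime) (hcen : ∀ n ∈ N, ∀ m ∈ M, m * n = n * m)
    [(N.subgroupOf X).Normal] (hK : ComplementedLattice (Subgroup (X ⧸ N.subgroupOf X))) :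
    ComplementedLattice (Subgroup G) := by
  refine ⟨fun H => ?_⟩
  by_cases hHb : H = ⊥
  · exact ⟨⊤, by rw [hHb]; exact isCompl_bot_top⟩
  by_cases hHt : H = ⊤
  · exact ⟨⊥, by rw [hHt]; exact isCompl_top_bot⟩
  suffices h : ∃ g : G, ¬ H.map (MulAut.conj g).toMonoidHom ≤ M ∧
      H.map (MulAut.conj g).toMonoidHom ⊓ N = ⊥ by
    obtain ⟨g, hg1, hg2⟩ := h
    obtain ⟨C, h1, h2⟩ := complement_conj H g (complement_of_interval N X M hNX
      (interval_of_quotient X N hNX hK) huniq _ hg1 hg2)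
    exact ⟨C, disjoint_iff.2 h2, codisjoint_iff.2 h1⟩
  by_contra hno
  push Not at hno
  -- every conjugate of `N` lies in `H` or is centralised by it
  let Nc : G → Subgroup G := fun g => N.map (MulAut.conj g⁻¹).toMonoidHom
  have key : ∀ g : G, Nc g ≤ H ∨ ∀ y ∈ Nc g, ∀ h ∈ H, h * y = y * h := by
    intro g
    by_cases hgM : H.map (MulAut.conj g).toMonoidHom ≤ M
    · right
      rintro _ ⟨n, hn, rfl⟩ h hh
      have h1 : g * h * g⁻¹ ∈ M := hgM ⟨h, hh, rfl⟩
      have h2 := hcen n hn _ h1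
      show h * (g⁻¹ * n * g⁻¹⁻¹) = g⁻¹ * n * g⁻¹⁻¹ * h
      calc h * (g⁻¹ * n * g⁻¹⁻¹) = g⁻¹ * (g * h * g⁻¹ * n) * g := by group
        _ = g⁻¹ * (n * (g * h * g⁻¹)) * g := by rw [h2]
        _ = g⁻¹ * n * g⁻¹⁻¹ * h := by group
    · left
      have hne := hno g hgM
      haveI : Fact (Nat.card N).Prime := ⟨hN⟩
      obtain ⟨x, hx, hx1⟩ := (Subgroup.bot_or_exists_ne_one _).resolve_left hne
      have hgen : (H.map (MulAut.conj g).toMonoidHom).subgroupOf N = ⊤ := by
        refine ((H.map (MulAut.conj g).toMonoidHom).subgroupOf N).eq_bot_or_eq_top_of_prime_card.resolve_left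
          fun h => hx1 ?_
        have h3 : (⟨x, hx.2⟩ : N) ∈ (H.map (MulAut.conj g).toMonoidHom).subgroupOf N := hx.1
        rw [h, Subgroup.mem_bot] at h3
        exact congrArg Subtype.val h3
      rintro _ ⟨n, hn, rfl⟩
      obtain ⟨h, hh, he⟩ := Subgroup.subgroupOf_eq_top.1 hgen hn
      show g⁻¹ * n * g⁻¹⁻¹ ∈ H
      rw [← he]
      show g⁻¹ * (g * h * g⁻¹) * g⁻¹⁻¹ ∈ H
      simpa [mul_assoc] using hh
  -- the subgroup generated by those conjugates inside `H`
  set A := sSup {K : Subgroup G | ∃ g, Nc g ≤ H ∧ K = Nc g} with hA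
  have hAH : A ≤ H := sSup_le fun K ⟨g, hg, e⟩ => e ▸ hg
  have hconj : ∀ (k g : G), (Nc g).map (MulAut.conj k).toMonoidHom = Nc (g * k⁻¹) := by
    intro k g
    simp only [Nc, Subgroup.map_map]
    congr 1
    ext x
    simp [mul_assoc]
  have hgenG : Subgroup.normalClosure (N : Set G) = ⊤ := by
    refine (IsSimpleGroup.eq_bot_or_eq_top_of_normal _ Subgroup.normalClosure_normal).resolve_left
      fun h => ?_
    have : N = ⊥ := le_bot_iff.1 (Subgroup.subset_normalClosure.trans (by rw [h]))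
    rw [this, Subgroup.card_bot] at hN
    exact Nat.not_prime_one hN
  have hnorm : ∀ g : G, Nc g ≤ Subgroup.normalizer (A : Set G) := by
    intro g
    rcases key g with h | h
    · exact (le_sSup ⟨g, h, rfl⟩ : Nc g ≤ A).trans Subgroup.le_normalizer
    · intro y hy
      rw [Subgroup.mem_normalizer_iff]
      intro a
      constructor
      · intro ha
        rw [← h y hy a (hAH ha), mul_inv_cancel_right]
        exact ha
      · intro ha
        have hc := h y hy _ (hAH ha)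
        rw [inv_mul_cancel_right] at hc
        have : y * a * y⁻¹ = a := (mul_left_cancel hc).symm
        rwa [this] at ha
  haveI hAn : A.Normal := by
    rw [← Subgroup.normalizer_eq_top_iff, eq_top_iff, ← hgenG]
    refine Subgroup.closure_le _ |>.2 ?_
    intro y hy
    obtain ⟨n, hn, hc⟩ := Group.mem_conjugatesOfSet_iff.1 hy
    obtain ⟨c, rfl⟩ := isConj_iff.1 hc
    refine hnorm c⁻¹ ⟨n, hn, ?_⟩
    show c⁻¹⁻¹ * n * c⁻¹⁻¹⁻¹ = _
    group
  rcases IsSimpleGroup.eq_bot_or_eq_top_of_normal A hAn with hA0 | hA1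
  swap
  · exact hHt (top_le_iff.1 (hA1 ▸ hAH))
  have hall : ∀ g, ∀ y ∈ Nc g, ∀ h ∈ H, h * y = y * h := fun g => (key g).resolve_left fun h => by
    have h1 : Nc g ≤ A := le_sSup ⟨g, h, rfl⟩
    rw [hA0] at h1
    have h2 : Nat.card (Nc g) = Nat.card N :=
      (Nat.card_congr (N.equivMapOfInjective _ (MulAut.conj g⁻¹).injective).toEquiv).symm
    rw [le_bot_iff.1 h1, Subgroup.card_bot] at h2
    rw [← h2] at hN
    exact Nat.not_prime_one hN
  have hHc : H ≤ Subgroup.center G := by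
    intro h hh
    rw [Subgroup.mem_center_iff]
    intro y
    have hy : y ∈ Subgroup.centralizer ({h} : Set G) := by
      have : (⊤ : Subgroup G) ≤ Subgroup.centralizer ({h} : Set G) := by
        rw [← hgenG]
        refine Subgroup.closure_le _ |>.2 ?_
        intro z hz
        obtain ⟨n, hn, hc⟩ := Group.mem_conjugatesOfSet_iff.1 hz
        obtain ⟨c, rfl⟩ := isConj_iff.1 hc
        rw [SetLike.mem_coe, Subgroup.mem_centralizer_singleton_iff]
        exact (hall c⁻¹ _ ⟨n, hn, by show c⁻¹⁻¹ * n * c⁻¹⁻¹⁻¹ = _; group⟩ h hh).symm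
      exact this (Subgroup.mem_top y)
    rw [Subgroup.mem_centralizer_singleton_iff] at hy
    exact hy
  rcases IsSimpleGroup.eq_bot_or_eq_top_of_normal (Subgroup.center G) inferInstance with hz | hz
  · exact hHb (le_bot_iff.1 (hz ▸ hHc))
  · -- abelian simple groups have prime order
    haveI : IsMulCommutative G := ⟨⟨fun a b => Subgroup.mem_center_iff.1 (hz ▸ Subgroup.mem_top b) a⟩⟩
    haveI : H.Normal := ⟨fun h hh g => by
      rw [IsMulCommutative.is_comm.comm g h, mul_inv_cancel_right]; exact hh⟩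
    rcases IsSimpleGroup.eq_bot_or_eq_top_of_normal H inferInstance with h | h
    · exact hHb h
    · exact hHt h

end Cfsg.Agent.H36.Complemented
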