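import Cfsg.Prelude.Def_GeometricClasses
import Mathlib

/-! Normalisers of extension fields of composite degree are not maximal. -/

set_option autoImplicit false

namespace Cfsg.Agent.H36

open scoped Matrix
open Cfsg.Geo

variable {F : Type*} [Field F] [Fintype F] {n : ℕ}

/-- Some element of `SL` centralises the smaller field and does not normalise the larger one. -/
theorem exists_mem_normalizer_not_mem {a : ℕ} {A B : Subalgebra F (Matrix (Fin n) (Fin n) F)}
    (hA : IsFieldSubalgebra a A) (hBc : ∀ x ∈ B, ∀ y ∈ B, x * y = y * x)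
    (hBi : ∀ x ∈ B, x ≠ 0 → ∃ y ∈ B, x * y = 1) (hAB : A < B) (hn : 3 * a ≤ n) (ha : 0 < a) :
    ∃ g ∈ specialLinear (Fin n) F, g ∈ subalgebraNormalizer A ∧ g ∉ subalgebraNormalizer B := by
  classical
  have hne : Nonempty (Fin n) := ⟨⟨0, by omega⟩⟩
  have : Nontrivial A := ⟨⟨0, 1, fun e => zero_ne_one (congrArg Subtype.val e)⟩⟩
  have hAF : IsField A :=
    { exists_pair_ne := exists_pair_ne _
      mul_comm := fun x y => Subtype.ext (hA.comm x x.2 y y.2)
      mul_inv_cancel := fun {x} hx => by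
        obtain ⟨y, hy, hxy⟩ := hA.inv x x.2 (fun e => hx (Subtype.ext e))
        exact ⟨⟨y, hy⟩, Subtype.ext hxy⟩ }
  let _ : Field A := hAF.toField
  let _ : Module A (Fin n → F) := Module.compHom (Fin n → F)
    ((Matrix.toLinAlgEquiv' : Matrix (Fin n) (Fin n) F ≃ₐ[F] _).toAlgHom.comp A.val).toRingHom
  have hsmul : ∀ (c : A) (v : Fin n → F), c • v = (c : Matrix (Fin n) (Fin n) F) *ᵥ v :=
    fun c v => rfl
  have hst : IsScalarTower F A (Fin n → F) := ⟨fun c k v => by
    rw [hsmul, hsmul, Subalgebra.coe_smul, Matrix.smul_mulVec]⟩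
  have hdim : a * Module.finrank A (Fin n → F) = n := by
    have h := @Module.finrank_mul_finrank F A (Fin n → F) _ _ _ _ _ _ hst _ _ _ _
    rw [hA.finrank_eq, Module.finrank_fintype_fun_eq_card, Fintype.card_fin] at h
    exact h
  have hd3 : 3 ≤ Module.finrank A (Fin n → F) := by
    by_contra h
    push Not at h
    have h1 : a * Module.finrank A (Fin n → F) ≤ a * 2 := Nat.mul_le_mul_left a (by omega)
    omega
  have : Module.Finite A (Fin n → F) :=
    @Module.Finite.of_restrictScalars_finite F A (Fin n → F) _ _ _ _ _ _ hst _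
  obtain ⟨z, hz⟩ : ∃ z : Fin n → F, z ≠ 0 := exists_ne 0
  obtain ⟨w, hw⟩ : ∃ w, w ∉ Submodule.span A ({z} : Set (Fin n → F)) := by
    by_contra h
    push Not at h
    have h1 : Submodule.span A ({z} : Set (Fin n → F)) = ⊤ := eq_top_iff.2 fun x _ => h x
    have h2 := finrank_span_singleton (K := A) hz
    rw [h1, finrank_top] at h2
    omega
  obtain ⟨φ, hφw, hφz⟩ := Submodule.exists_dual_map_eq_bot_of_notMem hw inferInstance
  have hφz0 : φ z = 0 := by
    rw [← Submodule.mem_bot A, ← hφz]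
    exact Submodule.mem_map_of_mem (Submodule.mem_span_singleton_self z)
  let ψ : (Fin n → F) →ₗ[F] (Fin n → F) :=
    { toFun := fun x => φ x • z
      map_add' := fun x y => by
        rw [map_add, hsmul, hsmul, hsmul]; exact Matrix.add_mulVec _ _ _
      map_smul' := fun c x => by
        have h : ∀ y : Fin n → F, c • y = (algebraMap F A c) • y := fun y => by
          rw [hsmul]
          show c • y = (algebraMap F (Matrix (Fin n) (Fin n) F) c) *ᵥ y
          rw [Algebra.algebraMap_eq_smul_one, Matrix.smul_mulVec, Matrix.one_mulVec]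
        rw [RingHom.id_apply, h x, h (φ x • z), map_smul, smul_eq_mul, mul_smul] }
  set N := LinearMap.toMatrix' ψ
  have hN : ∀ x, N *ᵥ x = φ x • z := fun x => LinearMap.toMatrix'_mulVec ψ x
  have hN2 : N * N = 0 := Matrix.ext_of_mulVec_single fun i => by
    rw [← Matrix.mulVec_mulVec, hN, hN, map_smul, hφz0, smul_zero, zero_smul, Matrix.zero_mulVec]
  let g : GL (Fin n) F := ⟨1 + N, 1 - N,
    by rw [add_mul, mul_sub, mul_sub, one_mul, one_mul, mul_one, hN2]; abel,
    by rw [sub_mul, mul_add, mul_add, one_mul, one_mul, mul_one, hN2]; abel⟩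
  have hdet : g ∈ specialLinear (Fin n) F := by
    show Matrix.GeneralLinearGroup.det g = 1
    rw [← Units.val_inj]
    change (1 + N).det = 1
    obtain ⟨p, hp⟩ := CharP.exists F
    have := Fact.mk (CharP.char_is_prime F p)
    have h1 : (1 + N) ^ p = 1 := by
      rw [add_pow_char_of_commute p (Commute.one_left N), one_pow]
      have h2 : N ^ p = N * N * N ^ (p - 2) := by
        rw [← pow_two, ← pow_add]
        congr 1
        have := (Fact.out : p.Prime).two_le
        omega
      rw [h2, hN2, zero_mul, add_zero]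
    have h2 : ((1 + N).det - 1) ^ p = 0 := by
      rw [sub_pow_char (p := p), one_pow, ← Matrix.det_pow, h1, Matrix.det_one, sub_self]
    exact sub_eq_zero.1 (eq_zero_of_pow_eq_zero h2)
  have hgv : ∀ x, (g : Matrix (Fin n) (Fin n) F) *ᵥ x = x + φ x • z := fun x => by
    show (1 + N) *ᵥ x = _
    rw [Matrix.add_mulVec, Matrix.one_mulVec, hN]
  refine ⟨g, hdet, ?_, ?_⟩
  · have hcomm : ∀ c ∈ A, (g : Matrix (Fin n) (Fin n) F) * c = c * (g : Matrix (Fin n) (Fin n) F) :=
      fun c hc => Matrix.ext_of_mulVec_single fun i => by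
        rw [← Matrix.mulVec_mulVec, ← Matrix.mulVec_mulVec, hgv, hgv, Matrix.mulVec_add,
          ← hsmul ⟨c, hc⟩, ← hsmul ⟨c, hc⟩ (φ _ • z), map_smul, smul_eq_mul, mul_smul]
    intro k
    constructor
    · intro hk
      rwa [hcomm k hk, mul_assoc, Units.mul_inv, mul_one]
    · intro hk
      have h1 := hcomm _ hk
      rw [mul_assoc ((g : Matrix (Fin n) (Fin n) F) * k), Units.inv_mul, mul_one] at h1
      exact Units.mul_right_inj g |>.1 h1 ▸ hk
  · intro hg
    obtain ⟨k, hkB, hkA⟩ := SetLike.exists_of_lt hAB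
    set k' := (g : Matrix (Fin n) (Fin n) F) * k * ((g⁻¹ : GL (Fin n) F) : Matrix (Fin n) (Fin n) F)
    have hk' : k' ∈ B := (hg k).1 hkB
    have hgk : ∀ x, (g : Matrix (Fin n) (Fin n) F) *ᵥ (k *ᵥ x) =
        k' *ᵥ ((g : Matrix (Fin n) (Fin n) F) *ᵥ x) := fun x => by
      rw [Matrix.mulVec_mulVec, Matrix.mulVec_mulVec, show k' * (g : Matrix (Fin n) (Fin n) F) =
        (g : Matrix (Fin n) (Fin n) F) * k by simp only [k', mul_assoc, Units.inv_mul, mul_one]]
    let φk : (Fin n → F) →ₗ[A] A :=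
      { toFun := fun x => φ (k *ᵥ x)
        map_add' := fun x y => by rw [Matrix.mulVec_add, map_add]
        map_smul' := fun c x => by
          show φ (k *ᵥ ((c : Matrix (Fin n) (Fin n) F) *ᵥ x)) = c • φ (k *ᵥ x)
          rw [Matrix.mulVec_mulVec, hBc k hkB c (hAB.le c.2), ← Matrix.mulVec_mulVec]
          exact φ.map_smul c (k *ᵥ x) }
    obtain ⟨v, hv, hv0⟩ : ∃ v, v ∈ LinearMap.ker (φ.prod φk) ∧ v ≠ 0 := by
      refine Submodule.exists_mem_ne_zero_of_ne_bot fun h => ?_
      have h1 := LinearMap.finrank_le_finrank_of_injective (LinearMap.ker_eq_bot.1 h)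
      rw [Module.finrank_prod, Module.finrank_self] at h1
      omega
    replace hv : φ v = 0 ∧ φk v = 0 := Prod.mk_eq_zero.1 (LinearMap.mem_ker.1 hv)
    have hinj : ∀ c ∈ B, c *ᵥ v = 0 → c = 0 := fun c hc hcv => by
      by_contra hc0
      obtain ⟨y, hy, hcy⟩ := hBi c hc hc0
      have h1 := congrArg (fun x => y *ᵥ x) hcv
      simp only [Matrix.mulVec_mulVec, hBc y hy c hc, hcy, Matrix.one_mulVec,
        Matrix.mulVec_zero] at h1
      exact hv0 h1
    have hkk : k' = k := by
      refine (sub_eq_zero.1 (hinj _ (B.sub_mem hkB hk') ?_)).symm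
      have h1 := hgk v
      rw [hgv, hgv, show φ (k *ᵥ v) = 0 from hv.2, hv.1, hsmul, show ((0 : A) : Matrix (Fin n) (Fin n) F) = 0
        from rfl, Matrix.zero_mulVec, add_zero, add_zero] at h1
      rw [Matrix.sub_mulVec, ← h1, sub_self]
    have h1 := hgk w
    rw [hkk, hgv, hgv, Matrix.mulVec_add, add_right_inj] at h1
    set c := (φ w)⁻¹ * φ (k *ᵥ w)
    have h2 : k *ᵥ z = (c : Matrix (Fin n) (Fin n) F) *ᵥ z := by
      have h3 : k *ᵥ (φ w • z) = φ w • (k *ᵥ z) := by
        rw [hsmul, hsmul, Matrix.mulVec_mulVec, Matrix.mulVec_mulVec,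
          hBc k hkB _ (hAB.le (φ w).2)]
      rw [h3] at h1
      rw [← hsmul c z, mul_smul, h1, inv_smul_smul₀ hφw]
    apply hkA
    have h4 : k - (c : Matrix (Fin n) (Fin n) F) = 0 := by
      by_contra hc0
      obtain ⟨y, hy, hcy⟩ := hBi _ (B.sub_mem hkB (hAB.le c.2)) hc0
      have h5 : (k - (c : Matrix (Fin n) (Fin n) F)) *ᵥ z = 0 := by
        rw [Matrix.sub_mulVec, h2, sub_self]
      have h6 := congrArg (fun x => y *ᵥ x) h5
      simp only [Matrix.mulVec_mulVec, hBc y hy _ (B.sub_mem hkB (hAB.le c.2)), hcy,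
        Matrix.one_mulVec, Matrix.mulVec_zero] at h6
      exact hz h6
    rw [sub_eq_zero.1 h4]
    exact c.2

theorem extension_field_normalizer_not_maximal (n r : ℕ) (hr1 : 1 < r) (hrp : ¬ r.Prime)
    (hrn : r ∣ n) (hlt : r < n) (K : Subalgebra F (Matrix (Fin n) (Fin n) F))
    (hK : IsFieldSubalgebra r K) :
    ¬ IsCoatom (subalgebraNormalizer K) ∧
      ¬ IsMaximalIn (specialLinear (Fin n) F) (subalgebraNormalizer K ⊓ specialLinear (Fin n) F) := by
  classical
  have hne : Nonempty (Fin n) := ⟨⟨0, by omega⟩⟩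
  obtain ⟨p, hp⟩ := CharP.exists F
  obtain ⟨e, hpp, hpe⟩ := FiniteField.card F p
  have := Fact.mk hpp
  obtain ⟨s, hsr, hs2, hslt⟩ := Nat.exists_dvd_of_not_prime2 hr1 hrp
  set q := Fintype.card F
  set Q := q ^ s
  have hQp : Q = p ^ ((e : ℕ) * s) := by rw [pow_mul, ← hpe]
  let L : Subalgebra F (Matrix (Fin n) (Fin n) F) :=
    { carrier := {x | x ∈ K ∧ x ^ Q = x}
      mul_mem' := fun {x y} hx hy => ⟨K.mul_mem hx.1 hy.1, by
        rw [Commute.mul_pow (hK.comm x hx.1 y hy.1), hx.2, hy.2]⟩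
      add_mem' := fun {x y} hx hy => ⟨K.add_mem hx.1 hy.1, by
        rw [hQp, add_pow_char_pow_of_commute p (h := hK.comm x hx.1 y hy.1), ← hQp, hx.2, hy.2]⟩
      algebraMap_mem' := fun c => ⟨K.algebraMap_mem c, by
        rw [← map_pow, FiniteField.pow_card_pow]⟩ }
  have : Nontrivial K := ⟨⟨0, 1, fun h => zero_ne_one (congrArg Subtype.val h)⟩⟩
  have hKF : IsField K :=
    { exists_pair_ne := exists_pair_ne _
      mul_comm := fun x y => Subtype.ext (hK.comm x x.2 y y.2)
      mul_inv_cancel := fun {x} hx => by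
        obtain ⟨y, hy, hxy⟩ := hK.inv x x.2 (fun h => hx (Subtype.ext h))
        exact ⟨⟨y, hy⟩, Subtype.ext hxy⟩ }
  let _ : Field K := hKF.toField
  have : Fintype K := Fintype.ofFinite _
  have hKcard : Fintype.card K = q ^ r := by
    rw [Module.card_eq_pow_finrank (K := F), hK.finrank_eq]
  have hQ1 : 1 < Q := Nat.one_lt_pow (by omega) Fintype.one_lt_card
  have hQlt : Q < q ^ r := Nat.pow_lt_pow_right Fintype.one_lt_card hslt
  have hLcard : Nat.card L ≤ Q := by
    let P : Polynomial K := Polynomial.X ^ Q - Polynomial.X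
    have hdeg := FiniteField.X_pow_card_sub_X_natDegree_eq K hQ1
    have hP : P ≠ 0 := FiniteField.X_pow_card_sub_X_ne_zero K hQ1
    calc Nat.card L ≤ Nat.card {x : K // x ∈ P.roots.toFinset} :=
          Nat.card_le_card_of_injective
            (fun x => ⟨⟨(x : Matrix (Fin n) (Fin n) F), x.2.1⟩, by
              rw [Multiset.mem_toFinset, Polynomial.mem_roots hP]
              simp only [P, Polynomial.IsRoot, Polynomial.eval_sub, Polynomial.eval_pow,
                Polynomial.eval_X, sub_eq_zero]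
              exact Subtype.ext x.2.2⟩)
            (fun x y h => Subtype.ext (congrArg Subtype.val (congrArg Subtype.val h) :))
      _ = P.roots.toFinset.card := by rw [Nat.card_eq_fintype_card, Fintype.card_coe]
      _ ≤ Multiset.card P.roots := Multiset.toFinset_card_le _
      _ ≤ P.natDegree := Polynomial.card_roots' P
      _ = Q := hdeg
  have hLK : L ≤ K := fun x hx => hx.1
  have hLne : L < K := by
    refine lt_of_le_of_ne hLK fun h => ?_
    rw [h, Nat.card_eq_fintype_card, hKcard] at hLcard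
    omega
  set b := Module.finrank F L
  have hb : b ≤ s := by
    have := Fintype.ofFinite L
    rw [Nat.card_eq_fintype_card, Module.card_eq_pow_finrank (K := F)] at hLcard
    exact (Nat.pow_le_pow_iff_right Fintype.one_lt_card).1 hLcard
  have hLfield : IsFieldSubalgebra b L := by
    refine ⟨fun x hx y hy => hK.comm x hx.1 y hy.1, fun x hx hx0 => ?_, rfl⟩
    refine ⟨x ^ (Q - 2), pow_mem hx _, ?_⟩
    obtain ⟨y, hy, hxy⟩ := hK.inv x hx.1 hx0
    have h1 : x * (x * x ^ (Q - 2)) = x * 1 := by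
      rw [← pow_succ', ← pow_succ', show Q - 2 + 1 + 1 = Q by omega, hx.2, mul_one]
    have h2 := congrArg (fun z => y * z) h1
    simp only [← mul_assoc, hK.comm y hy x hx.1, hxy, one_mul] at h2
    exact h2
  have hbotL : (⊥ : Subalgebra F (Matrix (Fin n) (Fin n) F)) < L := by
    refine lt_of_le_not_ge bot_le fun h => ?_
    obtain ⟨u, hu⟩ := IsCyclic.exists_generator (α := Kˣ)
    have hord : orderOf u = q ^ r - 1 := by
      rw [orderOf_eq_card_of_forall_mem_zpowers hu, Nat.card_units, Nat.card_eq_fintype_card, hKcard]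
    obtain ⟨d, hd⟩ : Q - 1 ∣ q ^ r - 1 := Nat.pow_sub_one_dvd_pow_sub_one q hsr
    have hmem : (((u ^ d : Kˣ) : K) : Matrix (Fin n) (Fin n) F) ∈ L := by
      refine ⟨((u ^ d : Kˣ) : K).2, ?_⟩
      rw [← SubmonoidClass.coe_pow, ← Units.val_pow_eq_pow_val, ← pow_mul]
      rw [show d * Q = d * (Q - 1) + d by rw [Nat.mul_sub, mul_one]; exact (Nat.sub_add_cancel
        (Nat.le_mul_of_pos_right d (by omega))).symm, pow_add, mul_comm d, ← hd, ← hord,
        pow_orderOf_eq_one, one_mul]
    obtain ⟨c, hc⟩ := Algebra.mem_bot.1 (h hmem)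
    have hc' : ((u ^ d : Kˣ) : K) = algebraMap F K c := Subtype.ext hc.symm
    have h1 : (u ^ d) ^ (q - 1) = 1 := by
      refine Units.ext ?_
      rw [Units.val_pow_eq_pow_val, hc', ← map_pow, FiniteField.pow_card_sub_one_eq_one c ?_,
        map_one, Units.val_one]
      rintro rfl
      rw [map_zero] at hc'
      exact (u ^ d).ne_zero hc'
    have h2 := orderOf_dvd_of_pow_eq_one h1
    rw [← pow_mul] at h1
    have h3 := Nat.le_of_dvd (by
      refine Nat.mul_pos (Nat.pos_of_ne_zero ?_) (Nat.sub_pos_of_lt Fintype.one_lt_card)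
      rintro rfl
      rw [mul_zero] at hd
      omega) (orderOf_dvd_of_pow_eq_one h1)
    rw [hord, hd, mul_comm d] at h3
    have hd0 : 0 < d := Nat.pos_of_ne_zero (by rintro rfl; omega)
    have h4 := Nat.le_of_mul_le_mul_right h3 hd0
    have h5 : q < Q := by
      conv_lhs => rw [← pow_one q]
      exact Nat.pow_lt_pow_right Fintype.one_lt_card (by omega)
    omega
  have hsr2 : 2 * s ≤ r := by
    obtain ⟨c, hc⟩ := hsr
    have : 2 ≤ c := by
      by_contra hc2
      interval_cases c <;> omega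
    rw [hc, mul_comm 2]
    exact Nat.mul_le_mul_left s this
  have hn2 : 2 * r ≤ n := by
    obtain ⟨c, hc⟩ := hrn
    have : 2 ≤ c := by
      by_contra hc2
      interval_cases c <;> omega
    rw [hc, mul_comm 2]
    exact Nat.mul_le_mul_left r this
  have hb0 : 0 < b := by
    have : Nontrivial L := ⟨⟨0, 1, fun h => zero_ne_one (congrArg Subtype.val h)⟩⟩
    exact Module.finrank_pos
  obtain ⟨g, hgS, hgL, hgK⟩ :=
    exists_mem_normalizer_not_mem hLfield hK.comm hK.inv hLne (by omega) hb0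
  have hbotF : IsFieldSubalgebra 1 (⊥ : Subalgebra F (Matrix (Fin n) (Fin n) F)) := by
    refine ⟨fun x hx y hy => hK.comm x (bot_le (a := K) hx) y (bot_le (a := K) hy),
      fun x hx hx0 => ?_, Subalgebra.finrank_bot⟩
    obtain ⟨c, rfl⟩ := Algebra.mem_bot.1 hx
    refine ⟨algebraMap F _ c⁻¹, Subalgebra.algebraMap_mem _ _, ?_⟩
    rw [← map_mul, mul_inv_cancel₀ (fun h => hx0 (by rw [h, map_zero])), map_one]
  obtain ⟨h, hhS, -, hhL⟩ :=
    exists_mem_normalizer_not_mem hbotF hLfield.comm hLfield.inv hbotL (by omega) one_pos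
  have hNK : subalgebraNormalizer K ≤ subalgebraNormalizer L := by
    intro x hx k
    have hpow : ∀ y : Matrix (Fin n) (Fin n) F, ((x : Matrix (Fin n) (Fin n) F) * y *
        ((x⁻¹ : GL (Fin n) F) : Matrix (Fin n) (Fin n) F)) ^ Q =
        (x : Matrix (Fin n) (Fin n) F) * y ^ Q * ((x⁻¹ : GL (Fin n) F) : Matrix (Fin n) (Fin n) F) :=
      fun y => Units.conj_pow x y Q
    constructor
    · exact fun hk => ⟨(hx k).1 hk.1, by rw [hpow, hk.2]⟩
    · intro hk
      refine ⟨(hx k).2 hk.1, ?_⟩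
      have h2 := hk.2
      rw [hpow] at h2
      exact (Units.mul_right_inj x).1 ((Units.mul_left_inj x⁻¹).1 h2)
  constructor
  · intro hc
    have htop := hc.2 _ (lt_of_le_of_ne hNK fun he => hgK (he ▸ hgL))
    exact hhL (htop ▸ Subgroup.mem_top h)
  · intro hm
    rcases hm.2 (subalgebraNormalizer L ⊓ specialLinear (Fin n) F) (inf_le_inf_right _ hNK)
      inf_le_right with he | he
    · exact hgK (show g ∈ subalgebraNormalizer K ⊓ specialLinear (Fin n) F from he ▸ ⟨hgL, hgS⟩).1
    · exact hhL (show h ∈ subalgebraNormalizer L ⊓ specialLinear (Fin n) F from he.symm ▸ hhS).1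

end Cfsg.Agent.H36
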