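import Mathlib

/-! Perfect groups with soluble maximal subgroups of large derived length: `SL(2, ZMod (5 ^ n))`. -/

set_option autoImplicit false
set_option linter.unusedSimpArgs false
set_option linter.style.haveILetI false

namespace Cfsg.Agent.H36.LongDerived

open Matrix
open scoped MatrixGroups commutatorElement

variable {n : ℕ}

local notation "R" => ZMod (5 ^ (n + 1))
local notation "SLR" => Matrix.SpecialLinearGroup (Fin 2) (ZMod (5 ^ (n + 1)))

/-- Upper unitriangular elements. -/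
def up (x : R) : SLR := ⟨!![1, x; 0, 1], by simp [Matrix.det_fin_two]⟩

/-- Lower unitriangular elements. -/
def lo (x : R) : SLR := ⟨!![1, 0; x, 1], by simp [Matrix.det_fin_two]⟩

/-- Diagonal elements. -/
def dg (u : Rˣ) : SLR := ⟨!![(u : R), 0; 0, ((u⁻¹ : Rˣ) : R)], by simp [Matrix.det_fin_two]⟩

/-- Reduction modulo five. -/
def red (n : ℕ) : ZMod (5 ^ (n + 1)) →+* ZMod 5 :=
  ZMod.castHom (dvd_pow_self 5 n.succ_ne_zero) _

theorem up_val (x : R) : (up x).1 = !![1, x; 0, 1] := rfl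

theorem lo_val (x : R) : (lo x).1 = !![1, 0; x, 1] := rfl

theorem dg_val (u : Rˣ) : (dg u).1 = !![(u : R), 0; 0, ((u⁻¹ : Rˣ) : R)] := rfl

theorem isUnit_of_red_ne_zero {x : R} (h : red n x ≠ 0) : IsUnit x := by
  haveI : Fact (Nat.Prime 5) := ⟨by norm_num⟩
  rw [← ZMod.natCast_zmod_val x] at h ⊢
  rw [map_natCast, Ne, ZMod.natCast_eq_zero_iff] at h
  refine (ZMod.unitOfCoprime x.val ?_).isUnit
  exact Nat.Coprime.pow_right _ ((Fact.out : Nat.Prime 5).coprime_iff_not_dvd.2 h).symm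

theorem red_eq_zero_iff (x : R) : red n x = 0 ↔ ∃ y, x = 5 * y := by
  constructor
  · intro h
    rw [← ZMod.natCast_zmod_val x, map_natCast, ZMod.natCast_eq_zero_iff] at h
    obtain ⟨c, hc⟩ := h
    exact ⟨(c : R), by rw [← ZMod.natCast_zmod_val x, hc]; push_cast; ring⟩
  · rintro ⟨y, rfl⟩
    rw [map_mul, show red n 5 = 0 from (map_ofNat (red n) 5).trans (by decide), zero_mul]

theorem up_add (x y : R) : up x * up y = up (x + y) := by
  ext i j
  fin_cases i <;> fin_cases j <;> simp [up_val, Matrix.mul_apply, Fin.sum_univ_two, add_comm, Matrix.SpecialLinearGroup.coe_mul]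

theorem lo_add (x y : R) : lo x * lo y = lo (x + y) := by
  ext i j
  fin_cases i <;> fin_cases j <;> simp [lo_val, Matrix.mul_apply, Fin.sum_univ_two, Matrix.SpecialLinearGroup.coe_mul]

theorem up_inv (x : R) : (up x)⁻¹ = up (-x) := by
  refine inv_eq_of_mul_eq_one_right ?_
  rw [up_add, add_neg_cancel]
  ext i j
  fin_cases i <;> fin_cases j <;> simp [up_val, Matrix.SpecialLinearGroup.coe_mul]

theorem lo_inv (x : R) : (lo x)⁻¹ = lo (-x) := by
  refine inv_eq_of_mul_eq_one_right ?_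
  rw [lo_add, add_neg_cancel]
  ext i j
  fin_cases i <;> fin_cases j <;> simp [lo_val, Matrix.SpecialLinearGroup.coe_mul]

theorem dg_inv (u : Rˣ) : (dg u)⁻¹ = dg u⁻¹ := by
  refine inv_eq_of_mul_eq_one_right ?_
  ext i j
  fin_cases i <;> fin_cases j <;> simp [dg_val, Matrix.mul_apply, Fin.sum_univ_two, Matrix.SpecialLinearGroup.coe_mul]

theorem lo_pow (c : R) : ∀ m : ℕ, lo c ^ m = lo ((m : R) * c)
  | 0 => by ext i j; fin_cases i <;> fin_cases j <;> simp [lo_val, Matrix.SpecialLinearGroup.coe_mul]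
  | m + 1 => by rw [pow_succ (lo c), lo_pow c m, lo_add]; congr 1; push_cast; ring

theorem comm_dg_up (u : Rˣ) (x : R) : ⁅dg u, up x⁆ = up (((u : R) * (u : R) - 1) * x) := by
  rw [commutatorElement_def, dg_inv, up_inv]
  ext i j
  fin_cases i <;> fin_cases j <;> simp [up_val, dg_val, Matrix.mul_apply, Fin.sum_univ_two, Matrix.SpecialLinearGroup.coe_mul]
  ring

theorem comm_dg_lo (u : Rˣ) (x : R) : ⁅dg u⁻¹, lo x⁆ = lo (((u : R) * (u : R) - 1) * x) := by
  rw [commutatorElement_def, dg_inv, lo_inv]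
  ext i j
  fin_cases i <;> fin_cases j <;> simp [lo_val, dg_val, Matrix.mul_apply, Fin.sum_univ_two, Matrix.SpecialLinearGroup.coe_mul]
  ring

theorem comm_up_lo (x y : R) (w : Rˣ) (hw : (w : R) = 1 - x * y) :
    ⁅up x, lo y⁆ = up (-(x * x * y) * ((w⁻¹ : Rˣ) : R)) * dg w⁻¹ * lo (x * y * y * ((w⁻¹ : Rˣ) : R)) := by
  have h1 : (w : R) * ((w⁻¹ : Rˣ) : R) = 1 := w.mul_inv
  rw [commutatorElement_def, up_inv, lo_inv]
  ext i j
  fin_cases i <;> fin_cases j <;> simp [up_val, lo_val, dg_val, Matrix.mul_apply, Fin.sum_univ_two, Matrix.SpecialLinearGroup.coe_mul]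
  · linear_combination (-1 - x * y - x ^ 2 * y ^ 2) * h1 +
      (((w⁻¹ : Rˣ) : R) * (1 + x * y + x ^ 2 * y ^ 2)) * hw
  · ring
  · linear_combination (-(x * y ^ 2)) * h1
  · linear_combination -hw

/-- The generators at a given congruence level. -/
def Level (a : ℕ) (D : Subgroup SLR) : Prop :=
  (∀ x : R, up (5 ^ a * x) ∈ D) ∧ (∀ x : R, lo (5 ^ a * x) ∈ D) ∧
    ∀ u : Rˣ, (∃ z : R, (u : R) = 1 + 5 ^ a * z) → dg u ∈ D

theorem exists_unit_one_add {a : ℕ} (ha : 1 ≤ a) (z : R) : ∃ u : Rˣ, (u : R) = 1 + 5 ^ a * z := by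
  refine ⟨(isUnit_of_red_ne_zero ?_).unit, IsUnit.unit_spec _⟩
  have h5 : red n 5 = 0 := (map_ofNat (red n) 5).trans (by decide)
  rw [map_add, map_one, map_mul, map_pow, h5, zero_pow (by omega), zero_mul, add_zero]
  decide

/-- One step of the derived series doubles the level. -/
theorem level_step {a : ℕ} (ha : 1 ≤ a) {D : Subgroup SLR} (hD : Level a D) :
    Level (2 * a) ⁅D, D⁆ := by
  obtain ⟨hu, hl, hd⟩ := hD
  obtain ⟨u, hu1⟩ := exists_unit_one_add (n := n) ha 1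
  obtain ⟨v, hv⟩ : ∃ v : Rˣ, (v : R) = 2 + 5 ^ a := by
    refine ⟨(isUnit_of_red_ne_zero ?_).unit, IsUnit.unit_spec _⟩
    have h5 : red n 5 = 0 := (map_ofNat (red n) 5).trans (by decide)
    rw [map_add, map_pow, h5, zero_pow (by omega), add_zero, map_ofNat]
    decide
  have hvi : (v : R) * ((v⁻¹ : Rˣ) : R) = 1 := v.mul_inv
  have hkey : ∀ x : R, ((u : R) * (u : R) - 1) * (5 ^ a * (((v⁻¹ : Rˣ) : R) * x)) = 5 ^ (2 * a) * x := by
    intro x
    rw [hu1]
    linear_combination (5 ^ (2 * a) * x) * hvi -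
      (5 ^ (2 * a) * x * ((v⁻¹ : Rˣ) : R)) * hv
  have hud : dg u ∈ D := hd u ⟨1, hu1⟩
  have hud' : dg u⁻¹ ∈ D := by rw [← dg_inv]; exact D.inv_mem hud
  have hup : ∀ x : R, up (5 ^ (2 * a) * x) ∈ ⁅D, D⁆ := fun x => by
    rw [← hkey x, ← comm_dg_up]
    exact Subgroup.commutator_mem_commutator hud (hu _)
  have hlo : ∀ x : R, lo (5 ^ (2 * a) * x) ∈ ⁅D, D⁆ := fun x => by
    rw [← hkey x, ← comm_dg_lo]
    exact Subgroup.commutator_mem_commutator hud' (hl _)
  refine ⟨hup, hlo, fun w hw => ?_⟩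
  obtain ⟨z, hz⟩ := hw
  have hw' : (w : R) = 1 - (5 ^ a * 1) * (5 ^ a * -z) := by rw [hz]; ring
  have h1 := comm_up_lo _ _ w hw'
  have h2 : ⁅up (5 ^ a * (1 : R)), lo (5 ^ a * -z)⁆ ∈ ⁅D, D⁆ :=
    Subgroup.commutator_mem_commutator (hu _) (hl _)
  rw [h1] at h2
  have h3 : up (-(5 ^ a * 1 * (5 ^ a * 1) * (5 ^ a * -z)) * ((w⁻¹ : Rˣ) : R)) ∈ ⁅D, D⁆ := by
    convert hup (5 ^ a * z * ((w⁻¹ : Rˣ) : R)) using 2
    ring
  have h4 : lo (5 ^ a * 1 * (5 ^ a * -z) * (5 ^ a * -z) * ((w⁻¹ : Rˣ) : R)) ∈ ⁅D, D⁆ := by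
    convert hlo (5 ^ a * z * z * ((w⁻¹ : Rˣ) : R)) using 2
    ring
  have h5 := mul_mem (mul_mem (Subgroup.inv_mem _ h3) h2) (Subgroup.inv_mem _ h4)
  simp only [mul_assoc, mul_inv_cancel, mul_one, inv_mul_cancel_left] at h5
  have := Subgroup.inv_mem _ h5
  rwa [dg_inv, inv_inv] at this

theorem eq_up_lo_up (g : SLR) (c : Rˣ) (hc : (c : R) = g.1 1 0) :
    g = up ((g.1 0 0 - 1) * ((c⁻¹ : Rˣ) : R)) * lo (g.1 1 0) *
      up ((g.1 1 1 - 1) * ((c⁻¹ : Rˣ) : R)) := by
  have hd := g.2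
  rw [Matrix.det_fin_two] at hd
  have h1 : (c : R) * ((c⁻¹ : Rˣ) : R) = 1 := c.mul_inv
  rw [hc] at h1
  ext i j
  fin_cases i <;> fin_cases j <;> simp [up_val, lo_val, Matrix.mul_apply, Fin.sum_univ_two, Matrix.SpecialLinearGroup.coe_mul]
  · linear_combination -(g.1 0 0 - 1) * h1
  · linear_combination -(g.1 0 1 + (g.1 0 0 - 1) * (g.1 1 1 - 1) * ((c⁻¹ : Rˣ) : R)) * h1 -
      ((c⁻¹ : Rˣ) : R) * hd
  · linear_combination -(g.1 1 1 - 1) * h1

theorem isUnit_or_isUnit (g : SLR) : IsUnit (g.1 1 0) ∨ IsUnit ((lo 1 * g : SLR).1 1 0) := by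
  by_cases h : red n (g.1 1 0) = 0
  · refine Or.inr (isUnit_of_red_ne_zero ?_)
    have : (lo 1 * g : SLR).1 1 0 = g.1 0 0 + g.1 1 0 := by
      simp [lo_val, Matrix.mul_apply, Fin.sum_univ_two, Matrix.SpecialLinearGroup.coe_mul]
    rw [this, map_add, h, add_zero]
    intro h0
    have hd := congrArg (red n) g.2
    rw [Matrix.det_fin_two, map_sub, map_mul, map_mul, h, h0, map_one, zero_mul, mul_zero,
      sub_zero] at hd
    exact (show (0 : ZMod 5) ≠ 1 by decide) hd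
  · exact Or.inl (isUnit_of_red_ne_zero h)

theorem eq_top_of_up_lo (K : Subgroup SLR) (hu : ∀ x, up x ∈ K) (hl : ∀ x, lo x ∈ K) : K = ⊤ := by
  refine eq_top_iff.2 fun g _ => ?_
  have key : ∀ g : SLR, IsUnit (g.1 1 0) → g ∈ K := fun g hg => by
    rw [eq_up_lo_up g hg.unit hg.unit_spec]
    exact mul_mem (mul_mem (hu _) (hl _)) (hu _)
  rcases isUnit_or_isUnit g with h | h
  · exact key g h
  · have := mul_mem (Subgroup.inv_mem _ (hl 1)) (key _ h)
    rwa [inv_mul_cancel_left] at this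

theorem commutator_eq_top (n : ℕ) :
    commutator (Matrix.SpecialLinearGroup (Fin 2) (ZMod (5 ^ (n + 1)))) = ⊤ := by
  obtain ⟨u, hu⟩ : ∃ u : (ZMod (5 ^ (n + 1)))ˣ, (u : ZMod (5 ^ (n + 1))) = 2 :=
    ⟨(isUnit_of_red_ne_zero (by rw [map_ofNat]; decide)).unit, IsUnit.unit_spec _⟩
  obtain ⟨t, ht⟩ : ∃ t : (ZMod (5 ^ (n + 1)))ˣ, (t : ZMod (5 ^ (n + 1))) = 3 :=
    ⟨(isUnit_of_red_ne_zero (by rw [map_ofNat]; decide)).unit, IsUnit.unit_spec _⟩
  have hx : ∀ x, x = ((u : ZMod (5 ^ (n + 1))) * u - 1) * ((t⁻¹ : (ZMod (5 ^ (n + 1)))ˣ) * x) := by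
    intro x
    rw [hu, show (2 : ZMod (5 ^ (n + 1))) * 2 - 1 = (t : ZMod (5 ^ (n + 1))) by rw [ht]; norm_num,
      ← mul_assoc, Units.mul_inv, one_mul]
  refine eq_top_of_up_lo _ (fun x => ?_) fun x => ?_
  · rw [hx x, ← comm_dg_up, commutator_def]
    exact Subgroup.commutator_mem_commutator (Subgroup.mem_top _) (Subgroup.mem_top _)
  · rw [hx x, ← comm_dg_lo, commutator_def]
    exact Subgroup.commutator_mem_commutator (Subgroup.mem_top _) (Subgroup.mem_top _)

/-- The preimage of the Borel subgroup. -/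
def borel (n : ℕ) : Subgroup (Matrix.SpecialLinearGroup (Fin 2) (ZMod (5 ^ (n + 1)))) where
  carrier := {g | red n (g.1 1 0) = 0}
  one_mem' := by simp
  mul_mem' {g h} hg hh := by
    show red n ((g * h).1 1 0) = 0
    simp only [Set.mem_setOf_eq] at hg hh
    simp [Matrix.mul_apply, Fin.sum_univ_two, hg, hh]
  inv_mem' {g} hg := by
    show red n ((g⁻¹).1 1 0) = 0
    simp only [Set.mem_setOf_eq] at hg
    simp [Matrix.SpecialLinearGroup.coe_inv, Matrix.adjugate_fin_two, hg]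

theorem borel_isCoatom (n : ℕ) : IsCoatom (borel n) := by
  refine ⟨fun h => ?_, fun M hM => ?_⟩
  · have hmem : lo (1 : ZMod (5 ^ (n + 1))) ∈ borel n := by rw [h]; exact Subgroup.mem_top _
    have h1 : red n ((lo (1 : ZMod (5 ^ (n + 1)))).1 1 0) = 0 := hmem
    simp [lo_val, Matrix.SpecialLinearGroup.coe_mul] at h1
    exact (show (1 : ZMod 5) ≠ 0 by decide) h1
  · obtain ⟨g, hgM, hgH⟩ := SetLike.exists_of_lt hM
    have hu : ∀ x, up x ∈ M := fun x => hM.le (show red n ((up x).1 1 0) = 0 by simp [up_val, Matrix.SpecialLinearGroup.coe_mul])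
    have hc : IsUnit (g.1 1 0) := isUnit_of_red_ne_zero hgH
    have h1 := eq_up_lo_up g hc.unit hc.unit_spec
    have h2 : lo (g.1 1 0) ∈ M := by
      rw [h1] at hgM
      have := mul_mem (mul_mem (Subgroup.inv_mem _
        (hu ((g.1 0 0 - 1) * ((hc.unit⁻¹ : (ZMod (5 ^ (n + 1)))ˣ) : ZMod (5 ^ (n + 1)))))) hgM)
        (Subgroup.inv_mem _
          (hu ((g.1 1 1 - 1) * ((hc.unit⁻¹ : (ZMod (5 ^ (n + 1)))ˣ) : ZMod (5 ^ (n + 1))))))
      simpa [mul_assoc] using this
    refine eq_top_of_up_lo M hu fun x => ?_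
    have h3 := pow_mem h2 (x * ((hc.unit⁻¹ : (ZMod (5 ^ (n + 1)))ˣ) : ZMod (5 ^ (n + 1)))).val
    rw [lo_pow, ZMod.natCast_zmod_val, mul_assoc, IsUnit.val_inv_mul, mul_one] at h3
    exact h3

theorem unipotent_pow_five : ∀ b : ZMod 5, !![1, b; 0, 1] ^ 5 = (1 : Matrix (Fin 2) (Fin 2) (ZMod 5)) := by
  decide

theorem pow_congr_step {i : ℕ} (hi : 1 ≤ i) (g : Matrix (Fin 2) (Fin 2) R)
    (M : Matrix (Fin 2) (Fin 2) R) (hg : g = 1 + (5 : R) ^ i • M) :
    ∃ M', g ^ 5 = 1 + (5 : R) ^ (i + 1) • M' := by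
  subst hg
  set N := (5 : R) ^ i • M
  have h : ∀ m : ℕ, ∃ Q, (1 + N) ^ m = 1 + (m : R) • N + N * N * Q := by
    intro m
    induction m with
    | zero => exact ⟨0, by simp⟩
    | succ m ih =>
      obtain ⟨Q, hQ⟩ := ih
      refine ⟨(m : R) • 1 + Q * (1 + N), ?_⟩
      rw [pow_succ (1 + N), hQ, Nat.cast_succ, add_smul, one_smul]
      simp only [mul_add, add_mul, one_mul, mul_one, smul_mul_assoc, mul_smul_comm, mul_assoc]
      abel
  obtain ⟨Q, hQ⟩ := h 5
  refine ⟨M + ((5 : R) ^ (i - 1)) • (M * M * Q), ?_⟩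
  rw [hQ]
  simp only [N, smul_mul_assoc, mul_smul_comm, smul_smul, smul_add, Nat.cast_ofNat]
  rw [← pow_succ', ← pow_add, ← pow_add, show i + 1 + (i - 1) = i + i by omega, add_assoc]

theorem borel_isSolvable (n : ℕ) : Group.IsSolvable (borel n) := by
  haveI : Fact (Nat.Prime 5) := ⟨by norm_num⟩
  let f : borel n →* ZMod 5 :=
    { toFun := fun g => red n ((g : Matrix.SpecialLinearGroup (Fin 2) (ZMod (5 ^ (n + 1)))).1 0 0)
      map_one' := by simp
      map_mul' := fun g h => by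
        have := h.2
        simp only [borel, Subgroup.mem_mk] at this
        change red n (((h : Matrix.SpecialLinearGroup (Fin 2) (ZMod (5 ^ (n + 1))))).1 1 0) = 0 at this
        simp [Matrix.mul_apply, Fin.sum_univ_two, this] }
  let φ : borel n →* (ZMod 5)ˣ := f.toHomUnits
  have hker : IsPGroup 5 φ.ker := by
    intro g
    refine ⟨n + 2, Subtype.ext (Subtype.ext (Subtype.ext ?_))⟩
    have h00 : red n (((g : borel n) : Matrix.SpecialLinearGroup (Fin 2)
        (ZMod (5 ^ (n + 1)))).1 0 0) = 1 := congrArg Units.val (MonoidHom.mem_ker.1 g.2)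
    have h10 : red n (((g : borel n) : Matrix.SpecialLinearGroup (Fin 2)
        (ZMod (5 ^ (n + 1)))).1 1 0) = 0 := (g : borel n).2
    set A := ((g : borel n) : Matrix.SpecialLinearGroup (Fin 2) (ZMod (5 ^ (n + 1))))
    have hdet := congrArg (red n) A.2
    rw [Matrix.det_fin_two, map_sub, map_mul, map_mul, h00, h10, map_one, one_mul, mul_zero,
      sub_zero] at hdet
    -- the fifth power is congruent to one
    have hA : (A.1 ^ 5).map (red n) = 1 := by
      rw [show (A.1 ^ 5).map (red n) = (A.1.map (red n)) ^ 5 from map_pow (red n).mapMatrix A.1 5,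
        show A.1.map (red n) = !![1, red n (A.1 0 1); 0, 1] from by
          ext i j
          fin_cases i <;> fin_cases j <;> simp [h00, h10, hdet]]
      exact unipotent_pow_five _
    have hM : ∃ M, A.1 ^ 5 = 1 + (5 : ZMod (5 ^ (n + 1))) ^ 1 • M := by
      have h : ∀ i j, ∃ y, (A.1 ^ 5) i j - (1 : Matrix (Fin 2) (Fin 2) (ZMod (5 ^ (n + 1)))) i j =
          5 * y := fun i j => by
        refine (red_eq_zero_iff _).1 ?_
        have h1 := congrFun (congrFun hA i) j
        rw [Matrix.map_apply] at h1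
        rw [map_sub, h1, Matrix.one_apply, Matrix.one_apply]
        split_ifs <;> simp
      choose M hM using h
      refine ⟨Matrix.of M, ?_⟩
      ext i j
      simp only [Matrix.add_apply, Matrix.smul_apply, Matrix.of_apply, pow_one, smul_eq_mul]
      linear_combination hM i j
    have hiter : ∀ m : ℕ, ∃ M, A.1 ^ 5 ^ (m + 1) = 1 + (5 : ZMod (5 ^ (n + 1))) ^ (m + 1) • M := by
      intro m
      induction m with
      | zero => simpa using hM
      | succ m ih =>
        obtain ⟨M, hM⟩ := ih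
        obtain ⟨M', hM'⟩ := pow_congr_step (by omega) _ M hM
        exact ⟨M', by rw [pow_succ 5 (m + 1), pow_mul, hM']⟩
    obtain ⟨M, hM⟩ := hiter n
    have h0 : (5 : ZMod (5 ^ (n + 1))) ^ (n + 1) = 0 := by
      have := ZMod.natCast_self (5 ^ (n + 1))
      push_cast at this
      exact this
    rw [h0, zero_smul, add_zero] at hM
    show A.1 ^ 5 ^ (n + 2) = 1
    rw [pow_succ 5 (n + 1), pow_mul, hM, one_pow]
  haveI : Group.IsNilpotent φ.ker := hker.isNilpotent
  exact Group.isSolvable_of_ker_le_range φ.ker.subtype φ (by rw [Subgroup.range_subtype])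

theorem exists_perfect_maximal_long (d : ℕ) :
    ∃ (G : Type) (_ : Group G) (_ : Finite G) (H : Subgroup G), commutator G = ⊤ ∧ IsCoatom H ∧
      Group.IsSolvable H ∧ derivedSeries H d ≠ ⊥ := by
  set n := 2 ^ d
  refine ⟨_, inferInstance, inferInstance, borel n, commutator_eq_top n, borel_isCoatom n,
    borel_isSolvable n, fun hbot => ?_⟩
  have hlev : ∀ m : ℕ, Level (2 ^ m) ((derivedSeries (borel n) m).map (borel n).subtype) := by
    intro m
    induction m with
    | zero =>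
      rw [derivedSeries_zero, ← MonoidHom.range_eq_map, Subgroup.range_subtype]
      refine ⟨fun x => ?_, fun x => ?_, fun u _ => ?_⟩
      · show red n _ = 0
        simp [up_val, Matrix.SpecialLinearGroup.coe_mul]
      · show red n _ = 0
        have h5 : red n 5 = 0 := (map_ofNat (red n) 5).trans (by decide)
        simp [lo_val, h5, Matrix.SpecialLinearGroup.coe_mul]
      · show red n _ = 0
        simp [dg_val, Matrix.SpecialLinearGroup.coe_mul]
    | succ m ih =>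
      rw [derivedSeries_succ, Subgroup.map_commutator, pow_succ']
      exact level_step Nat.one_le_two_pow ih
  have h := (hlev d).1 1
  rw [hbot, Subgroup.map_bot, Subgroup.mem_bot, mul_one] at h
  have h1 : (5 : ZMod (5 ^ (n + 1))) ^ n = 0 := by
    have := congrArg (fun g : Matrix.SpecialLinearGroup (Fin 2) (ZMod (5 ^ (n + 1))) => g.1 0 1) h
    simpa [up, n] using this
  have h2 : ((5 ^ n : ℕ) : ZMod (5 ^ (n + 1))) = 0 := by push_cast; exact h1
  rw [ZMod.natCast_eq_zero_iff] at h2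
  have h3 := Nat.le_of_dvd (by positivity) h2
  rw [pow_succ] at h3
  have : 0 < 5 ^ n := by positivity
  omega

end Cfsg.Agent.H36.LongDerived
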