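import Cfsg.Agent.H36.MinimalDegreeCycle

/-!
Minimal degree of primitive groups without the alternating group: `n ≤ (2 m + 1) ^ 2`.
-/

set_option autoImplicit false
set_option linter.unusedSectionVars false

open Equiv MulAction Finset

namespace Cfsg.Agent.H36

namespace MinDeg

variable {G Ω : Type*} [Group G] [MulAction G Ω]

/-- The colour (orbital) of an ordered pair. -/
def col (G : Type*) {Ω : Type*} [Group G] [MulAction G Ω] (a b : Ω) :
    Quotient (MulAction.orbitRel G (Ω × Ω)) := Quotient.mk _ (a, b)

lemma col_eq_iff {a b c d : Ω} : col G a b = col G c d ↔ ∃ k : G, k • c = a ∧ k • d = b := by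
  rw [col, col, Quotient.eq, MulAction.orbitRel_apply, MulAction.mem_orbit_iff]
  simp [Prod.ext_iff]

lemma col_smul (k : G) (a b : Ω) : col G (k • a) (k • b) = col G a b := col_eq_iff.2 ⟨k, rfl, rfl⟩

lemma col_swap {a b c d : Ω} (h : col G a b = col G c d) : col G b a = col G d c :=
  let ⟨k, h1, h2⟩ := col_eq_iff.1 h
  col_eq_iff.2 ⟨k, h2, h1⟩

lemma eq_of_col_eq_diag {a b c : Ω} (h : col G a b = col G c c) : a = b :=
  let ⟨_, h1, h2⟩ := col_eq_iff.1 h
  h1.symm.trans h2

variable [Fintype Ω] [DecidableEq Ω]

open scoped Classical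

/-- The points telling `a` from `b`. -/
noncomputable def dis (G : Type*) {Ω : Type*} [Group G] [MulAction G Ω] [Fintype Ω] (a b : Ω) : Finset Ω :=
  Finset.univ.filter fun c => col G c a ≠ col G c b

/-- The out-neighbours of colour `i`. -/
noncomputable def out (a : Ω) (i : Quotient (MulAction.orbitRel G (Ω × Ω))) : Finset Ω :=
  Finset.univ.filter fun c => col G a c = i

lemma mem_dis {a b c : Ω} : c ∈ dis G a b ↔ col G c a ≠ col G c b := by simp [dis]

lemma mem_dis' {a b c : Ω} : c ∈ dis G a b ↔ col G a c ≠ col G b c := by
  rw [mem_dis]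
  exact not_congr ⟨col_swap, col_swap⟩

lemma dis_comm (a b : Ω) : dis G a b = dis G b a := by ext c; simp [mem_dis, ne_comm]

lemma dis_triangle (a b c : Ω) : dis G a c ⊆ dis G a b ∪ dis G b c := fun x hx => by
  simp only [Finset.mem_union, mem_dis] at hx ⊢
  by_contra h
  push Not at h
  exact hx (h.1.trans h.2)

lemma mem_out {a c : Ω} {i : Quotient (MulAction.orbitRel G (Ω × Ω))} : c ∈ out a i ↔ col G a c = i := by simp [out]

lemma card_dis_smul (k : G) (a b : Ω) : (dis G (k • a) (k • b)).card = (dis G a b).card := by
  refine (Finset.card_bij (fun c _ => k • c) ?_ ?_ ?_).symm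
  · intro c hc
    rw [mem_dis, col_smul, col_smul]
    exact mem_dis.1 hc
  · exact fun _ _ _ _ h => MulAction.injective k h
  · intro c hc
    refine ⟨k⁻¹ • c, ?_, smul_inv_smul k c⟩
    rw [mem_dis, ← col_smul k, ← col_smul k (k⁻¹ • c) b, smul_inv_smul]
    exact mem_dis.1 hc

lemma card_dis_eq {a b c d : Ω} (h : col G a b = col G c d) : (dis G a b).card = (dis G c d).card := by
  obtain ⟨k, rfl, rfl⟩ := col_eq_iff.1 h
  exact card_dis_smul k c d

variable [IsPretransitive G Ω]

lemma card_out_eq (a b : Ω) (i : Quotient (MulAction.orbitRel G (Ω × Ω))) :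
    (out a i).card = (out b i).card := by
  obtain ⟨k, rfl⟩ := exists_smul_eq G a b
  refine Finset.card_bij (fun c _ => k • c) ?_ ?_ ?_
  · intro c hc
    rw [mem_out, col_smul]
    exact mem_out.1 hc
  · exact fun _ _ _ _ h => MulAction.injective k h
  · intro c hc
    refine ⟨k⁻¹ • c, ?_, smul_inv_smul k c⟩
    rw [mem_out, ← col_smul k, smul_inv_smul]
    exact mem_out.1 hc

omit [IsPretransitive G Ω] in
lemma preserved [IsPreprimitive G Ω] {E : Ω → Ω → Prop} (hr : ∀ x, E x x) (hs : ∀ {x y}, E x y → E y x)
    (ht : ∀ {x y z}, E x y → E y z → E x z) (hinv : ∀ (k : G) {x y}, E x y → E (k • x) (k • y))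
    {a b : Ω} (hab : a ≠ b) (h : E a b) : ∀ x y, E x y := by
  have hB : MulAction.IsBlock G {x | E a x} := by
    rw [MulAction.isBlock_iff_smul_eq_or_disjoint]
    intro k
    by_cases hk : E a (k • a)
    · left
      ext x
      rw [Set.mem_smul_set_iff_inv_smul_mem, Set.mem_ofPred_eq, Set.mem_ofPred_eq]
      constructor
      · intro hx
        have := hinv k hx
        rw [smul_inv_smul] at this
        exact ht hk this
      · intro hx
        have := hinv k⁻¹ (ht (hs hk) hx)
        rwa [inv_smul_smul] at this
    · right
      rw [Set.disjoint_left]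
      intro x hx hx'
      rw [Set.mem_smul_set_iff_inv_smul_mem, Set.mem_ofPred_eq] at hx
      have := hinv k hx
      rw [smul_inv_smul] at this
      exact hk (ht hx' (hs this))
  rcases IsPreprimitive.isTrivialBlock_of_isBlock hB with h' | h'
  · exact absurd (h' (hr a) h) hab
  · intro x y
    have hx : E a x := (Set.ext_iff.1 h' x).2 trivial
    have hy : E a y := (Set.ext_iff.1 h' y).2 trivial
    exact ht (hs hx) hy

/-- The graph of a colour, without orientation. -/
def graph (G : Type*) {Ω : Type*} [Group G] [MulAction G Ω] (i : Quotient (MulAction.orbitRel G (Ω × Ω))) :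
    SimpleGraph Ω where
  Adj x y := x ≠ y ∧ (col G x y = i ∨ col G y x = i)
  symm := ⟨fun _ _ h => ⟨h.1.symm, h.2.symm⟩⟩
  loopless := ⟨fun _ h => h.1 rfl⟩

variable [IsPreprimitive G Ω]

omit [IsPretransitive G Ω] in
lemma graph_connected {a b : Ω} (hab : a ≠ b) (x y : Ω) : (graph G (col G a b)).Reachable x y := by
  refine preserved (G := G) (E := (graph G (col G a b)).Reachable) (fun x => SimpleGraph.Reachable.refl x)
    (fun h => h.symm) (fun h h' => h.trans h') ?_ hab (SimpleGraph.Adj.reachable ⟨hab, Or.inl rfl⟩) x y
  intro k x y h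
  let f : graph G (col G a b) →g graph G (col G a b) :=
    ⟨(k • ·), fun {u v} h => ⟨fun e => h.1 (MulAction.injective k e), by rw [col_smul, col_smul]; exact h.2⟩⟩
  exact h.map f

omit [IsPretransitive G Ω] in
lemma graph_dist_smul (i : Quotient (MulAction.orbitRel G (Ω × Ω))) (k : G) (x y : Ω)
    (h : (graph G i).Reachable x y) : (graph G i).dist (k • x) (k • y) ≤ (graph G i).dist x y := by
  obtain ⟨p, hp⟩ := h.exists_walk_length_eq_dist
  let f : graph G i →g graph G i :=
    ⟨(k • ·), fun {u v} h => ⟨fun e => h.1 (MulAction.injective k e), by rw [col_smul, col_smul]; exact h.2⟩⟩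
  have := SimpleGraph.dist_le (p.map f)
  rwa [SimpleGraph.Walk.length_map, hp] at this

omit [IsPretransitive G Ω] in
/-- `D (u, v) ≤ D (a, b) ^ 2` for every pair `u, v`. -/
lemma dis_le_sq {a b : Ω} (hab : a ≠ b) (u v : Ω) :
    (dis G u v).card ≤ (dis G a b).card * (dis G a b).card := by
  set Γ := graph G (col G a b) with hΓ
  set m := (dis G a b).card with hm
  have hconn : ∀ x y, Γ.Reachable x y := graph_connected hab
  have hedge : ∀ x y, Γ.Adj x y → (dis G x y).card = m := by
    rintro x y ⟨-, h | h⟩
    · exact card_dis_eq h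
    · rw [dis_comm]; exact card_dis_eq h
  have hcol : ∀ x y x' y', col G x y = col G x' y' → Γ.dist x y = Γ.dist x' y' := by
    intro x y x' y' h
    obtain ⟨k, rfl, rfl⟩ := col_eq_iff.1 h
    refine le_antisymm (graph_dist_smul _ k x' y' (hconn _ _)) ?_
    have := graph_dist_smul _ k⁻¹ (k • x') (k • y') (hconn _ _)
    rwa [inv_smul_smul, inv_smul_smul] at this
  obtain ⟨p, hp⟩ := (hconn u v).exists_walk_length_eq_dist
  have hsub : ∀ t ≤ p.length, (dis G u (p.getVert t)).card ≤ t * m := by
    intro t
    induction t with
    | zero =>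
      intro
      simp [dis]
    | succ t ih =>
      intro ht
      refine ((Finset.card_le_card (dis_triangle u (p.getVert t) _)).trans (Finset.card_union_le _ _)).trans ?_
      rw [Nat.succ_mul]
      exact Nat.add_le_add (ih (by omega)) (hedge _ _ (p.adj_getVert_succ (by omega))).le
  have hlen : (dis G u v).card ≤ p.length * m := by
    have := hsub p.length le_rfl
    rwa [p.getVert_length] at this
  refine hlen.trans (Nat.mul_le_mul_right _ ?_)
  rcases Nat.eq_zero_or_pos p.length with h0 | h0
  · omega
  -- all vertices of the geodesic tell the first edge apart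
  have hd : ∀ t ≤ p.length, Γ.dist u (p.getVert t) = t := by
    intro t ht
    refine le_antisymm ?_ ?_
    · exact (SimpleGraph.dist_le (p.take t)).trans (by rw [SimpleGraph.Walk.take_length]; omega)
    · have h1 := (hconn u (p.getVert t)).exists_walk_length_eq_dist
      obtain ⟨q, hq⟩ := h1
      have := SimpleGraph.dist_le (q.append (p.drop t))
      rw [SimpleGraph.Walk.length_append, SimpleGraph.Walk.drop_length, hq, ← hp] at this
      omega
  set w := p.getVert 1 with hw
  have hadj : Γ.Adj u w := by
    have := p.adj_getVert_succ h0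
    simpa using this
  have hmem : ∀ t ≤ p.length, p.getVert t ∈ dis G u w := by
    intro t ht
    rw [mem_dis']
    intro he
    have h1 := hcol _ _ _ _ he
    rw [hd t ht] at h1
    rcases Nat.eq_zero_or_pos t with rfl | htpos
    · rw [p.getVert_zero] at h1
      exact hadj.ne ((hconn w u).dist_eq_zero_iff.1 h1.symm).symm
    · obtain ⟨q, hq⟩ : ∃ q : Γ.Walk w (p.getVert t), q.length = t - 1 := by
        refine ⟨((p.take t).drop 1).copy ?_ rfl, ?_⟩
        · rw [SimpleGraph.Walk.take_getVert]
          simp [hw, Nat.min_eq_right htpos]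
        · rw [SimpleGraph.Walk.length_copy, SimpleGraph.Walk.drop_length, SimpleGraph.Walk.take_length]
          omega
      have := SimpleGraph.dist_le q
      omega
  have hinj : Set.InjOn p.getVert (Finset.range (p.length + 1)) := by
    intro s hs t ht he
    simp only [Finset.coe_range, Set.mem_Iio] at hs ht
    rw [← hd s (by omega), ← hd t (by omega), he]
  have := Finset.card_le_card_of_injOn p.getVert (t := dis G u w)
    (fun t ht => hmem t (by simp only [Finset.coe_range, Set.mem_Iio] at ht; omega)) hinj
  rw [Finset.card_range, hedge u w hadj] at this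
  omega

/-- If no colour class is dominant, some pair is told apart by a quarter of the points. -/
lemma exists_large_dis [Nonempty Ω]
    (h : ∀ a (i : Quotient (MulAction.orbitRel G (Ω × Ω))), 4 * (out a i).card ≤ 3 * Fintype.card Ω) :
    ∃ u v : Ω, Fintype.card Ω ≤ 4 * (dis G u v).card := by
  obtain ⟨u⟩ := ‹Nonempty Ω›
  by_contra hc
  push Not at hc
  have hsum : ∑ v, (dis G u v).card = ∑ c : Ω, ((out c (col G c u))ᶜ).card := by
    simp only [dis, Finset.card_filter]
    rw [Finset.sum_comm]
    refine Finset.sum_congr rfl fun c _ => ?_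
    rw [← Finset.card_filter]
    congr 1
    ext v
    simp [mem_out, eq_comm]
  have h1 : ∑ v, 4 * (dis G u v).card < ∑ _v : Ω, Fintype.card Ω :=
    Finset.sum_lt_sum_of_nonempty Finset.univ_nonempty fun v _ => hc u v
  have h2 : ∑ _v : Ω, Fintype.card Ω ≤ ∑ c : Ω, 4 * ((out c (col G c u))ᶜ).card := by
    refine Finset.sum_le_sum fun c _ => ?_
    rw [Finset.card_compl]
    have := h c (col G c u)
    omega
  rw [← Finset.mul_sum] at h1 h2
  rw [hsum] at h1
  omega

/-- The bound for distinguishing sets in rank at least three. -/
lemma card_le_dis {a b : Ω} (hab : a ≠ b) (hn : 4 < Fintype.card Ω)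
    (hrank : ∃ x y z : Ω, x ≠ y ∧ x ≠ z ∧ col G x y ≠ col G x z) :
    Fintype.card Ω ≤ (2 * (dis G a b).card + 1) * (2 * (dis G a b).card + 1) := by
  set n := Fintype.card Ω
  set m := (dis G a b).card with hm
  haveI : Nonempty Ω := ⟨a⟩
  by_cases hdom : ∀ x (i : Quotient (MulAction.orbitRel G (Ω × Ω))), 4 * (out x i).card ≤ 3 * n
  · obtain ⟨u, v, huv⟩ := exists_large_dis hdom
    have := dis_le_sq hab u v (G := G)
    nlinarith
  push Not at hdom
  obtain ⟨x₀, j, hj₀⟩ := hdom
  have hj : ∀ x, 3 * n < 4 * (out x j).card := fun x => by rwa [card_out_eq x x₀]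
  set K := (out x₀ j).card with hK
  have hKeq : ∀ x, (out x j).card = K := fun x => card_out_eq x x₀ j
  have hjirr : ∀ x, col G x x ≠ j := by
    intro x hx
    have hsub : out x j ⊆ {x} := by
      intro y hy
      rw [mem_out, ← hx] at hy
      simp [eq_of_col_eq_diag hy]
    have := Finset.card_le_card hsub
    simp at this
    have := hj x
    omega
  have hjsymm : ∀ {x y}, col G x y = j → col G y x = j := by
    intro x y hxy
    set j' := col G y x with hj'
    have hK' : (out x j').card = K := by
      -- double counting of the transposed colour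
      have hdc : ∑ u, (out u j).card = ∑ u, (out u j').card := by
        simp only [out, Finset.card_filter]
        rw [Finset.sum_comm]
        refine Finset.sum_congr rfl fun u _ => Finset.sum_congr rfl fun v _ => ?_
        refine if_congr ?_ rfl rfl
        rw [← hxy, hj']
        exact ⟨col_swap, col_swap⟩
      simp only [hKeq, card_out_eq _ x j', Finset.sum_const, smul_eq_mul] at hdc
      exact (Nat.eq_of_mul_eq_mul_left (Finset.card_pos.2 Finset.univ_nonempty) hdc).symm
    obtain ⟨z, hz⟩ : ∃ z, z ∈ out x j ∧ z ∈ out x j' := by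
      by_contra hne
      push Not at hne
      have hd : Disjoint (out x j) (out x j') := Finset.disjoint_left.2 hne
      have := Finset.card_le_univ (out x j ∪ out x j')
      rw [Finset.card_union_of_disjoint hd, hKeq, hK'] at this
      have := hj x
      rw [hKeq] at this
      omega
    exact (mem_out.1 hz.2).symm.trans (mem_out.1 hz.1)
  -- closed neighbourhoods
  set N : Ω → Finset Ω := fun x => (out x j)ᶜ with hN
  have hmemN : ∀ {x y}, y ∈ N x ↔ col G x y ≠ j := by intro x y; simp [hN, mem_out]
  have hNsymm : ∀ {x y}, y ∈ N x → x ∈ N y := fun h => hmemN.2 fun e => hmemN.1 h (hjsymm e)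
  set r := n - K
  have hr : ∀ x, (N x).card = r := fun x => by simp only [hN, Finset.card_compl, hKeq]; rfl
  have hKn : 3 * n < 4 * K := hKeq x₀ ▸ hj x₀
  have hKle : K ≤ n := by rw [← hKeq x₀]; exact Finset.card_le_univ _
  by_cases hij : col G a b = j
  · -- the dominant colour itself
    obtain ⟨p, q, hpq, hpqj⟩ : ∃ p q, p ≠ q ∧ col G p q ≠ j := by
      obtain ⟨x, y, z, h1, h2, h3⟩ := hrank
      by_cases h : col G x y = j
      · exact ⟨x, z, h2, fun e => h3 (h.trans e.symm)⟩
      · exact ⟨x, y, h1, h⟩
    have hμ : ∀ x y, col G x y = j → ((N x) ∩ (N y)).card = ((N a) ∩ (N b)).card := by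
      intro x y h
      obtain ⟨k, rfl, rfl⟩ := col_eq_iff.1 (h.trans hij.symm)
      refine (Finset.card_bij (fun c _ => k • c) ?_ ?_ ?_).symm
      · intro c hc
        simp only [Finset.mem_inter, hmemN, col_smul] at hc ⊢
        exact hc
      · exact fun _ _ _ _ h => MulAction.injective k h
      · intro c hc
        refine ⟨k⁻¹ • c, ?_, smul_inv_smul k c⟩
        simp only [Finset.mem_inter, hmemN] at hc ⊢
        rw [← col_smul k, ← col_smul k b, smul_inv_smul]
        exact hc
    set μ := ((N a) ∩ (N b)).card with hμdef
    have hμ1 : 1 ≤ μ := by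
      by_contra h0
      have hempty : ∀ x y, col G x y = j → (N x) ∩ (N y) = ∅ := fun x y h =>
        Finset.card_eq_zero.1 (by rw [hμ x y h]; omega)
      have := preserved (G := G) (E := fun x y => y ∈ N x) (fun x => hmemN.2 (hjirr x)) hNsymm
        (fun {x y z} h h' => hmemN.2 fun e => by
          have hy : y ∈ N x ∩ N z := Finset.mem_inter.2 ⟨h, hNsymm h'⟩
          rw [hempty x z e] at hy
          simp at hy)
        (fun k {x y} h => hmemN.2 (by rw [col_smul]; exact hmemN.1 h)) hpq (hmemN.2 hpqj) a b
      exact hmemN.1 this hij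
    have hcount : K * μ ≤ r * r := by
      calc K * μ = ∑ y ∈ out a j, ((N a) ∩ (N y)).card := by
            rw [Finset.sum_congr rfl fun y hy => hμ a y (mem_out.1 hy), Finset.sum_const, smul_eq_mul, hKeq]
        _ ≤ ∑ y, ((N a) ∩ (N y)).card := Finset.sum_le_sum_of_subset (Finset.subset_univ _)
        _ = ∑ z ∈ N a, (N z).card := by
            simp only [Finset.card_eq_sum_ones]
            refine Finset.sum_comm' (t' := N a) (s' := fun z => N z) ?_
            intro y z
            simp only [Finset.mem_univ, true_and, Finset.mem_inter]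
            exact ⟨fun h => ⟨hNsymm h.2, h.1⟩, fun h => ⟨h.2, hNsymm h.1⟩⟩
        _ = r * r := by rw [Finset.sum_congr rfl fun z _ => hr z, Finset.sum_const, smul_eq_mul, hr]
    have hsub : (N a \ N b) ∪ (N b \ N a) ⊆ dis G a b := by
      intro c hc
      rw [mem_dis']
      simp only [Finset.mem_union, Finset.mem_sdiff, hmemN, not_not] at hc
      rcases hc with ⟨h1, h2⟩ | ⟨h1, h2⟩
      · rw [h2]; exact h1
      · rw [h2]; exact fun e => h1 e.symm
    have hD := Finset.card_le_card hsub
    rw [Finset.card_union_of_disjoint disjoint_sdiff_sdiff] at hD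
    have e1 := Finset.card_sdiff_add_card_inter (N a) (N b)
    have e2 := Finset.card_sdiff_add_card_inter (N b) (N a)
    rw [Finset.inter_comm, ← hμdef, hr] at e2
    rw [← hμdef, hr] at e1
    have h3 : 3 * μ ≤ r := by
      have : r * (3 * μ) ≤ r * r := by
        calc r * (3 * μ) = (3 * r) * μ := by ring
          _ ≤ K * μ := Nat.mul_le_mul_right _ (by omega)
          _ ≤ r * r := hcount
      exact Nat.le_of_mul_le_mul_left this (by omega)
    have hrm : r ≤ m := by rw [hm]; omega
    have : K ≤ r * r := (Nat.le_mul_of_pos_right _ hμ1).trans hcount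
    nlinarith [Nat.sub_add_cancel hKle]
  · -- another colour
    set i := col G a b with hi
    set k := (out a i).card with hk
    have hkeq : ∀ x, (out x i).card = k := fun x => card_out_eq x a i
    have hkr : k ≤ r := by
      rw [← hr a]
      refine Finset.card_le_card fun c hc => hmemN.2 ?_
      rw [mem_out.1 hc]
      exact hij
    have hedge : ∀ x y, col G x y = i → (dis G x y).card = m := fun x y h => card_dis_eq h
    -- every dominant pair is reached
    have hreach : ∀ c ∈ out a j, ∃ y ∈ out a i, col G c y ≠ j := by
      intro c hc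
      by_contra hne
      push Not at hne
      have hall : ∀ x y, col G x y = i → out x j = out y j := by
        intro x y hxy
        refine Finset.eq_of_subset_of_card_le (fun c' hc' => ?_) (by rw [hKeq, hKeq])
        obtain ⟨k₀, rfl, rfl⟩ := col_eq_iff.1 ((mem_out.1 hc').trans (mem_out.1 hc).symm)
        have hy : k₀⁻¹ • y ∈ out a i := by
          rw [mem_out, ← col_smul k₀, smul_inv_smul]; exact hxy
        have := hne _ hy
        rw [← col_smul k₀, smul_inv_smul] at this
        exact mem_out.2 (hjsymm this)
      have := preserved (G := G) (E := fun x y => out x j = out y j) (fun _ => rfl) Eq.symm Eq.trans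
        (fun g {x y} h => by
          ext z
          have := Finset.ext_iff.1 h (g⁻¹ • z)
          simp only [mem_out] at this ⊢
          rw [← col_smul g x, ← col_smul g y, smul_inv_smul] at this
          exact this) hab (hall a b rfl) a c
      rw [this, mem_out] at hc
      exact hjirr c hc
    have hcount : K ≤ k * m := by
      calc K = ∑ c ∈ out a j, 1 := by rw [← Finset.card_eq_sum_ones, hKeq]
        _ ≤ ∑ c ∈ out a j, ((out a i).filter fun y => col G c y ≠ j).card := by
            refine Finset.sum_le_sum fun c hc => Finset.card_pos.2 ?_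
            obtain ⟨y, hy, hy'⟩ := hreach c hc
            exact ⟨y, Finset.mem_filter.2 ⟨hy, hy'⟩⟩
        _ = ∑ y ∈ out a i, ((out a j).filter fun c => col G c y ≠ j).card := by
            simp only [Finset.card_filter]; exact Finset.sum_comm
        _ ≤ ∑ _y ∈ out a i, m := by
            refine Finset.sum_le_sum fun y hy => ?_
            rw [← hedge a y (mem_out.1 hy)]
            refine Finset.card_le_card fun c hc => ?_
            rw [Finset.mem_filter, mem_out] at hc
            rw [mem_dis, hjsymm hc.1]
            exact fun e => hc.2 e.symm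
        _ = k * m := by rw [Finset.sum_const, smul_eq_mul]
    have hk3 : k ≤ 3 * m := by
      by_contra hlt
      have hdiff : ∀ x y, col G x y = i → (out x i \ out y i).card ≤ m ∧ (out y i \ out x i).card ≤ m := by
        intro x y h
        rw [← hedge x y h]
        constructor <;> refine Finset.card_le_card fun c hc => ?_ <;> rw [Finset.mem_sdiff, mem_out, mem_out] at hc <;>
          rw [mem_dis', hc.1]
        · exact fun e => hc.2 e.symm
        · exact hc.2
      have hisymm : ∀ {x y}, col G x y = i → col G y x = i := by
        by_contra hns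
        push Not at hns
        obtain ⟨p, q, hpq, hqp⟩ := hns
        have hasym : ∀ x y, col G x y = i → col G y x ≠ i := fun x y h e =>
          hqp ((col_swap (h.trans hpq.symm)).symm.trans e)
        set A := out a i
        have h1 : ∀ y ∈ A, k ≤ (A.filter fun z => col G y z = i).card + m := by
          intro y hy
          have e := Finset.card_sdiff_add_card_inter (out y i) A
          have hle := (hdiff a y (mem_out.1 hy)).2
          have heq : out y i ∩ A = A.filter fun z => col G y z = i := by
            ext z; simp [mem_out, and_comm]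
          rw [heq, hkeq] at e
          change _ + m ≥ k
          have hle' : (out y i \ A).card ≤ m := hle
          omega
        have h2 : ∑ y ∈ A, (A.filter fun z => col G y z = i).card =
            ∑ y ∈ A, (A.filter fun z => col G z y = i).card := by
          simp only [Finset.card_filter]; exact Finset.sum_comm
        have h3 : ∑ y ∈ A, ((A.filter fun z => col G y z = i).card + (A.filter fun z => col G z y = i).card) ≤ k * k := by
          calc _ ≤ ∑ _y ∈ A, k := by
                refine Finset.sum_le_sum fun y _ => ?_
                rw [← Finset.card_union_of_disjoint]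
                · exact Finset.card_le_card (Finset.union_subset (Finset.filter_subset _ _) (Finset.filter_subset _ _))
                · exact Finset.disjoint_left.2 fun z hz hz' =>
                    hasym y z (Finset.mem_filter.1 hz).2 (Finset.mem_filter.1 hz').2
            _ = k * k := by rw [Finset.sum_const, smul_eq_mul]
        rw [Finset.sum_add_distrib, ← h2] at h3
        have h4 := Finset.sum_le_sum h1
        rw [Finset.sum_const, smul_eq_mul, Finset.sum_add_distrib, Finset.sum_const, smul_eq_mul, ← hk] at h4
        nlinarith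
      have hstep : ∀ x y z, col G x y = i → col G y z = i →
          (out x i \ out z i).card ≤ 2 * m := by
        intro x y z h h'
        refine (Finset.card_le_card (show out x i \ out z i ⊆ (out x i \ out y i) ∪ (out y i \ out z i) from ?_)).trans
          ((Finset.card_union_le _ _).trans ?_)
        · intro c hc
          simp only [Finset.mem_sdiff, Finset.mem_union] at hc ⊢
          by_cases h0 : c ∈ out y i
          · exact Or.inr ⟨h0, hc.2⟩
          · exact Or.inl ⟨hc.1, h0⟩
        · have := (hdiff x y h).1; have := (hdiff y z h').1; omega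
      have hcommon : ∀ x, (out a i ∩ out x i).Nonempty → k ≤ 3 * (out a i ∩ out x i).card := by
        rintro x ⟨z, hz⟩
        rw [Finset.mem_inter, mem_out, mem_out] at hz
        have h1 := hstep a z x hz.1 (hisymm hz.2)
        have e := Finset.card_sdiff_add_card_inter (out a i) (out x i)
        rw [← hk] at e
        omega
      -- every point is at distance at most two
      have hball : ∀ x, x = a ∨ x ∈ out a i ∨ (out a i ∩ out x i).Nonempty := by
        intro x
        obtain ⟨p⟩ := graph_connected (G := G) hab a x
        suffices H : ∀ u v (_ : (graph G i).Walk u v),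
            (u = a ∨ u ∈ out a i ∨ (out a i ∩ out u i).Nonempty) → (v = a ∨ v ∈ out a i ∨ (out a i ∩ out v i).Nonempty) from
          H a x p (Or.inl rfl)
        intro u v p
        induction p with
        | nil => exact id
        | @cons u w v h p ih =>
          refine fun hu => ih ?_
          have huw : col G u w = i := h.2.elim id hisymm
          rcases hu with rfl | hu | ⟨z, hz⟩
          · exact Or.inr (Or.inl (mem_out.2 huw))
          · exact Or.inr (Or.inr ⟨u, Finset.mem_inter.2 ⟨hu, mem_out.2 (hisymm huw)⟩⟩)
          · rw [Finset.mem_inter, mem_out, mem_out] at hz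
            refine Or.inr (Or.inr ?_)
            rw [← Finset.card_pos]
            have h1 := hstep a z u hz.1 (hisymm hz.2)
            have h2 := (hdiff u w huw).1
            have hs : (out a i \ out w i).card ≤ 3 * m := by
              refine (Finset.card_le_card (show out a i \ out w i ⊆ (out a i \ out u i) ∪ (out u i \ out w i) from ?_)).trans
                ((Finset.card_union_le _ _).trans (by omega))
              intro c hc
              simp only [Finset.mem_sdiff, Finset.mem_union] at hc ⊢
              by_cases h0 : c ∈ out u i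
              · exact Or.inr ⟨h0, hc.2⟩
              · exact Or.inl ⟨hc.1, h0⟩
            have e := Finset.card_sdiff_add_card_inter (out a i) (out w i)
            rw [← hk] at e
            omega
      set C := Finset.univ.filter fun x => (out a i ∩ out x i).Nonempty with hC
      have hcov : (Finset.univ : Finset Ω) ⊆ out a i ∪ C := by
        intro x _
        rw [Finset.mem_union, hC, Finset.mem_filter]
        rcases hball x with rfl | h | h
        · exact Or.inr ⟨Finset.mem_univ _, ⟨b, by simp [mem_out, hi]⟩⟩
        · exact Or.inl h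
        · exact Or.inr ⟨Finset.mem_univ _, h⟩
      have hn' : n ≤ k + C.card := by
        have := (Finset.card_le_card hcov).trans (Finset.card_union_le _ _)
        rwa [Finset.card_univ, ← hk] at this
      have hC2 : C.card * k ≤ 3 * (k * k) := by
        calc C.card * k = ∑ _x ∈ C, k := by rw [Finset.sum_const, smul_eq_mul]
          _ ≤ ∑ x ∈ C, 3 * ((out a i).filter fun z => col G x z = i).card := by
              refine Finset.sum_le_sum fun x hx => ?_
              have heq : out a i ∩ out x i = (out a i).filter fun z => col G x z = i := by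
                ext z; simp [mem_out]
              rw [← heq]
              exact hcommon x (Finset.mem_filter.1 hx).2
          _ ≤ ∑ x, 3 * ((out a i).filter fun z => col G x z = i).card :=
              Finset.sum_le_sum_of_subset (Finset.subset_univ _)
          _ = 3 * ∑ z ∈ out a i, (Finset.univ.filter fun x => col G x z = i).card := by
              rw [← Finset.mul_sum]; simp only [Finset.card_filter]; rw [Finset.sum_comm]
          _ = 3 * (k * k) := by
              congr 1
              rw [Finset.sum_congr rfl (g := fun _ => k) fun z _ => ?_, Finset.sum_const, smul_eq_mul]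
              rw [← hkeq z]
              congr 1
              ext x
              simp only [Finset.mem_filter, Finset.mem_univ, true_and, mem_out]
              exact ⟨hisymm, hisymm⟩
      have hkpos : 0 < k := by omega
      have : C.card ≤ 3 * k := Nat.le_of_mul_le_mul_right (by linarith) hkpos
      omega
    nlinarith

end MinDeg

open scoped Classical in
/-- In a primitive group not containing the alternating group a nontrivial element moves `m` points
with `n ≤ (2 m + 1) ^ 2`. -/
theorem card_le_minimalDegree {Ω : Type*} [Fintype Ω] [DecidableEq Ω] (K : Subgroup (Perm Ω))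
    (hprim : IsPreprimitive K Ω) (hA : ¬ alternatingGroup Ω ≤ K) {g : Perm Ω} (hg : g ∈ K) (hg1 : g ≠ 1) :
    Fintype.card Ω ≤ (2 * g.support.card + 1) * (2 * g.support.card + 1) := by
  set S := g.support with hS
  set n := Fintype.card Ω
  have hS0 : S.Nonempty := by rwa [hS, Finset.nonempty_iff_ne_empty, Ne, Perm.support_eq_empty_iff]
  by_cases hn : n ≤ 4
  · nlinarith [hS0.card_pos]
  obtain ⟨a, ha⟩ := hS0
  by_cases hrank : ∃ x y z : Ω, x ≠ y ∧ x ≠ z ∧ MinDeg.col K x y ≠ MinDeg.col K x z
  · have hne : a ≠ g a := fun e => (Perm.mem_support.1 ha) e.symm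
    refine (MinDeg.card_le_dis (G := K) hne (by omega) hrank).trans ?_
    have hsub : MinDeg.dis K a (g a) ⊆ S := by
      intro c hc
      rw [MinDeg.mem_dis] at hc
      by_contra hcS
      apply hc
      refine MinDeg.col_swap (MinDeg.col_eq_iff.2 ⟨(⟨g, hg⟩ : K)⁻¹, ?_, ?_⟩)
      · show g⁻¹ (g a) = a
        simp
      · show g⁻¹ c = c
        rw [Perm.inv_eq_iff_eq, Perm.notMem_support.1 hcS]
    have := Finset.card_le_card hsub
    exact Nat.mul_le_mul (by omega) (by omega)
  · push Not at hrank
    -- two-transitive case
    have htwo : ∀ x y x' y' : Ω, x ≠ y → x' ≠ y' → ∃ k : K, k • x = x' ∧ k • y = y' := by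
      intro x y x' y' h h'
      obtain ⟨k, hk⟩ := exists_smul_eq K x x'
      have h'' : x' ≠ k • y := fun e => h (MulAction.injective k (hk.trans e))
      obtain ⟨l, hl1, hl2⟩ := MinDeg.col_eq_iff.1 (hrank x' y' (k • y) h' h'')
      exact ⟨l * k, by rw [mul_smul, hk, hl1], by rw [mul_smul, hl2]⟩
    by_cases hex : ∃ k : K, (S.filter fun x => k • x ∈ S).card = 1
    · exfalso
      obtain ⟨k, hk⟩ := hex
      obtain ⟨δ, hδ⟩ := Finset.card_eq_one.1 hk
      have hmem : δ ∈ S ∧ k • δ ∈ S := Finset.mem_filter.1 (hδ ▸ Finset.mem_singleton_self δ)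
      set h : Perm Ω := (k : Perm Ω)⁻¹ * g * (k : Perm Ω) with hh
      have hhK : h ∈ K := K.mul_mem (K.mul_mem (K.inv_mem k.2) hg) k.2
      have hhmov : ∀ x, h x ≠ x ↔ k • x ∈ S := by
        intro x
        rw [hS, Perm.mem_support, hh]
        show (k : Perm Ω)⁻¹ (g ((k : Perm Ω) x)) ≠ x ↔ g ((k : Perm Ω) x) ≠ (k : Perm Ω) x
        rw [Ne, Perm.inv_eq_iff_eq]
      refine hA (Perm.alternatingGroup_le_of_isPreprimitive_of_isThreeCycle_mem hprim
        (g := h * g * h⁻¹ * g⁻¹) (commutator_isThreeCycle_of_meet g h (S.erase δ) δ (Finset.notMem_erase _ _) ?_ ?_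
          (Perm.mem_support.1 hmem.1) ((hhmov δ).2 hmem.2))
        (K.mul_mem (K.mul_mem (K.mul_mem hhK hg) (K.inv_mem hhK)) (K.inv_mem hg)))
      · intro x hx
        rw [Finset.insert_erase hmem.1] at hx
        exact Perm.notMem_support.1 hx
      · intro x hx
        rw [Finset.mem_erase] at hx
        by_contra hne
        have : x ∈ ({δ} : Finset Ω) := hδ ▸ Finset.mem_filter.2 ⟨hx.2, (hhmov x).1 hne⟩
        exact hx.1 (Finset.mem_singleton.1 this)
    push Not at hex
    -- counting
    have key : ∀ (T : Type _) [DecidableEq T] (act : K → T → T) (U : Finset T) (N : ℕ),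
        (∀ u ∈ U, ∀ v ∈ U, (Finset.univ.filter fun k : K => act k u = v).card * N = Fintype.card K) →
        (∑ k : K, (U.filter fun u => act k u ∈ U).card) * N = U.card * U.card * Fintype.card K := by
      intro T _ act U N hcnt
      have e : ∑ k : K, (U.filter fun u => act k u ∈ U).card =
          ∑ u ∈ U, ∑ v ∈ U, (Finset.univ.filter fun k : K => act k u = v).card := by
        simp only [Finset.card_filter]
        rw [Finset.sum_comm]
        refine Finset.sum_congr rfl fun u _ => ?_
        rw [Finset.sum_comm]
        refine Finset.sum_congr rfl fun k _ => ?_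
        rw [Finset.sum_ite_eq]
      rw [e, Finset.sum_mul, Finset.sum_congr rfl fun u hu => by
        rw [Finset.sum_mul, Finset.sum_congr rfl fun v hv => hcnt u hu v hv]]
      simp only [Finset.sum_const, smul_eq_mul]
      ring
    have hfib : ∀ (T : Type _) [DecidableEq T] [MulAction K T] (U : Finset T), (∀ u ∈ U, ∀ v ∈ U, ∃ k : K, k • u = v) →
        ∀ u ∈ U, (∀ v, v ∈ MulAction.orbit K u ↔ v ∈ U) → ∀ v ∈ U,
          (Finset.univ.filter fun k : K => k • u = v).card * U.card = Fintype.card K := by
      intro T _ _ U htr u hu horb v hv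
      obtain ⟨k₀, hk₀⟩ := htr u hu v hv
      have hcard : (Finset.univ.filter fun k : K => k • u = v).card = Nat.card (MulAction.stabilizer K u) := by
        rw [Nat.card_eq_fintype_card, ← Finset.card_univ]
        refine Finset.card_bij' (fun k hk => ⟨k₀⁻¹ * k, ?_⟩) (fun s _ => k₀ * s.1) ?_ ?_ ?_ ?_
        · rw [Finset.mem_filter] at hk
          rw [MulAction.mem_stabilizer_iff, mul_smul, hk.2, ← hk₀, inv_smul_smul]
        · exact fun _ _ => Finset.mem_univ _
        · intro s _
          rw [Finset.mem_filter, mul_smul, MulAction.mem_stabilizer_iff.1 s.2]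
          exact ⟨Finset.mem_univ _, hk₀⟩
        · intro k _; simp
        · intro s _; simp
      rw [hcard, ← Nat.card_eq_fintype_card, ← (MulAction.stabilizer K u).card_mul_index, MulAction.index_stabilizer]
      congr 1
      rw [show MulAction.orbit K u = (U : Set T) from Set.ext horb, Set.ncard_coe_finset]
    have h1 : (∑ k : K, (S.filter fun x => k • x ∈ S).card) * n = S.card * S.card * Fintype.card K :=
      key Ω (fun k x => k • x) S n fun u hu v hv => by
        have := hfib Ω Finset.univ (fun u _ v _ => exists_smul_eq K u v) u (Finset.mem_univ _)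
          (fun w => by simp [MulAction.orbit_eq_univ]) v (Finset.mem_univ _)
        rwa [Finset.card_univ] at this
    have hO : ((Finset.univ : Finset Ω).offDiag).card = n * n - n := by rw [Finset.offDiag_card, Finset.card_univ]
    have h2 : (∑ k : K, (S.offDiag.filter fun p => k • p ∈ S.offDiag).card) * (n * n - n) =
        S.offDiag.card * S.offDiag.card * Fintype.card K :=
      key (Ω × Ω) (fun k p => k • p) S.offDiag (n * n - n) fun u hu v hv => by
        rw [← hO]
        rw [Finset.mem_offDiag] at hu hv
        refine hfib (Ω × Ω) (Finset.univ.offDiag) ?_ u (by simp [hu.2.2]) ?_ v (by simp [hv.2.2])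
        · intro p hp q hq
          rw [Finset.mem_offDiag] at hp hq
          obtain ⟨k, e1, e2⟩ := htwo p.1 p.2 q.1 q.2 hp.2.2 hq.2.2
          exact ⟨k, Prod.ext e1 e2⟩
        · intro w
          rw [Finset.mem_offDiag, MulAction.mem_orbit_iff]
          constructor
          · rintro ⟨k, rfl⟩
            exact ⟨Finset.mem_univ _, Finset.mem_univ _, fun e => hu.2.2 (MulAction.injective k e)⟩
          · intro hw
            obtain ⟨k, e1, e2⟩ := htwo u.1 u.2 w.1 w.2 hu.2.2 hw.2.2
            exact ⟨k, Prod.ext e1 e2⟩
    have hpoint : ∀ k : K, (S.filter fun x => k • x ∈ S).card ≤ (S.offDiag.filter fun p => k • p ∈ S.offDiag).card := by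
      intro k
      have e : S.offDiag.filter (fun p => k • p ∈ S.offDiag) = (S.filter fun x => k • x ∈ S).offDiag := by
        ext p
        simp only [Finset.mem_filter, Finset.mem_offDiag, Prod.smul_fst, Prod.smul_snd, ne_eq, smul_left_cancel_iff]
        tauto
      rw [e, Finset.offDiag_card]
      have := hex k
      set x := (S.filter fun x => k • x ∈ S).card
      rcases Nat.eq_zero_or_pos x with h0 | h0
      · omega
      · have : 2 * x ≤ x * x := Nat.mul_le_mul_right _ (by omega)
        omega
    have hle := Finset.sum_le_sum fun k (_ : k ∈ (Finset.univ : Finset K)) => hpoint k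
    rw [Finset.offDiag_card] at h2
    set A := ∑ k : K, (S.filter fun x => k • x ∈ S).card
    set B := ∑ k : K, (S.offDiag.filter fun p => k • p ∈ S.offDiag).card
    have hm0 : 0 < S.card := Finset.card_pos.2 ⟨a, ha⟩
    obtain ⟨m', hm'⟩ : ∃ m', S.card = m' + 1 := ⟨S.card - 1, by omega⟩
    rw [hm'] at h1 h2 ⊢
    obtain ⟨n', hn'⟩ : ∃ n', n = n' + 1 := ⟨n - 1, by omega⟩
    rw [show (m' + 1) * (m' + 1) - (m' + 1) = (m' + 1) * m' by rw [← Nat.mul_sub_one]; rfl] at h2
    rw [show n * n - n = n * n' by rw [hn', ← Nat.mul_sub_one]; rfl] at h2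
    have hK0 : 0 < Fintype.card K := Fintype.card_pos
    have h3 : (m' + 1) * (m' + 1) * Fintype.card K * n' ≤ (m' + 1) * m' * ((m' + 1) * m') * Fintype.card K := by
      rw [← h1, ← h2]
      calc A * n * n' = A * (n * n') := by ring
        _ ≤ B * (n * n') := Nat.mul_le_mul_right _ hle
    have h4 : n' ≤ m' * m' := by
      refine Nat.le_of_mul_le_mul_left ?_ (Nat.mul_pos (Nat.mul_pos (Nat.succ_pos m') (Nat.succ_pos m')) hK0)
      calc (m' + 1) * (m' + 1) * Fintype.card K * n' ≤ _ := h3
        _ = (m' + 1) * (m' + 1) * Fintype.card K * (m' * m') := by ring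
    nlinarith

end Cfsg.Agent.H36
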