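import Mathlib

/-!
A classification-free lower bound for the minimal degree of a primitive permutation group
(Babai's distinguishing sets, Bochert's three-cycle trick).
-/

set_option autoImplicit false

open Equiv MulAction

namespace Cfsg.Agent.H36

/-- Two permutations whose supports meet in one point have a three-cycle as commutator. -/
lemma commutator_isThreeCycle_of_meet {Ω : Type*} [Fintype Ω] [DecidableEq Ω] (g h : Perm Ω) (Γ : Finset Ω) (δ : Ω)
    (hδΓ : δ ∉ Γ) (hgfix : ∀ x ∉ insert δ Γ, g x = x) (hhfix' : ∀ x ∈ Γ, h x = x)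
    (hgδ : g δ ≠ δ) (hδ : h δ ≠ δ) : (h * g * h⁻¹ * g⁻¹).IsThreeCycle := by
  have hgim : ∀ x ∈ insert δ Γ, g x ∈ insert δ Γ := fun x hx => by
    by_contra hc
    exact hc (by rw [g.injective (hgfix _ hc)]; exact hx)
  have hhim : ∀ x, x ∉ Γ → h x ∉ Γ := fun x hx hc => hx (by
    rw [← h.injective (hhfix' _ hc)]; exact hc)
  have ha : g δ ∈ Γ := by
    have := hgim δ (by simp)
    simpa [hgδ] using this
  have hc : h δ ∉ Γ := hhim δ hδΓ
  have hgsymm : ∀ x ∈ insert δ Γ, g.symm x ∈ insert δ Γ := fun x hx => by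
    by_contra hc'
    have := hgfix _ hc'
    rw [Equiv.apply_symm_apply] at this
    exact hc' (this ▸ hx)
  have hhsymm : ∀ x, x ∉ Γ → h.symm x ∉ Γ := fun x hx hc' => hx (by
    have := hhfix' _ hc'
    rw [Equiv.apply_symm_apply] at this
    rw [this]; exact hc')
  have hkey : h * g * h⁻¹ * g⁻¹ = swap δ (g δ) * swap δ (h δ) := by
    have hne : g δ ≠ h δ := fun e => hc (e ▸ ha)
    ext x
    show h (g (h.symm (g.symm x))) = swap δ (g δ) (swap δ (h δ) x)
    by_cases hx1 : x = δ
    · subst hx1
      have he : g.symm x ∈ Γ := by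
        have := hgsymm x (by simp)
        rcases Finset.mem_insert.mp this with e | e
        · exact absurd ((g.symm_apply_eq).mp e).symm hgδ
        · exact e
      have h2 : h.symm (g.symm x) = g.symm x := h.symm_apply_eq.mpr (hhfix' _ he).symm
      rw [h2, Equiv.apply_symm_apply, swap_apply_left, swap_apply_of_ne_of_ne hδ hne.symm]
    by_cases hx2 : x = h δ
    · subst hx2
      have h1 : g.symm (h δ) = h δ := g.symm_apply_eq.mpr (hgfix _ (by simp [hc, hδ])).symm
      rw [h1, Equiv.symm_apply_apply, hhfix' _ ha, swap_apply_right, swap_apply_left]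
    by_cases hx3 : x = g δ
    · subst hx3
      rw [Equiv.symm_apply_apply]
      have hd : h.symm δ ∉ Γ := hhsymm δ hδΓ
      have hd' : h.symm δ ≠ δ := fun e => hδ ((h.symm_apply_eq).mp e).symm
      rw [hgfix _ (by simp [hd, hd']), Equiv.apply_symm_apply,
        swap_apply_of_ne_of_ne hgδ hne, swap_apply_right]
    rw [swap_apply_of_ne_of_ne hx1 hx2, swap_apply_of_ne_of_ne hx1 hx3]
    by_cases hxΓ : x ∈ Γ
    · have he : g.symm x ∈ Γ := by
        have := hgsymm x (by simp [hxΓ])
        rcases Finset.mem_insert.mp this with e | e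
        · exact absurd ((g.symm_apply_eq).mp e) hx3
        · exact e
      have h2 : h.symm (g.symm x) = g.symm x := h.symm_apply_eq.mpr (hhfix' _ he).symm
      rw [h2, Equiv.apply_symm_apply, hhfix' _ hxΓ]
    · have h1 : g.symm x = x := g.symm_apply_eq.mpr (hgfix _ (by simp [hxΓ, hx1])).symm
      have hd : h.symm x ∉ Γ := hhsymm x hxΓ
      have hd' : h.symm x ≠ δ := fun e => hx2 ((h.symm_apply_eq).mp e)
      rw [h1, hgfix _ (by simp [hd, hd']), Equiv.apply_symm_apply]
  rw [hkey]
  exact Perm.isThreeCycle_swap_mul_swap_same hgδ.symm hδ.symm fun e => hc (e ▸ ha)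

end Cfsg.Agent.H36
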