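import Mathlib
import Cfsg.Agent.H36.SimplePower

/-!
# Non second maximal subgroups below maximal subgroups of prime power index
-/

set_option linter.style.haveILetI false

namespace Cfsg.Agent.H36.NonSecondMaximal

theorem exists_example (p d : ℕ) (hp : p.Prime) (hd : 2 ≤ d) :
    ∃ (G : Type) (_ : Group G) (_ : Finite G) (M H K : Subgroup G), IsCoatom M ∧ M.index = p ^ d ∧ H ≤ M ∧
      IsCoatom (H.subgroupOf M) ∧ IsCoatom K ∧ H ≤ K ∧ ¬ IsCoatom (H.subgroupOf K) := by
  classical
  haveI : Fact p.Prime := ⟨hp⟩
  let S := Multiplicative (ZMod p)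
  have hScard : Nat.card S = p := (Nat.card_congr Multiplicative.toAdd).trans (Nat.card_zmod p)
  haveI : Fact (Nat.card S).Prime := ⟨hScard.symm ▸ hp⟩
  haveI : IsSimpleGroup S := isSimpleGroup_of_prime_card hScard
  let V := Fin d → S
  have hVcard : Nat.card V = p ^ d := by rw [Nat.card_fun, hScard, Nat.card_fin]
  haveI : Finite V := Nat.finite_of_card_ne_zero (by rw [hVcard]; exact pow_ne_zero _ hp.ne_zero)
  haveI : Nontrivial V := Finite.one_lt_card_iff_nontrivial.1 (by
    rw [hVcard]; exact Nat.one_lt_pow (by omega) hp.one_lt)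
  haveI : Finite (MulAut V) := Finite.of_injective (fun f : MulAut V => (f : V → V)) DFunLike.coe_injective
  let Irr : Subgroup (MulAut V) → Prop := fun A =>
    ∀ W : Subgroup V, (∀ φ ∈ A, ∀ x ∈ W, φ x ∈ W) → W = ⊥ ∨ W = ⊤
  obtain ⟨A, hA, hAmin⟩ := exists_minimal_of_wellFoundedLT Irr
    ⟨⊤, fun W hW => SimplePower.char_simple_of_power (by omega) W fun φ x hx => hW φ trivial x hx⟩
  have hAbot : A ≠ ⊥ := by
    rintro rfl
    obtain ⟨v, hv⟩ := exists_ne (1 : V)
    rcases hA (Subgroup.zpowers v) (fun φ hφ x hx => by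
      rw [Subgroup.mem_bot] at hφ; subst hφ; exact hx) with h | h
    · exact hv (Subgroup.zpowers_eq_bot.1 h)
    · have h1 : Nat.card (Subgroup.zpowers v) = p ^ d := by rw [h, Subgroup.card_top, hVcard]
      rw [Nat.card_zpowers] at h1
      have h2 : orderOf v ∣ p := orderOf_dvd_of_pow_eq_one (funext fun i => by
        exact (congrArg (v i ^ ·) hScard.symm).trans pow_card_eq_one')
      have h3 := Nat.le_of_dvd hp.pos h2
      rw [h1] at h3
      have h4 : p ^ 1 < p ^ d := Nat.pow_lt_pow_right hp.one_lt (by omega)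
      rw [pow_one] at h4
      omega
  haveI : Nontrivial A := (Subgroup.nontrivial_iff_ne_bot A).2 hAbot
  obtain ⟨B, hB, -⟩ := (eq_top_or_exists_le_coatom (⊥ : Subgroup A)).resolve_left bot_ne_top
  -- `B` is reducible
  have hBred : ¬ Irr (B.map A.subtype) := fun h => hB.1 (by
    have h1 := hAmin h (Subgroup.map_subtype_le B)
    rw [eq_top_iff]
    intro a _
    obtain ⟨b, hb, he⟩ := h1 a.2
    exact Subtype.ext he ▸ hb)
  simp only [Irr, not_forall] at hBred
  obtain ⟨W, hW, hW'⟩ := hBred
  push Not at hW'
  let G := SemidirectProduct V A A.subtype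
  haveI : Finite G := Finite.of_injective (fun x : G => (x.left, x.right)) fun a b e =>
    SemidirectProduct.ext (congrArg Prod.fst e) (congrArg Prod.snd e)
  let M : Subgroup G := (SemidirectProduct.inr : A →* G).range
  let H : Subgroup G := B.map (SemidirectProduct.inr : A →* G)
  let K : Subgroup G := B.comap (SemidirectProduct.rightHom : G →* A)
  have hMmem : ∀ g : G, g ∈ M ↔ g.left = 1 := by
    intro g
    constructor
    · rintro ⟨a, rfl⟩; exact SemidirectProduct.left_inr a
    · intro h; exact ⟨g.right, SemidirectProduct.ext (by rw [SemidirectProduct.left_inr, h]) (SemidirectProduct.right_inr _)⟩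
  refine ⟨G, inferInstance, inferInstance, M, H, K, ?_, ?_, Subgroup.map_le_range _ _, ?_, ?_, ?_, ?_⟩
  · -- the complement is maximal
    refine ⟨fun h => ?_, fun L hL => ?_⟩
    · obtain ⟨v, hv⟩ := exists_ne (1 : V)
      exact hv (((hMmem (SemidirectProduct.inl v)).1 (h ▸ Subgroup.mem_top _)))
    · rcases hA (L.comap (SemidirectProduct.inl : V →* G)) (fun φ hφ x hx => by
        show (SemidirectProduct.inl (φ x) : G) ∈ L
        have h1 : (SemidirectProduct.inl (φ x) : G) =
            SemidirectProduct.inr ⟨φ, hφ⟩ * SemidirectProduct.inl x * SemidirectProduct.inr ⟨φ, hφ⟩⁻¹ :=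
          SemidirectProduct.inl_aut (φ := A.subtype) ⟨φ, hφ⟩ x
        rw [h1]
        exact mul_mem (mul_mem (hL.le ⟨_, rfl⟩) hx) (hL.le ⟨_, rfl⟩)) with h | h
      · exfalso
        obtain ⟨g, hg, hg'⟩ := SetLike.exists_of_lt hL
        have h1 : g.left ∈ L.comap (SemidirectProduct.inl : V →* G) := by
          show (SemidirectProduct.inl g.left : G) ∈ L
          have e := SemidirectProduct.inl_left_mul_inr_right g
          have e' : (SemidirectProduct.inl g.left : G) = g * (SemidirectProduct.inr g.right)⁻¹ :=
            eq_mul_inv_of_mul_eq e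
          rw [e']
          exact mul_mem hg (inv_mem (hL.le ⟨_, rfl⟩))
        rw [h, Subgroup.mem_bot] at h1
        exact hg' ((hMmem g).2 h1)
      · rw [eq_top_iff]
        intro g _
        rw [← SemidirectProduct.inl_left_mul_inr_right g]
        exact mul_mem (show g.left ∈ L.comap (SemidirectProduct.inl : V →* G) from h ▸ Subgroup.mem_top _)
          (hL.le ⟨_, rfl⟩)
  · have h1 := M.index_mul_card
    have h2 : Nat.card G = Nat.card V * Nat.card A := by
      rw [← Nat.card_prod]
      exact Nat.card_congr ⟨fun x => (x.left, x.right), fun x => ⟨x.1, x.2⟩, fun x => rfl, fun x => rfl⟩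
    have h3 : Nat.card M = Nat.card A :=
      (Nat.card_congr (MonoidHom.ofInjective (SemidirectProduct.inr_injective (φ := A.subtype))).toEquiv).symm
    rw [h2, h3, hVcard] at h1
    exact Nat.eq_of_mul_eq_mul_right Nat.card_pos h1
  · let e : A ≃* M := MonoidHom.ofInjective (SemidirectProduct.inr_injective (φ := A.subtype))
    have he : H.subgroupOf M = B.map e.toMonoidHom := by
      ext x
      obtain ⟨a, rfl⟩ := e.surjective x
      rw [Subgroup.mem_map_equiv, MulEquiv.symm_apply_apply, Subgroup.mem_subgroupOf]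
      show (SemidirectProduct.inr a : G) ∈ B.map _ ↔ _
      exact Subgroup.mem_map_iff_mem SemidirectProduct.inr_injective
    rw [he]
    exact (OrderIso.isCoatom_iff (MulEquiv.mapSubgroup e) _).2 hB
  · have hs := SemidirectProduct.rightHom_surjective (φ := A.subtype)
    refine ⟨fun h => hB.1 (Subgroup.comap_injective hs (h.trans (Subgroup.comap_top _).symm)), fun L hL => ?_⟩
    have hker : (SemidirectProduct.rightHom : G →* A).ker ≤ L := (Subgroup.ker_le_comap _ _).trans hL.le
    have h1 : B < L.map (SemidirectProduct.rightHom : G →* A) := by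
      refine lt_of_le_of_ne ?_ fun e => hL.ne ?_
      · rw [← Subgroup.map_comap_eq_self_of_surjective hs B]
        exact Subgroup.map_mono hL.le
      · show B.comap _ = L
        rw [e, Subgroup.comap_map_eq_self hker]
    have h2 := congrArg (Subgroup.comap (SemidirectProduct.rightHom : G →* A)) (hB.2 _ h1)
    rwa [Subgroup.comap_map_eq_self hker, Subgroup.comap_top] at h2
  · rintro _ ⟨b, hb, rfl⟩
    show SemidirectProduct.rightHom (SemidirectProduct.inr b : G) ∈ B
    rwa [SemidirectProduct.rightHom_inr]
  · intro hc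
    let L : Subgroup G :=
      { carrier := {g | g.left ∈ W ∧ g.right ∈ B}
        one_mem' := ⟨one_mem W, one_mem B⟩
        mul_mem' := fun {a b} ha hb => ⟨by
          rw [SemidirectProduct.mul_left]
          exact mul_mem ha.1 (hW _ ⟨a.right, ha.2, rfl⟩ _ hb.1), mul_mem ha.2 hb.2⟩
        inv_mem' := fun {a} ha => ⟨by
          rw [SemidirectProduct.inv_left]
          exact hW _ ⟨a.right⁻¹, inv_mem ha.2, rfl⟩ _ (inv_mem ha.1), inv_mem ha.2⟩ }
    have hlt : H.subgroupOf K < L.subgroupOf K := by
      refine lt_of_le_of_ne ?_ fun e => hW'.1 ?_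
      · rintro x ⟨b, hb, he⟩
        show (x : G).left ∈ W ∧ (x : G).right ∈ B
        rw [show (x : G) = SemidirectProduct.inr b from he.symm, SemidirectProduct.left_inr,
          SemidirectProduct.right_inr]
        exact ⟨one_mem W, hb⟩
      · rw [eq_bot_iff]
        intro w hw
        have hwK : (SemidirectProduct.inl w : G) ∈ K := by
          show SemidirectProduct.rightHom _ ∈ B
          rw [SemidirectProduct.rightHom_inl]; exact one_mem B
        have h1 : (⟨_, hwK⟩ : K) ∈ L.subgroupOf K := ⟨hw, one_mem B⟩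
        rw [← e] at h1
        obtain ⟨b, -, he⟩ := h1
        have h2 := congrArg SemidirectProduct.left he
        rw [SemidirectProduct.left_inr] at h2
        exact Subgroup.mem_bot.2 h2.symm
    have htop := Subgroup.subgroupOf_eq_top.1 (hc.2 _ hlt)
    refine hW'.2 (eq_top_iff.2 fun v _ => ?_)
    have hvK : (SemidirectProduct.inl v : G) ∈ K := by
      show SemidirectProduct.rightHom _ ∈ B
      rw [SemidirectProduct.rightHom_inl]; exact one_mem B
    exact (htop hvK).1

end Cfsg.Agent.H36.NonSecondMaximal
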