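import Mathlib
import Cfsg.Agent.H6.Basic

/-!
# Groups with a normal subgroup isomorphic to SL(2,5)
-/

open Matrix
set_option linter.style.haveILetI false

namespace Cfsg.Agent.H36.SL25

instance : Fact (Nat.Prime 5) := ⟨by norm_num⟩

abbrev F := ZMod 5
abbrev L := Matrix.SpecialLinearGroup (Fin 2) F

theorem card_L : Nat.card L = 120 := by
  rw [H6.card_sl2 (q := 5) (ZMod.card 5)]
  norm_num

theorem card_center : Nat.card (Subgroup.center L) = 2 := by
  rw [H6.card_center_sl2 (q := 5) (ZMod.card 5)]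
  norm_num

/-- Upper transvection. -/
def uT (a : F) : L := H6.sl2 1 a 0 1 (by ring)
/-- Lower transvection. -/
def lT (a : F) : L := H6.sl2 1 0 a 1 (by ring)

theorem uT_pow (n : ℕ) : uT 1 ^ n = uT n := by
  induction n with
  | zero =>
    rw [pow_zero]
    ext i j
    fin_cases i <;> fin_cases j <;> simp [uT, H6.sl2]
  | succ n ih =>
    rw [pow_succ, ih]
    ext i j
    rw [H6.sl2_mul]
    fin_cases i <;> fin_cases j <;> simp [uT, H6.sl2]
    ring

theorem lT_pow (n : ℕ) : lT 1 ^ n = lT n := by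
  induction n with
  | zero =>
    rw [pow_zero]
    ext i j
    fin_cases i <;> fin_cases j <;> simp [lT, H6.sl2]
  | succ n ih =>
    rw [pow_succ, ih]
    ext i j
    rw [H6.sl2_mul]
    fin_cases i <;> fin_cases j <;> simp [lT, H6.sl2]

theorem uT_mem (a : F) : uT a ∈ Subgroup.closure ({uT 1, lT 1} : Set L) := by
  rw [← ZMod.natCast_zmod_val a, ← uT_pow]
  exact Subgroup.pow_mem _ (Subgroup.subset_closure (by simp)) _

theorem lT_mem (a : F) : lT a ∈ Subgroup.closure ({uT 1, lT 1} : Set L) := by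
  rw [← ZMod.natCast_zmod_val a, ← lT_pow]
  exact Subgroup.pow_mem _ (Subgroup.subset_closure (by simp)) _

theorem bruhat (g : L) (hb : g 1 0 ≠ 0) :
    g = uT ((g 0 0 - 1) / g 1 0) * lT (g 1 0) * uT ((g 1 1 - 1) / g 1 0) := by
  have hdet := H6.sl2_det g
  ext i j
  rw [H6.sl2_mul, H6.sl2_mul, H6.sl2_mul]
  fin_cases i <;> fin_cases j <;> simp [uT, lT, H6.sl2] <;> field_simp <;>
    first | ring1 | linear_combination hdet | linear_combination -hdet

/-- The two transvections generate. -/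
theorem closure_eq_top : Subgroup.closure ({uT 1, lT 1} : Set L) = ⊤ := by
  rw [eq_top_iff]
  intro g _
  have key : ∀ x : L, x 1 0 ≠ 0 → x ∈ Subgroup.closure ({uT 1, lT 1} : Set L) := fun x hx => by
    rw [bruhat x hx]
    exact mul_mem (mul_mem (uT_mem _) (lT_mem _)) (uT_mem _)
  by_cases hg : g 1 0 = 0
  · have h1 : (g * lT 1) 1 0 ≠ 0 := by
      rw [H6.sl2_mul]
      simp [lT, H6.sl2, hg]
      intro h
      have hdet := H6.sl2_det g
      rw [h, hg] at hdet
      simp at hdet
    exact (Subgroup.mul_mem_cancel_right _ (lT_mem 1)).1 (key _ h1)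
  · exact key g hg

/-- Product of quadruples read as matrices. -/
def mulQ (x y : F × F × F × F) : F × F × F × F :=
  (x.1 * y.1 + x.2.1 * y.2.2.1, x.1 * y.2.1 + x.2.1 * y.2.2.2,
    x.2.2.1 * y.1 + x.2.2.2 * y.2.2.1, x.2.2.1 * y.2.1 + x.2.2.2 * y.2.2.2)

/-- The entries of an element. -/
def quad (g : L) : F × F × F × F := (g 0 0, g 0 1, g 1 0, g 1 1)

theorem quad_mul (g h : L) : quad (g * h) = mulQ (quad g) (quad h) := by
  simp [quad, mulQ, H6.sl2_mul]

theorem quad_one : quad 1 = (1, 0, 0, 1) := rfl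

theorem quad_inj {g h : L} (e : quad g = quad h) : g = h := by
  simp only [quad, Prod.mk.injEq] at e
  obtain ⟨e1, e2, e3, e4⟩ := e
  ext i j
  fin_cases i <;> fin_cases j <;> assumption

theorem five_table : ∀ a b c d : F, a * d - b * c = 1 →
    mulQ (a, b, c, d) (mulQ (a, b, c, d) (mulQ (a, b, c, d) (mulQ (a, b, c, d) (a, b, c, d)))) =
      (1, 0, 0, 1) → a + d = 2 := by decide +kernel

theorem ten_table : ∀ a b c d : F, a * d - b * c = 1 →
    mulQ (mulQ (a, b, c, d) (mulQ (a, b, c, d) (mulQ (a, b, c, d) (mulQ (a, b, c, d) (a, b, c, d)))))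
      (mulQ (a, b, c, d) (mulQ (a, b, c, d) (mulQ (a, b, c, d) (mulQ (a, b, c, d) (a, b, c, d))))) =
      (1, 0, 0, 1) →
    mulQ (a, b, c, d) (mulQ (a, b, c, d) (mulQ (a, b, c, d) (mulQ (a, b, c, d) (a, b, c, d)))) ≠
      (1, 0, 0, 1) →
    mulQ (a, b, c, d) (a, b, c, d) ≠ (1, 0, 0, 1) → a + d = 3 := by decide +kernel

theorem pow_five (g : L) : g ^ 5 = g * (g * (g * (g * g))) := by
  simp [pow_succ, mul_assoc]

theorem pow_ten (g : L) : g ^ 10 = (g * (g * (g * (g * g)))) * (g * (g * (g * (g * g)))) := by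
  simp [pow_succ, mul_assoc]

theorem trace_of_order_five {g : L} (h : orderOf g = 5) : g 0 0 + g 1 1 = 2 := by
  have h5 : g ^ 5 = 1 := by
    have := pow_orderOf_eq_one g
    rwa [h] at this
  have e : quad (g * (g * (g * (g * g)))) = (1, 0, 0, 1) := by
    rw [← pow_five, h5, quad_one]
  simp only [quad_mul] at e
  exact five_table _ _ _ _ (H6.sl2_det g) e

theorem trace_of_order_ten {g : L} (h : orderOf g = 10) : g 0 0 + g 1 1 = 3 := by
  have h10 : g ^ 10 = 1 := by
    have := pow_orderOf_eq_one g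
    rwa [h] at this
  have h5 : g ^ 5 ≠ 1 := fun h' => by
    have := orderOf_dvd_of_pow_eq_one h'
    rw [h] at this
    norm_num at this
  have h2 : g ^ 2 ≠ 1 := fun h' => by
    have := orderOf_dvd_of_pow_eq_one h'
    rw [h] at this
    norm_num at this
  refine ten_table _ _ _ _ (H6.sl2_det g) ?_ ?_ ?_
  · have e : quad ((g * (g * (g * (g * g)))) * (g * (g * (g * (g * g))))) = (1, 0, 0, 1) := by
      rw [← pow_ten, h10, quad_one]
    simp only [quad_mul] at e
    exact e
  · intro e
    apply h5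
    rw [pow_five]
    refine quad_inj ?_
    simp only [quad_mul, quad_one]
    exact e
  · intro e
    apply h2
    rw [pow_two]
    refine quad_inj ?_
    rw [quad_mul, quad_one]
    exact e

/-- Candidate images of the pair of transvections. -/
def pairs : Finset ((F × F × F) × (F × F × F)) :=
  Finset.univ.filter fun t =>
    t.1.1 * (2 - t.1.1) - t.1.2.1 * t.1.2.2 = 1 ∧ (t.1.2.1 ≠ 0 ∨ t.1.2.2 ≠ 0) ∧
      t.2.1 * (2 - t.2.1) - t.2.2.1 * t.2.2.2 = 1 ∧ (t.2.2.1 ≠ 0 ∨ t.2.2.2 ≠ 0) ∧
      t.1.1 * t.2.1 + t.1.2.1 * t.2.2.2 + t.1.2.2 * t.2.2.1 + (2 - t.1.1) * (2 - t.2.1) = 3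

theorem card_pairs : pairs.card = 120 := by decide +kernel

theorem mem_pairs (t : (F × F × F) × (F × F × F)) : t ∈ pairs ↔
    t.1.1 * (2 - t.1.1) - t.1.2.1 * t.1.2.2 = 1 ∧ (t.1.2.1 ≠ 0 ∨ t.1.2.2 ≠ 0) ∧
      t.2.1 * (2 - t.2.1) - t.2.2.1 * t.2.2.2 = 1 ∧ (t.2.2.1 ≠ 0 ∨ t.2.2.2 ≠ 0) ∧
      t.1.1 * t.2.1 + t.1.2.1 * t.2.2.2 + t.1.2.2 * t.2.2.1 + (2 - t.1.1) * (2 - t.2.1) = 3 := by
  simp only [pairs, Finset.mem_filter, Finset.mem_univ, true_and]

attribute [irreducible] pairs

theorem orderOf_uT : orderOf (uT 1) = 5 :=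
  orderOf_eq_prime (quad_inj (by rw [uT_pow, quad_one]; decide))
    (fun h => absurd (congrArg quad h) (by decide))

theorem orderOf_lT : orderOf (lT 1) = 5 :=
  orderOf_eq_prime (quad_inj (by rw [lT_pow, quad_one]; decide))
    (fun h => absurd (congrArg quad h) (by decide))

theorem orderOf_uT_lT : orderOf (uT 1 * lT 1) = 10 := by
  set g := uT 1 * lT 1 with hg
  rw [orderOf_eq_iff (by norm_num)]
  refine ⟨?_, fun m hm hm0 h => ?_⟩
  · apply quad_inj
    rw [pow_ten]
    simp only [hg, quad_mul]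
    decide +kernel
  · apply absurd (congrArg quad h)
    interval_cases m <;> simp only [pow_succ, pow_zero, one_mul, hg, quad_mul] <;> decide +kernel

variable {H : Type*} [Group H] [Finite H]

/-- Index of the centraliser of a normal SL(2,5). -/
theorem centralizer_index (N : Subgroup H) [N.Normal] (e : N ≃* L) :
    2 ∣ Nat.card (Subgroup.centralizer (N : Set H)) ∧
      ((Subgroup.centralizer (N : Set H)).index = 120 ∨
        ((Subgroup.centralizer (N : Set H)).index = 60 ∧
          N ⊔ Subgroup.centralizer (N : Set H) = ⊤)) := by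
  classical
  set C := Subgroup.centralizer (N : Set H) with hC
  haveI : C.Normal := hC ▸ Subgroup.normal_centralizer
  let u : N := e.symm (uT 1)
  let l : N := e.symm (lT 1)
  let c : H → N ≃* N := fun h => MulAut.conjNormal h
  let f : H → (F × F × F) × (F × F × F) := fun h =>
    ((e (c h u) 0 0, e (c h u) 0 1, e (c h u) 1 0), (e (c h l) 0 0, e (c h l) 0 1, e (c h l) 1 0))
  have hord : ∀ (h : H) (x : N), orderOf (e (c h x)) = orderOf (e x) := fun h x => by
    rw [MulEquiv.orderOf_eq, MulEquiv.orderOf_eq, MulEquiv.orderOf_eq]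
  have htr : ∀ h : H, e (c h u) 1 1 = 2 - e (c h u) 0 0 ∧ e (c h l) 1 1 = 2 - e (c h l) 0 0 := by
    intro h
    have h1 := trace_of_order_five (g := e (c h u)) (by rw [hord, e.apply_symm_apply, orderOf_uT])
    have h2 := trace_of_order_five (g := e (c h l)) (by rw [hord, e.apply_symm_apply, orderOf_lT])
    exact ⟨eq_sub_of_add_eq' h1, eq_sub_of_add_eq' h2⟩
  have hmem : ∀ h : H, f h ∈ pairs := by
    intro h
    obtain ⟨h1, h2⟩ := htr h
    have hne : ∀ x : L, orderOf x = 5 → x 0 1 ≠ 0 ∨ x 1 0 ≠ 0 := by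
      intro x hx
      by_contra hcon
      push Not at hcon
      have hd := H6.sl2_det x
      have ht := trace_of_order_five hx
      rw [hcon.1, hcon.2] at hd
      have key : ∀ a d : F, a + d = 2 → a * d - 0 * 0 = 1 → a = 1 ∧ d = 1 := by decide
      obtain ⟨ha, hd'⟩ := key _ _ ht hd
      have : x = 1 := quad_inj (by rw [quad_one]; simp [quad, ha, hd', hcon.1, hcon.2])
      rw [this, orderOf_one] at hx
      norm_num at hx
    have hdu := H6.sl2_det (e (c h u))
    have hdl := H6.sl2_det (e (c h l))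
    rw [h1] at hdu
    rw [h2] at hdl
    have h10 := trace_of_order_ten (g := e (c h u) * e (c h l)) (by
      rw [← map_mul, ← map_mul, hord, map_mul, e.apply_symm_apply, e.apply_symm_apply, orderOf_uT_lT])
    rw [H6.sl2_mul, H6.sl2_mul, h1, h2] at h10
    rw [mem_pairs]
    simp only [f]
    refine ⟨hdu, hne _ (by rw [hord, e.apply_symm_apply, orderOf_uT]), hdl,
      hne _ (by rw [hord, e.apply_symm_apply, orderOf_lT]), ?_⟩
    linear_combination h10
  have hfib : ∀ h h' : H, f h = f h' → h⁻¹ * h' ∈ C := by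
    intro h h' hf
    simp only [f, Prod.mk.injEq] at hf
    obtain ⟨⟨a1, a2, a3⟩, b1, b2, b3⟩ := hf
    have hu : c h u = c h' u := e.injective (quad_inj (by
      simp only [quad, (htr h).1, (htr h').1, a1, a2, a3]))
    have hl : c h l = c h' l := e.injective (quad_inj (by
      simp only [quad, (htr h).2, (htr h').2, b1, b2, b3]))
    let K : Subgroup L :=
      { carrier := {x | c h (e.symm x) = c h' (e.symm x)}
        mul_mem' := fun {x y} hx hy => by
          simp only [Set.mem_ofPred_eq, map_mul] at hx hy ⊢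
          rw [hx, hy]
        one_mem' := by simp
        inv_mem' := fun {x} hx => by
          simp only [Set.mem_ofPred_eq, map_inv] at hx ⊢
          rw [hx] }
    have hK : K = ⊤ := by
      rw [eq_top_iff, ← closure_eq_top, Subgroup.closure_le]
      rintro x (rfl | rfl)
      · exact hu
      · exact hl
    rw [hC, Subgroup.mem_centralizer_iff]
    intro n hn
    have h1 : e ⟨n, hn⟩ ∈ K := hK ▸ Subgroup.mem_top _
    have h2 : h * n * h⁻¹ = h' * n * h'⁻¹ := by
      have h3 : c h (e.symm (e ⟨n, hn⟩)) = c h' (e.symm (e ⟨n, hn⟩)) := h1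
      rw [e.symm_apply_apply] at h3
      simpa [c] using congrArg Subtype.val h3
    calc n * (h⁻¹ * h') = h⁻¹ * (h * n * h⁻¹) * h' := by group
      _ = h⁻¹ * (h' * n * h'⁻¹) * h' := by rw [h2]
      _ = h⁻¹ * h' * n := by group
  have hle : C.index ≤ 120 := by
    rw [← card_pairs, Subgroup.index_eq_card, ← Nat.card_eq_finsetCard]
    refine Nat.card_le_card_of_injective (fun q : H ⧸ C => ⟨f q.out, hmem _⟩) fun q q' hq => ?_
    rw [← QuotientGroup.out_eq' q, ← QuotientGroup.out_eq' q']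
    exact QuotientGroup.eq.2 (hfib _ _ (congrArg Subtype.val hq))
  have hcen : C.subgroupOf N = Subgroup.center N := by
    ext x
    simp [hC, Subgroup.mem_subgroupOf, Subgroup.mem_center_iff, Subgroup.mem_centralizer_iff,
      Subtype.ext_iff]
  have hcard2 : Nat.card (Subgroup.center N) = 2 := by
    rw [Nat.card_congr (Subgroup.centerCongr e).toEquiv, card_center]
  have hrel : C.relIndex N = 60 := by
    have h1 := Subgroup.card_mul_index (Subgroup.center N)
    rw [hcard2, Nat.card_congr e.toEquiv, card_L] at h1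
    rw [Subgroup.relIndex, hcen]
    omega
  have hd : 2 ∣ Nat.card C := by
    rw [← hcard2, ← hcen]
    exact Subgroup.card_comap_dvd_of_injective C N.subtype N.subtype_injective
  refine ⟨hd, ?_⟩
  obtain ⟨j, hj⟩ := hrel ▸ Subgroup.relIndex_dvd_index_of_normal C N
  have hpos : C.index ≠ 0 := Subgroup.index_ne_zero_of_finite
  have hj12 : j = 1 ∨ j = 2 := by
    have : j ≠ 0 := by rintro rfl; exact hpos (by rw [hj, mul_zero])
    omega
  rcases hj12 with rfl | rfl
  · refine Or.inr ⟨by omega, ?_⟩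
    have h1 := Subgroup.relIndex_mul_index (le_sup_right : C ≤ N ⊔ C)
    rw [Subgroup.relIndex_sup_right, hrel, hj] at h1
    exact Subgroup.index_eq_one.1 (by omega)
  · exact Or.inl (by omega)

end Cfsg.Agent.H36.SL25
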