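import Cfsg.Agent.S5946
import Cfsg.Agent.H74.Zsigmondy
import Mathlib

/-! Abelian subgroups of Singer order are conjugate to the Singer group. -/

set_option autoImplicit false

namespace Cfsg.Agent.H36

open Polynomial

/-- A prime power that is one less than a power of two is a prime. -/
theorem prime_of_succ_eq_two_pow {q a : ℕ} (hq : IsPrimePow q) (h : q + 1 = 2 ^ a) : q.Prime := by
  obtain ⟨p, k, hp, hk, rfl⟩ := hq
  rw [← Nat.prime_iff] at hp
  have hp2 : p ≠ 2 := by
    rintro rfl
    rcases a with _ | b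
    · simp at h
    · rw [pow_succ'] at h
      obtain ⟨k', rfl⟩ := Nat.exists_eq_succ_of_ne_zero hk.ne'
      rw [pow_succ'] at h
      omega
  have hodd : Odd p := hp.odd_of_ne_two hp2
  rcases Nat.even_or_odd k with ⟨j, rfl⟩ | hkodd
  · exfalso
    obtain ⟨s, hs⟩ := hodd.pow (n := j)
    have h3 : 3 ≤ p ^ j := by
      have h1 : p ^ 1 ≤ p ^ j := Nat.pow_le_pow_right hp.pos (by omega)
      have := hp.two_le
      rw [pow_one] at h1
      omega
    rw [pow_add, hs] at h
    have h4 : 2 ≤ a := by
      by_contra h5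
      interval_cases a <;> nlinarith
    obtain ⟨b, rfl⟩ := Nat.exists_eq_add_of_le h4
    rw [pow_add] at h
    have h5 : (2 * s + 1) * (2 * s + 1) = 4 * (s * s + s) + 1 := by ring
    omega
  · by_contra hnp
    have hk1 : k ≠ 1 := fun hk1 => hnp (by rw [hk1, pow_one]; exact hp)
    obtain ⟨d, hd⟩ : ∃ d, p ^ k + 1 = (p + 1) * d := by
      simpa [Dvd.dvd] using hkodd.nat_add_dvd_pow_add_pow p 1
    have hp3 : 3 ≤ p := by have := hp.two_le; omega
    -- the cofactor is odd and greater than one
    have hd2 : ((d : ℕ) : ZMod 2) = 1 := by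
      have hz : ((p : ℤ) + 1) * (∑ i ∈ Finset.range k, (-(p : ℤ)) ^ i) = (p : ℤ) ^ k + 1 := by
        have := geom_sum_mul (-(p : ℤ)) k
        rw [hkodd.neg_pow] at this
        linarith
      have hdz : (d : ℤ) = ∑ i ∈ Finset.range k, (-(p : ℤ)) ^ i := by
        have h1 : ((p : ℤ) + 1) * d = (p : ℤ) ^ k + 1 := by exact_mod_cast hd.symm
        exact mul_left_cancel₀ (by positivity) (h1.trans hz.symm)
      have hp1 : ((p : ℕ) : ZMod 2) = 1 := ZMod.natCast_eq_one_iff_odd.2 hodd
      have h1 := congrArg (Int.cast (R := ZMod 2)) hdz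
      push_cast at h1
      rw [h1, hp1, show (-1 : ZMod 2) = 1 by decide]
      simp [ZMod.natCast_eq_one_iff_odd.2 hkodd]
    obtain ⟨i, -, hi⟩ := (Nat.dvd_prime_pow Nat.prime_two).1
      (⟨p + 1, by rw [← h, hd, mul_comm]⟩ : d ∣ 2 ^ a)
    rcases i with _ | i
    · rw [hi, pow_zero, mul_one] at hd
      have : p ^ 1 < p ^ k := Nat.pow_lt_pow_right hp.one_lt (by omega)
      rw [pow_one] at this
      omega
    · rw [hi, pow_succ] at hd2
      push_cast at hd2
      rw [show (2 : ZMod 2) = 0 by decide, mul_zero] at hd2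
      exact zero_ne_one hd2

variable {F K : Type*} [Field F] [Fintype F] [Field K] [Fintype K] [Algebra F K]

/-- The degree of a nontrivial irreducible factor of `X ^ r - 1`. -/
theorem le_natDegree_of_dvd_geom_sum {r n : ℕ} (hr : r.Prime) (hrF : (r : F) ≠ 0)
    (hord : orderOf (Fintype.card F : ZMod r) = n) {g : F[X]} (hg : Irreducible g)
    (hdvd : g ∣ ∑ i ∈ Finset.range r, X ^ i) : n ≤ g.natDegree := by
  have : Fact (Irreducible g) := ⟨hg⟩
  have : Fact r.Prime := ⟨hr⟩
  have hfin : Module.Finite F (AdjoinRoot g) :=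
    PowerBasis.finite (AdjoinRoot.powerBasis hg.ne_zero)
  have : Finite (AdjoinRoot g) := Module.finite_of_finite F
  have : Fintype (AdjoinRoot g) := Fintype.ofFinite _
  set α := AdjoinRoot.root g
  have hS : (∑ i ∈ Finset.range r, α ^ i) = 0 := by
    obtain ⟨h, hh⟩ := hdvd
    have h1 := congrArg (AdjoinRoot.mk g) hh
    simpa [map_sum, α] using h1
  have hαr : α ^ r = 1 := by
    have h1 := geom_sum_mul α r
    rw [hS, zero_mul] at h1
    exact (sub_eq_zero.1 h1.symm)
  have hα1 : α ≠ 1 := fun h => by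
    rw [h] at hS
    simp only [one_pow, Finset.sum_const, Finset.card_range, nsmul_one] at hS
    exact hrF ((algebraMap F (AdjoinRoot g)).injective (by rw [map_natCast, hS, map_zero]))
  have hα0 : α ≠ 0 := fun h => by
    rw [h, zero_pow hr.ne_zero] at hαr
    exact zero_ne_one hαr
  have hcard : Fintype.card (AdjoinRoot g) = Fintype.card F ^ g.natDegree := by
    rw [Module.card_eq_pow_finrank (K := F), PowerBasis.finrank (AdjoinRoot.powerBasis hg.ne_zero),
      AdjoinRoot.powerBasis_dim]
  have hdiv : r ∣ Fintype.card F ^ g.natDegree - 1 := by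
    rw [← hcard, ← orderOf_eq_prime hαr hα1]
    exact orderOf_dvd_of_pow_eq_one (FiniteField.pow_card_sub_one_eq_one α hα0)
  have h1 : (Fintype.card F : ZMod r) ^ g.natDegree = 1 := by
    have h2 := (ZMod.natCast_eq_zero_iff _ _).2 hdiv
    rw [Nat.cast_sub (Nat.one_le_pow _ _ Fintype.card_pos), sub_eq_zero] at h2
    simpa using h2
  exact hord ▸ Nat.le_of_dvd hg.natDegree_pos (orderOf_dvd_of_pow_eq_one h1)

/-- An element of primitive prime order has an irreducible minimal polynomial of full degree. -/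
theorem minpoly_irreducible_of_primitive {r n : ℕ} (hr : r.Prime) (hrF : (r : F) ≠ 0)
    (hord : orderOf (Fintype.card F : ZMod r) = n) (hdim : Module.finrank F K = n)
    {u : Module.End F K} (hu : u ^ r = 1) (hu1 : u ≠ 1) :
    Irreducible (minpoly F u) ∧ (minpoly F u).natDegree = n := by
  classical
  set S : F[X] := ∑ i ∈ Finset.range r, X ^ i with hS
  have hdvd : minpoly F u ∣ (X - 1) * S := by
    rw [hS, mul_geom_sum]
    exact minpoly.dvd _ _ (by simp [hu])
  have hnc : ¬ IsCoprime (minpoly F u) S := fun hc => by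
    have h1 := hc.dvd_of_dvd_mul_right hdvd
    obtain ⟨h, hh⟩ := h1
    have h2 := congrArg (aeval u) hh
    simp [sub_eq_zero] at h2
    exact hu1 h2
  obtain ⟨g, hg, hgm, hgS⟩ : ∃ g, Irreducible g ∧ g ∣ minpoly F u ∧ g ∣ S := by
    by_contra hcon
    push Not at hcon
    refine hnc (isCoprime_of_irreducible_dvd ?_ fun z hz h1 h2 => hcon z hz h1 h2)
    rintro ⟨h1, -⟩
    exact (minpoly.ne_zero (Algebra.IsIntegral.isIntegral (R := F) u)) h1
  have hge := le_natDegree_of_dvd_geom_sum hr hrF hord hg hgS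
  have hmonic := minpoly.monic (Algebra.IsIntegral.isIntegral (R := F) u)
  have hle : (minpoly F u).natDegree ≤ n := by
    rw [← hdim, ← LinearMap.charpoly_natDegree u]
    exact Polynomial.natDegree_le_of_dvd (LinearMap.minpoly_dvd_charpoly u)
      u.charpoly_monic.ne_zero
  have hassoc : Associated g (minpoly F u) :=
    associated_of_dvd_of_natDegree_le hgm hmonic.ne_zero (hle.trans hge)
  refine ⟨hassoc.irreducible hg, le_antisymm hle ?_⟩
  exact hge.trans (Polynomial.natDegree_le_of_dvd hgm hmonic.ne_zero)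

theorem singer_conjugate (n : ℕ) (hn : 2 ≤ n) (hdim : Module.finrank F K = n)
    (hex1 : ¬ (n = 6 ∧ Fintype.card F = 2))
    (hex2 : ¬ (n = 2 ∧ (Fintype.card F).Prime ∧ ∃ a : ℕ, Fintype.card F + 1 = 2 ^ a))
    (U : Subgroup (Module.End F K)ˣ) (hU : IsMulCommutative U)
    (hcard : Nat.card U = Fintype.card K - 1) :
    ∃ g : (Module.End F K)ˣ, U.map (MulAut.conj g).toMonoidHom =
      (Units.map ((Algebra.lmul F K : K →ₐ[F] Module.End F K) : K →* Module.End F K)).range := by
  classical
  set q := Fintype.card F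
  have hKq : Fintype.card K = q ^ n := by rw [← hdim, Module.card_eq_pow_finrank (K := F)]
  obtain ⟨r, hr, hrdvd, hord⟩ := H74.exists_prime_orderOf_eq (a := q) (n := n)
    Fintype.one_lt_card (by omega) (fun h => hex1 ⟨h.2, h.1⟩)
    (fun h => hex2 ⟨h.1, h.2.elim fun m hm =>
      prime_of_succ_eq_two_pow (FiniteField.isPrimePow_card F) hm, h.2⟩)
  have : Fact r.Prime := ⟨hr⟩
  have hrF : (r : F) ≠ 0 := by
    intro h
    have hp := ringChar.spec F r |>.1 h
    have hp' := CharP.char_is_prime F (ringChar F)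
    obtain ⟨m, -, hm⟩ := FiniteField.card F (ringChar F)
    have h1 : ringChar F = r := (Nat.prime_dvd_prime_iff_eq hp' hr).1 hp
    have h2 : (q : ZMod r) = 0 := by
      rw [ZMod.natCast_eq_zero_iff, show q = ringChar F ^ (m : ℕ) from hm, h1]
      exact dvd_pow_self r m.pos.ne'
    rw [h2] at hord
    have : orderOf (0 : ZMod r) = 0 := orderOf_zero _
    omega
  have : Finite (Module.End F K) := Module.finite_of_finite F
  obtain ⟨u, hu⟩ := exists_prime_orderOf_dvd_card' (G := U) r (by rw [hcard, hKq]; exact hrdvd)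
  set v : Module.End F K := ((u : (Module.End F K)ˣ) : Module.End F K)
  have hvo : orderOf v = r := by rw [orderOf_units, Subgroup.orderOf_coe, hu]
  have hvr : v ^ r = 1 := hvo ▸ pow_orderOf_eq_one v
  have hv1 : v ≠ 1 := fun h => by
    rw [h, orderOf_one] at hvo
    exact hr.ne_one hvo.symm
  obtain ⟨hirr, hdeg⟩ := minpoly_irreducible_of_primitive hr hrF hord hdim hvr hv1
  have : Fact (Irreducible (minpoly F v)) := ⟨hirr⟩
  have hfin : Module.Finite F (AdjoinRoot (minpoly F v)) :=
    PowerBasis.finite (AdjoinRoot.powerBasis hirr.ne_zero)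
  have : Finite (AdjoinRoot (minpoly F v)) := Module.finite_of_finite F
  have : Fintype (AdjoinRoot (minpoly F v)) := Fintype.ofFinite _
  obtain ⟨ε⟩ : Nonempty (K ≃ₐ[F] AdjoinRoot (minpoly F v)) := by
    obtain ⟨f⟩ := FiniteField.nonempty_algHom_of_finrank_dvd (F := F) (K := K)
      (L := AdjoinRoot (minpoly F v)) (by
        rw [hdim, PowerBasis.finrank (AdjoinRoot.powerBasis hirr.ne_zero),
          AdjoinRoot.powerBasis_dim, hdeg])
    exact ⟨AlgEquiv.ofBijective f ((Fintype.bijective_iff_injective_and_card f).2 ⟨f.injective, by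
      rw [hKq, Module.card_eq_pow_finrank (K := F),
        PowerBasis.finrank (AdjoinRoot.powerBasis hirr.ne_zero), AdjoinRoot.powerBasis_dim, hdeg]⟩)⟩
  let L : AdjoinRoot (minpoly F v) →ₐ[F] Module.End F K :=
    Ideal.Quotient.liftₐ (Ideal.span {minpoly F v}) (aeval v) (fun f hf => by
      obtain ⟨h, rfl⟩ := Ideal.mem_span_singleton'.1 hf
      rw [map_mul, minpoly.aeval, mul_zero])
  let φ : K →ₐ[F] Module.End F K := L.comp ε.toAlgHom
  let T : K →ₗ[F] K := (LinearMap.applyₗ (R := F) (1 : K)).comp φ.toLinearMap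
  have hT : ∀ x, T x = φ x 1 := fun x => rfl
  have hTinj : Function.Injective T := by
    rw [← LinearMap.ker_eq_bot, LinearMap.ker_eq_bot']
    intro x hx
    by_contra hx0
    have h := congrArg (φ x⁻¹) hx
    rw [hT, ← Module.End.mul_apply, ← map_mul, inv_mul_cancel₀ hx0] at h
    simp at h
  let e : K ≃ₗ[F] K := LinearEquiv.ofBijective T ⟨hTinj, LinearMap.injective_iff_surjective.1 hTinj⟩
  let t : (Module.End F K)ˣ :=
    ⟨e.toLinearMap, e.symm.toLinearMap, LinearMap.ext fun x => e.apply_symm_apply x,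
      LinearMap.ext fun x => e.symm_apply_apply x⟩
  set M := (Units.map ((Algebra.lmul F K : K →ₐ[F] Module.End F K) : K →* Module.End F K)).range with hM
  have hMT : ∀ a x : K, T (a * x) = φ a (T x) := fun a x => by
    rw [hT, hT, map_mul, Module.End.mul_apply]
  have hle : U.map (MulAut.conj t⁻¹).toMonoidHom ≤ M := by
    rintro _ ⟨w, hw, rfl⟩
    rw [hM, ← S5946.result (F := F) (K := K) n hn hdim, Subgroup.mem_centralizer_iff]
    rintro _ ⟨a, rfl⟩
    have hwv : ((w : (Module.End F K)ˣ) : Module.End F K) * v = v * (w : Module.End F K) :=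
      congrArg (fun z : U => ((z : (Module.End F K)ˣ) : Module.End F K))
        (hU.is_comm.comm ⟨w, hw⟩ u)
    have hwφ : ∀ y : K, ∀ x : K, (w : Module.End F K) (φ y x) = φ y ((w : Module.End F K) x) := by
      intro y x
      obtain ⟨f, hf⟩ := AdjoinRoot.mk_surjective (ε y)
      have hφ : φ y = aeval v f := by
        show L (ε y) = _
        rw [← hf]
        rfl
      have hcw : ∀ g : F[X], Commute (w : Module.End F K) (aeval v g) := fun g => by
        induction g using Polynomial.induction_on' with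
        | add f g hf' hg' => rw [map_add]; exact hf'.add_right hg'
        | monomial i c =>
          rw [aeval_monomial]
          exact Commute.mul_right (Algebra.commutes c (w : Module.End F K)).symm
            ((show Commute (w : Module.End F K) v from hwv).pow_right i)
      rw [hφ, ← Module.End.mul_apply, ← Module.End.mul_apply, (hcw f).eq]
    apply Units.ext
    refine LinearMap.ext fun x => ?_
    show (a : K) * e.symm ((w : Module.End F K) (e x)) =
      e.symm ((w : Module.End F K) (e ((a : K) * x)))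
    apply e.injective
    show T ((a : K) * e.symm ((w : Module.End F K) (e x))) = _
    rw [LinearEquiv.apply_symm_apply, hMT]
    show φ (a : K) (e (e.symm ((w : Module.End F K) (e x)))) = (w : Module.End F K) (T ((a : K) * x))
    rw [LinearEquiv.apply_symm_apply, hMT, hwφ]
    rfl
  refine ⟨t⁻¹, Subgroup.eq_of_le_of_card_ge hle (le_of_eq ?_)⟩
  rw [Subgroup.card_map_of_injective (MulAut.conj t⁻¹).injective, hcard,
    ← Nat.card_congr (MonoidHom.ofInjective (f := Units.map
      ((Algebra.lmul F K : K →ₐ[F] Module.End F K) : K →* Module.End F K)) fun a b h => ?_).toEquiv,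
    Nat.card_units, Nat.card_eq_fintype_card]
  have h1 := congrArg (fun z : (Module.End F K)ˣ => (z : Module.End F K) 1) h
  exact Units.ext (by simpa using h1)

end Cfsg.Agent.H36
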