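import Mathlib
import Cfsg.Agent.H36.SylowEightData
import Cfsg.Agent.H36.SymPartition

/-!
# Sylow two-subgroups of the symmetric group of degree eight meet nontrivially
-/

open Equiv
set_option linter.style.haveILetI false

namespace Cfsg.Agent.H36.SylowEight

/-- The central involution. -/
def z0 : Perm (Fin 8) := swap 0 1 * swap 2 3 * swap 4 5 * swap 6 7

/-- The split into two halves. -/
def q0 (i : Fin 8) : Bool := decide ((i : ℕ) < 4)

/-- A two-subgroup. -/
def base : Subgroup (Perm (Fin 8)) :=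
  SymPartition.blockStab q0 ⊓ Subgroup.centralizer ({z0} : Set (Perm (Fin 8)))

theorem half_four : ∀ i a b : Fin 8, q0 a = q0 i → q0 b = q0 i → a ≠ i → a ≠ z0 i →
    b = i ∨ b = z0 i ∨ b = a ∨ b = z0 a := by decide +kernel

theorem z0_z0 : ∀ i, z0 (z0 i) = i := by decide +kernel

theorem comm_apply {g : Perm (Fin 8)} (hg : g ∈ base) (i : Fin 8) : g (z0 i) = z0 (g i) :=
  Equiv.ext_iff.1 (Subgroup.mem_centralizer_singleton_iff.1 hg.2) i

theorem base_isPGroup : IsPGroup 2 base := by
  rintro ⟨g, hg⟩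
  refine ⟨3, Subtype.ext ?_⟩
  rw [SubmonoidClass.coe_pow, OneMemClass.coe_one]
  have hq : ∀ i, q0 ((g * g) i) = q0 i := by
    intro i
    have h : ∀ a b : Fin 8, (q0 a = q0 b ↔ q0 (g a) = q0 (g b)) := hg.1
    have h1 := h (g i) i
    have h2 := h i 0
    have h3 := h (g i) 0
    rw [Perm.mul_apply]
    revert h1 h2 h3
    cases q0 (g (g i)) <;> cases q0 (g i) <;> cases q0 i <;> cases q0 0 <;> cases q0 (g 0) <;> simp
  have hz : ∀ i, (g * g) (z0 i) = z0 ((g * g) i) := fun i => by
    rw [Perm.mul_apply, Perm.mul_apply, comm_apply hg, comm_apply hg]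
  generalize hh : g * g = k at hq hz
  have h2 : ∀ i, k (k i) = i ∨ k (k i) = z0 i := by
    intro i
    by_cases h1 : k i = i
    · left; rw [h1, h1]
    by_cases h1' : k i = z0 i
    · left; rw [h1', hz, h1', z0_z0]
    rcases half_four i (k i) (k (k i)) (hq i) ((hq _).trans (hq i)) h1 h1' with e | e | e | e
    · exact Or.inl e
    · exact Or.inr e
    · exact absurd (k.injective e) h1
    · rw [← hz] at e
      exact absurd (k.injective e) h1'
  have h4 : k * k * (k * k) = 1 := by
    ext i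
    rw [Perm.one_apply, Perm.mul_apply, Perm.mul_apply, Perm.mul_apply]
    congr 1
    rcases h2 i with e | e
    · rw [e, e]
    · rw [e, hz, hz, e, z0_z0]
  rw [← h4, ← hh]
  simp [pow_succ, mul_assoc]

/-- The normalised state of a conjugate. -/
def stOf (y : Perm (Fin 8)) : St :=
  (List.ofFn fun i => y (z0 (y.symm i)), List.ofFn fun i => q0 (y.symm i) == q0 (y.symm 0))

/-- Action of a permutation on states. -/
def act (s : Fin 8 → Fin 8) (st : St) : St :=
  (List.ofFn fun i => s (st.1.getD (s i).val 0),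
    List.ofFn fun i => st.2.getD (s i).val false == st.2.getD (s 0).val false)

theorem getD_ofFn {β : Type*} (f : Fin 8 → β) (i : Fin 8) (d : β) :
    (List.ofFn f).getD i.val d = f i := by
  rw [List.getD_eq_getElem _ _ (by simp), List.getElem_ofFn]

theorem act_stOf (s y : Perm (Fin 8)) (hs : ∀ i, s (s i) = i) : act s (stOf y) = stOf (s * y) := by
  have hsymm : ∀ i, (s * y).symm i = y.symm (s i) := fun i => by
    rw [Equiv.symm_apply_eq, Perm.mul_apply, Equiv.apply_symm_apply, hs]
  unfold act stOf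
  simp only [getD_ofFn]
  refine congrArg₂ Prod.mk ?_ ?_
  · refine congrArg List.ofFn (funext fun i => ?_)
    rw [hsymm]; rfl
  · refine congrArg List.ofFn (funext fun i => ?_)
    rw [hsymm, hsymm]
    cases q0 (y.symm (s i)) <;> cases q0 (y.symm (s 0)) <;> cases q0 (y.symm 0) <;> rfl

/-- Image list as a function. -/
def fn (t : List (Fin 8)) (i : Fin 8) : Fin 8 := t.getD i.val 0

/-- An involution preserves a state. -/
def preserves (t : Fin 8 → Fin 8) (st : St) : Prop :=
  ∀ i : Fin 8, t (st.1.getD i.val 0) = st.1.getD (t i).val 0 ∧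
    (st.2.getD (t i).val false == st.2.getD (t 0).val false) = st.2.getD i.val false

/-- Adjacent transpositions. -/
def adj (k : Fin 7) : Perm (Fin 8) := swap k.castSucc k.succ

theorem table_ok : ∀ k : Fin 315, ∀ g : Fin 7,
    (table.getD k.val []).getD g.val 0 < 315 ∧
      act (adj g) (states.getD k.val ([], [])) =
        states.getD ((table.getD k.val []).getD g.val 0) ([], []) := by decide +kernel

theorem start_ok : stOf 1 = states.getD 0 ([], []) := by decide +kernel

theorem wit_ok : ∀ k : Fin 315,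
    (∀ i, fn (wits.getD (witIdx.getD k.val 0) []) (fn (wits.getD (witIdx.getD k.val 0) []) i) = i) ∧
    (∃ i, fn (wits.getD (witIdx.getD k.val 0) []) i ≠ i) ∧
    (∀ i : Fin 8, fn (wits.getD (witIdx.getD k.val 0) []) (z0 i) = z0 (fn (wits.getD (witIdx.getD k.val 0) []) i) ∧
      (q0 (fn (wits.getD (witIdx.getD k.val 0) []) i) == q0 (fn (wits.getD (witIdx.getD k.val 0) []) 0)) = (q0 i == q0 0)) ∧
    (∀ i : Fin 8, fn (wits.getD (witIdx.getD k.val 0) []) ((states.getD k.val ([], [])).1.getD i.val 0) =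
        (states.getD k.val ([], [])).1.getD (fn (wits.getD (witIdx.getD k.val 0) []) i).val 0 ∧
      ((states.getD k.val ([], [])).2.getD (fn (wits.getD (witIdx.getD k.val 0) []) i).val false ==
        (states.getD k.val ([], [])).2.getD (fn (wits.getD (witIdx.getD k.val 0) []) 0).val false) =
        (states.getD k.val ([], [])).2.getD i.val false) := by decide +kernel

theorem exists_state (y : Perm (Fin 8)) : ∃ k : Fin 315, stOf y = states.getD k.val ([], []) := by
  have hy : y ∈ Submonoid.closure (Set.range fun i : Fin 7 => swap i.castSucc i.succ) := by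
    rw [Perm.mclosure_swap_castSucc_succ]; trivial
  induction hy using Submonoid.closure_induction_left with
  | one => exact ⟨⟨0, by norm_num⟩, start_ok⟩
  | mul_left s hs z _ ih =>
    obtain ⟨g, rfl⟩ := hs
    obtain ⟨k, hk⟩ := ih
    obtain ⟨hlt, he⟩ := table_ok k g
    refine ⟨⟨_, hlt⟩, ?_⟩
    rw [← he, ← hk]
    exact (act_stOf (adj g) z (fun i => Equiv.swap_apply_self _ _ i)).symm

theorem mem_block_of_beq (t : Fin 8 → Fin 8) (q : Fin 8 → Bool)
    (h : ∀ i, (q (t i) == q (t 0)) = (q i == q 0)) : ∀ a b, q a = q b ↔ q (t a) = q (t b) := by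
  intro a b
  have h1 := h a
  have h2 := h b
  revert h1 h2
  cases q (t a) <;> cases q (t b) <;> cases q (t 0) <;> cases q a <;> cases q b <;> cases q 0 <;> simp

theorem mem_block_of_beq₂ (t : Fin 8 → Fin 8) (q : Fin 8 → Bool)
    (h : ∀ i, ((q (t i) == q 0) == (q (t 0) == q 0)) = (q i == q 0)) :
    ∀ a b, q a = q b ↔ q (t a) = q (t b) := by
  intro a b
  have h1 := h a
  have h2 := h b
  revert h1 h2
  cases q (t a) <;> cases q (t b) <;> cases q (t 0) <;> cases q a <;> cases q b <;> cases q 0 <;> simp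

theorem meet (y : Perm (Fin 8)) : ∃ t ∈ base, t ≠ 1 ∧ y⁻¹ * t * y ∈ base := by
  obtain ⟨k, hk⟩ := exists_state y
  obtain ⟨hinv, ⟨i0, hi0⟩, hb, hy⟩ := wit_ok k
  set t : Perm (Fin 8) := Function.Involutive.toPerm _ hinv with ht
  set f := fn (wits.getD (witIdx.getD k.val 0) []) with hf
  have htf : ∀ i, t i = f i := fun i => rfl
  rw [← hk] at hy
  simp only [stOf, getD_ofFn] at hy
  refine ⟨t, ⟨?_, ?_⟩, fun h => hi0 ?_, ?_, ?_⟩
  · exact mem_block_of_beq f q0 fun i => (hb i).2
  · refine Subgroup.mem_centralizer_singleton_iff.2 ?_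
    exact Equiv.ext fun i => (hb i).1
  · rw [← htf, h]; rfl
  · intro a b
    have key := mem_block_of_beq₂ f (fun i => q0 (y.symm i)) (fun i => (hy i).2) (y a) (y b)
    simp only [Equiv.symm_apply_apply] at key
    exact key
  · refine Subgroup.mem_centralizer_singleton_iff.2 ?_
    ext i
    have h1 := (hy (y i)).1
    rw [Equiv.symm_apply_apply] at h1
    show ((y.symm (f (y (z0 i))) : Fin 8) : ℕ) = (z0 (y.symm (f (y i))) : Fin 8)
    rw [h1, Equiv.symm_apply_apply]

theorem sylow_meet (H : Sylow 2 (Perm (Fin 8))) (x : Perm (Fin 8)) :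
    (H : Subgroup (Perm (Fin 8))) ⊓ (H : Subgroup (Perm (Fin 8))).map (MulAut.conj x).toMonoidHom ≠ ⊥ := by
  haveI : Fact (Nat.Prime 2) := ⟨Nat.prime_two⟩
  obtain ⟨Q, hQ⟩ := base_isPGroup.exists_le_sylow
  obtain ⟨g, hg⟩ := MulAction.exists_smul_eq (Perm (Fin 8)) Q H
  have hmem : ∀ u ∈ base, g * u * g⁻¹ ∈ (H : Subgroup (Perm (Fin 8))) := fun u hu => by
    rw [← hg]
    exact Subgroup.mem_map_of_mem _ (hQ hu)
  obtain ⟨t, ht, ht1, hty⟩ := meet (g⁻¹ * x * g)
  intro h
  have h1 : g * t * g⁻¹ ∈ (H : Subgroup (Perm (Fin 8))) ⊓ (H : Subgroup (Perm (Fin 8))).map (MulAut.conj x).toMonoidHom := by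
    refine ⟨hmem t ht, _, hmem _ hty, ?_⟩
    show x * (g * ((g⁻¹ * x * g)⁻¹ * t * (g⁻¹ * x * g)) * g⁻¹) * x⁻¹ = g * t * g⁻¹
    group
  rw [h, Subgroup.mem_bot, conj_eq_one_iff] at h1
  exact ht1 h1

end Cfsg.Agent.H36.SylowEight
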