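import Mathlib
import Cfsg.Agent.H36.SymPartition

/-!
# The pairs partition in the alternating group of degree eight
-/

open Equiv MulAction
set_option linter.style.haveILetI false

namespace Cfsg.Agent.H36.SymPairs

open SymPartition

abbrev V := Fin 4 × Bool

/-- Block permutation with flips. -/
def mk (σ : Perm (Fin 4)) (ε : Fin 4 → Bool) : Perm V where
  toFun := fun x => (σ x.1, xor x.2 (ε x.1))
  invFun := fun x => (σ.symm x.1, xor x.2 (ε (σ.symm x.1)))
  left_inv := fun x => by simp [Bool.xor_assoc]
  right_inv := fun x => by simp [Bool.xor_assoc]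

theorem check_mk : ∀ (σ : Perm (Fin 4)) (ε : Fin 4 → Bool), Perm.sign (mk σ ε) = 1 →
    ∀ s ∈ planes, s.map (mk σ ε).toEmbedding ∈ planes := by decide +kernel

/-- Even permutations preserving the planes. -/
def planeGroup : Subgroup (Perm V) where
  carrier := {g | ∀ s, s ∈ planes ↔ s.map g.toEmbedding ∈ planes}
  one_mem' := fun s => by
    rw [show ((1 : Perm V).toEmbedding) = Function.Embedding.refl V from rfl, Finset.map_refl]
  mul_mem' := fun {a b} ha hb s => by
    rw [hb s, ha, Finset.map_map]
    rfl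
  inv_mem' := fun {a} ha s => by
    rw [ha (s.map a⁻¹.toEmbedding), Finset.map_map]
    rw [show a⁻¹.toEmbedding.trans a.toEmbedding = Function.Embedding.refl V from
      Function.Embedding.ext fun x => a.apply_symm_apply x, Finset.map_refl]

theorem exists_mk {g : Perm V} (hg : g ∈ blockStab (Prod.fst : V → Fin 4)) :
    ∃ σ ε, g = mk σ ε := by
  have hs : Function.Injective fun i => (g (i, false)).1 := fun i j h =>
    (hg (i, false) (j, false)).2 h
  refine ⟨Equiv.ofBijective _ (Finite.injective_iff_bijective.1 hs), fun i => (g (i, false)).2, ?_⟩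
  ext ⟨i, b⟩ : 1
  have h1 : (g (i, b)).1 = (g (i, false)).1 := (hg (i, b) (i, false)).1 rfl
  refine Prod.ext h1 ?_
  show (g (i, b)).2 = xor b (g (i, false)).2
  cases b
  · simp
  · have hne : g (i, true) ≠ g (i, false) := fun e => by simpa using g.injective e
    have h2 : (g (i, true)).2 ≠ (g (i, false)).2 := fun e => hne (Prod.ext h1 e)
    revert h2
    cases (g (i, true)).2 <;> cases (g (i, false)).2 <;> simp

theorem block_le_planeGroup :
    blockStab (Prod.fst : V → Fin 4) ⊓ alternatingGroup V ≤ planeGroup := by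
  intro g hg
  have key : ∀ k ∈ blockStab (Prod.fst : V → Fin 4) ⊓ alternatingGroup V,
      ∀ s ∈ planes, s.map k.toEmbedding ∈ planes := by
    intro k hk
    obtain ⟨σ, ε, rfl⟩ := exists_mk hk.1
    exact check_mk σ ε (Perm.mem_alternatingGroup.1 hk.2)
  intro s
  refine ⟨key g hg s, fun h => ?_⟩
  have h1 := key g⁻¹ (inv_mem hg) _ h
  rwa [Finset.map_map, show g.toEmbedding.trans g⁻¹.toEmbedding = Function.Embedding.refl V from
      Function.Embedding.ext fun x => g.symm_apply_apply x, Finset.map_refl] at h1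

/-- An even permutation preserving the planes but not the pairs. -/
def ex1 : Perm V := swap (0, true) (1, false) * swap (2, true) (3, false)

/-- A three-cycle. -/
def ex2 : Perm V := swap (0, false) (1, false) * swap (0, false) (2, false)

theorem ex1_sign : Perm.sign ex1 = 1 := by decide +kernel

theorem ex2_sign : Perm.sign ex2 = 1 := by decide +kernel

theorem ex1_planes : ∀ s ∈ planes, s.map ex1.toEmbedding ∈ planes := by decide +kernel

theorem ex1_invol : ∀ x, ex1 (ex1 x) = x := by decide +kernel

theorem ex1_bad : ((0, true) : V).1 = ((0, false) : V).1 ∧ (ex1 (0, true)).1 ≠ (ex1 (0, false)).1 := by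
  decide +kernel

theorem ex2_planes : ¬ ∀ s ∈ planes, s.map ex2.toEmbedding ∈ planes := by decide +kernel

theorem not_coatom_model :
    ¬ IsCoatom ((blockStab (Prod.fst : V → Fin 4) ⊓ alternatingGroup V).subgroupOf (alternatingGroup V)) := by
  intro hc
  have h1 := ex1_sign
  have h2 := ex1_planes
  have h4 := ex2_sign
  have h5 := ex2_planes
  set g := ex1 with hg
  have hgP : g ∈ planeGroup := by
    intro s
    refine ⟨h2 s, fun h => ?_⟩
    have h6 := h2 _ h
    rwa [Finset.map_map, show g.toEmbedding.trans g.toEmbedding = Function.Embedding.refl V from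
      Function.Embedding.ext (hg ▸ ex1_invol), Finset.map_refl] at h6
  have hlt : (blockStab (Prod.fst : V → Fin 4) ⊓ alternatingGroup V).subgroupOf (alternatingGroup V) <
      planeGroup.subgroupOf (alternatingGroup V) := by
    refine lt_of_le_of_ne (fun x hx => block_le_planeGroup hx) fun e => ?_
    have h : (⟨g, Perm.mem_alternatingGroup.2 h1⟩ : alternatingGroup V) ∈
        (blockStab (Prod.fst : V → Fin 4) ⊓ alternatingGroup V).subgroupOf (alternatingGroup V) :=
      e ▸ hgP
    exact ex1_bad.2 (((h : g ∈ blockStab (Prod.fst : V → Fin 4) ⊓ alternatingGroup V).1 _ _).1 ex1_bad.1)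
  have htop := Subgroup.subgroupOf_eq_top.1 (hc.2 _ hlt)
  exact h5 fun s hs => ((htop (Perm.mem_alternatingGroup.2 h4)) s).1 hs

theorem not_coatom {Ω : Type*} [Fintype Ω] [DecidableEq Ω] (f : Ω → Fin 4)
    (hf : ∀ i : Fin 4, Nat.card {x : Ω // f x = i} = 2) :
    ¬ IsCoatom ((blockStab f ⊓ alternatingGroup Ω).subgroupOf (alternatingGroup Ω)) := by
  intro hc
  have he : ∀ i, Nonempty ({x : Ω // f x = i} ≃ Bool) := fun i =>
    Finite.card_eq.1 (by rw [hf, Nat.card_eq_fintype_card, Fintype.card_bool])
  let e : Ω ≃ V := ((Equiv.sigmaFiberEquiv f).symm.trans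
    (Equiv.sigmaCongrRight fun i => (he i).some)).trans (Equiv.sigmaEquivProd _ _)
  have hef : ∀ x, (e x).1 = f x := fun x => rfl
  let E : Perm Ω ≃* Perm V := e.permCongrHom
  let EA : alternatingGroup Ω ≃* alternatingGroup V := e.altCongrHom
  apply not_coatom_model
  have heq : (blockStab (Prod.fst : V → Fin 4) ⊓ alternatingGroup V).subgroupOf (alternatingGroup V) =
      ((blockStab f ⊓ alternatingGroup Ω).subgroupOf (alternatingGroup Ω)).map EA.toMonoidHom := by
    ext g
    obtain ⟨σ, rfl⟩ := EA.surjective g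
    rw [Subgroup.mem_map_equiv, MulEquiv.symm_apply_apply, Subgroup.mem_subgroupOf,
      Subgroup.mem_subgroupOf, Subgroup.mem_inf, Subgroup.mem_inf, and_iff_left (EA σ).2,
      and_iff_left σ.2]
    show (∀ x y : V, x.1 = y.1 ↔ (((EA σ) : Perm V) x).1 = (((EA σ) : Perm V) y).1) ↔
      ∀ x y, f x = f y ↔ f ((σ : Perm Ω) x) = f ((σ : Perm Ω) y)
    have hap : ∀ x, ((EA σ) : Perm V) (e x) = e ((σ : Perm Ω) x) := fun x => by
      show e ((σ : Perm Ω) (e.symm (e x))) = _
      rw [Equiv.symm_apply_apply]
    constructor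
    · intro h x y
      have := h (e x) (e y)
      rwa [hap, hap, hef, hef, hef, hef] at this
    · intro h x y
      obtain ⟨x, rfl⟩ := e.surjective x
      obtain ⟨y, rfl⟩ := e.surjective y
      rw [hap, hap, hef, hef, hef, hef]
      exact h x y
  rw [heq]
  exact (OrderIso.isCoatom_iff (MulEquiv.mapSubgroup EA) _).2 hc

end Cfsg.Agent.H36.SymPairs
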