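import Mathlib
import Cfsg.Agent.H36.SymPartition
import Cfsg.Agent.H36.SymPairs
import Cfsg.Agent.H80.Marggraff

/-!
# Partition stabilisers are maximal in alternating groups of degree other than eight
-/

open Equiv MulAction
open scoped Pointwise
set_option linter.style.haveILetI false

namespace Cfsg.Agent.H36.SymPartitionAlt

open SymPartition

variable {Ω : Type*} [Fintype Ω] [DecidableEq Ω] {b : ℕ} (f : Ω → Fin b) (a : ℕ)

omit [DecidableEq Ω] in
theorem exists_in_fibre (ha : 2 ≤ a) (hf : ∀ i, Nat.card {x // f x = i} = a) (i : Fin b) :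
    ∃ p q, p ≠ q ∧ f p = i ∧ f q = i := by
  have h : Nontrivial {x // f x = i} := Finite.one_lt_card_iff_nontrivial.1 (by rw [hf]; omega)
  obtain ⟨⟨x, hx⟩, ⟨y, hy⟩, hxy⟩ := h
  exact ⟨x, y, fun e => hxy (Subtype.ext e), hx, hy⟩

/-- Away from any two points there is a transposition inside a fibre. -/
theorem exists_free_pair (ha : 2 ≤ a) (hb : 2 ≤ b) (hbig : 3 ≤ a ∨ 3 ≤ b)
    (hf : ∀ i, Nat.card {x // f x = i} = a) (u w : Ω) :
    ∃ p q, p ≠ q ∧ f p = f q ∧ p ≠ u ∧ p ≠ w ∧ q ≠ u ∧ q ≠ w := by
  classical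
  by_cases h3 : ∃ i, i ≠ f u ∧ i ≠ f w
  · obtain ⟨i, hiu, hiw⟩ := h3
    obtain ⟨p, q, hpq, hp, hq⟩ := exists_in_fibre f a ha hf i
    exact ⟨p, q, hpq, hp.trans hq.symm, fun e => hiu (by rw [← hp, e]), fun e => hiw (by rw [← hp, e]),
      fun e => hiu (by rw [← hq, e]), fun e => hiw (by rw [← hq, e])⟩
  push Not at h3
  have hb2 : b = 2 := by
    by_contra hne
    have hsub : (Finset.univ : Finset (Fin b)) ⊆ {f u, f w} := fun i _ => by
      simp only [Finset.mem_insert, Finset.mem_singleton]
      by_cases hi : i = f u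
      · exact Or.inl hi
      · exact Or.inr (h3 i hi)
    have := (Finset.card_le_card hsub).trans Finset.card_le_two
    rw [Finset.card_univ, Fintype.card_fin] at this
    omega
  have huw : f u ≠ f w := by
    intro e
    obtain ⟨i, hi⟩ : ∃ i : Fin b, i ≠ f u := by
      subst hb2
      exact ⟨f u + 1, by simp⟩
    exact hi ((h3 i hi).trans e.symm)
  have h2 : 2 ≤ ((Finset.univ.filter fun x => f x = f u).erase u).card := by
    have hc := hf (f u)
    rw [Nat.card_eq_fintype_card, Fintype.card_subtype] at hc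
    rw [Finset.card_erase_of_mem (by simp), hc]
    omega
  obtain ⟨p, hp, q, hq, hpq⟩ := Finset.one_lt_card.1 h2
  simp only [Finset.mem_erase, Finset.mem_filter, Finset.mem_univ, true_and] at hp hq
  exact ⟨p, q, hpq, hp.2.trans hq.2.symm, hp.1, fun e => huw (by rw [← hp.2, e]), hq.1,
    fun e => huw (by rw [← hq.2, e])⟩

/-- Any fibre-respecting permutation agrees at two given points with an even one. -/
theorem exists_even (ha : 2 ≤ a) (hb : 2 ≤ b) (hbig : 3 ≤ a ∨ 3 ≤ b)
    (hf : ∀ i, Nat.card {x // f x = i} = a) {g : Perm Ω} (hg : g ∈ blockStab f) (u v : Ω) :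
    ∃ h ∈ blockStab f ⊓ alternatingGroup Ω, h u = g u ∧ h v = g v := by
  rcases Int.units_eq_one_or (Perm.sign g) with hs | hs
  · exact ⟨g, ⟨hg, Perm.mem_alternatingGroup.2 hs⟩, rfl, rfl⟩
  obtain ⟨p, q, hpq, hfpq, h1, h2, h3, h4⟩ := exists_free_pair f a ha hb hbig hf (g u) (g v)
  refine ⟨swap p q * g, ⟨mul_mem (swap_mem f hfpq) hg, Perm.mem_alternatingGroup.2 ?_⟩, ?_, ?_⟩
  · rw [map_mul, Perm.sign_swap hpq, hs]; rfl
  · rw [Perm.mul_apply, swap_apply_of_ne_of_ne h1.symm h3.symm]
  · rw [Perm.mul_apply, swap_apply_of_ne_of_ne h2.symm h4.symm]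

theorem isPreprimitive_of_gt (ha : 2 ≤ a) (hb : 2 ≤ b) (hbig : 3 ≤ a ∨ 3 ≤ b)
    (hf : ∀ i, Nat.card {x // f x = i} = a) {L : Subgroup (Perm Ω)}
    (hL : blockStab f ⊓ alternatingGroup Ω ≤ L) (hbad : ∃ g ∈ L, g ∉ blockStab f) :
    IsPreprimitive L Ω := by
  classical
  have hev : ∀ {g : Perm Ω}, g ∈ blockStab f → ∀ u v, ∃ h : L, (h : Perm Ω) u = g u ∧ (h : Perm Ω) v = g v :=
    fun hg u v => by
      obtain ⟨h, hh, e1, e2⟩ := exists_even f a ha hb hbig hf hg u v
      exact ⟨⟨h, hL hh⟩, e1, e2⟩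
  haveI := SymPartition.isPretransitive f a hf
  haveI : IsPretransitive L Ω := ⟨fun x y => by
    obtain ⟨g, hg⟩ := MulAction.exists_smul_eq (blockStab f) x y
    obtain ⟨h, hh, -⟩ := hev g.2 x x
    exact ⟨h, hh.trans hg⟩⟩
  refine ⟨fun {B} hB => ?_⟩
  rcases Set.subsingleton_or_nontrivial B with h | h
  · exact Or.inl h
  by_contra hcon
  have hne : B ≠ Set.univ := fun e => hcon (Or.inr e)
  -- a block through `u` and `v` is stable under fibre-respecting maps fixing `u`
  have hmove : ∀ {C : Set Ω}, IsBlock L C → ∀ g ∈ blockStab f, ∀ {u v : Ω}, u ∈ C → g u = u →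
      v ∈ C → g v ∈ C := by
    intro C hC g hg u v hu hgu hv
    obtain ⟨k, hku, hkv⟩ := hev hg u v
    have h1 : k • C = C := hC.smul_eq_of_mem hu (by show (k : Perm Ω) u ∈ C; rw [hku, hgu]; exact hu)
    rw [← h1, ← hkv]
    exact Set.smul_mem_smul_set hv
  have hsub : ∀ {C : Set Ω}, IsBlock L C → C ≠ Set.univ → ∀ {x y : Ω}, x ∈ C → y ∈ C → f x = f y := by
    intro C hC hCne x y hx hy
    by_contra hxy
    have hfib : ∀ {u v : Ω}, u ∈ C → v ∈ C → f u ≠ f v → ∀ w, f w = f v → w ∈ C := by
      intro u v hu hv huv w hw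
      have h := hmove hC (swap v w) (swap_mem f hw.symm) hu
        (swap_apply_of_ne_of_ne (fun h => huv (by rw [h])) (fun h => huv (by rw [h, hw]))) hv
      rwa [swap_apply_left] at h
    apply hCne
    rw [Set.eq_univ_iff_forall]
    intro w
    by_cases hwy : f w = f y
    · exact hfib hx hy hxy w hwy
    by_cases hwx : f w = f x
    · exact hfib hy hx (Ne.symm hxy) w hwx
    obtain ⟨g, hg, hgy, hgfix⟩ := exists_exchange f (f y) (f w) ((hf _).trans (hf _).symm)
    have hgx : g x = x := hgfix x hxy (Ne.symm hwx)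
    have h1 : g y ∈ C := hmove hC g hg hx hgx hy
    exact hfib hx h1 (by rw [hgy y rfl]; exact Ne.symm hwx) w (hgy y rfl).symm
  obtain ⟨k, hk, hk'⟩ := hbad
  have hbad : ∃ g ∈ L, ∃ u v, f u = f v ∧ f (g u) ≠ f (g v) := by
    have h1 : ¬ ∀ u v, f u = f v ↔ f (k u) = f (k v) := hk'
    push Not at h1
    obtain ⟨u, v, h1⟩ := h1
    rcases h1 with ⟨h2, h3⟩ | ⟨h2, h3⟩
    · exact ⟨k, hk, u, v, h2, h3⟩
    · refine ⟨k⁻¹, inv_mem hk, k u, k v, h3, ?_⟩
      simpa using h2
  obtain ⟨g, hg, u, v, huv, hguv⟩ := hbad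
  obtain ⟨x, hx⟩ := h.nonempty
  obtain ⟨g0, hg0⟩ := MulAction.exists_smul_eq L x u
  have hB0 : IsBlock L (g0 • B) := hB.translate g0
  have hne0 : g0 • B ≠ Set.univ := fun e => hne (by
    rw [← inv_smul_smul g0 B, e, Set.smul_set_univ])
  have hu0 : u ∈ g0 • B := ⟨x, hx, hg0⟩
  have hv0 : v ∈ g0 • B := by
    obtain ⟨p, hp, hpx⟩ := h.exists_ne x
    set p' := g0 • p
    have hp0 : p' ∈ g0 • B := Set.smul_mem_smul_set hp
    have hp'u : p' ≠ u := fun e => hpx (MulAction.injective g0 (e.trans hg0.symm))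
    by_cases hvu : v = u
    · rw [hvu]; exact hu0
    have h1 := hmove hB0 (swap p' v) (swap_mem f ((hsub hB0 hne0 hp0 hu0).trans huv)) hu0
      (swap_apply_of_ne_of_ne hp'u.symm (Ne.symm hvu)) hp0
    rwa [swap_apply_left] at h1
  apply hguv
  refine hsub (hB0.translate (⟨g, hg⟩ : L)) ?_
    (Set.smul_mem_smul_set hu0) (Set.smul_mem_smul_set hv0)
  intro e
  exact hne0 (by rw [← inv_smul_smul (⟨g, hg⟩ : L) (g0 • B), e, Set.smul_set_univ])

theorem card_block_model :
    Fintype.card {g : Perm (Fin 2 × Bool) // (∀ x y : Fin 2 × Bool, x.1 = y.1 ↔ (g x).1 = (g y).1) ∧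
      Perm.sign g = 1} = 4 ∧
    Fintype.card {g : Perm (Fin 3 × Bool) // (∀ x y : Fin 3 × Bool, x.1 = y.1 ↔ (g x).1 = (g y).1) ∧
      Perm.sign g = 1} = 24 := by
  refine ⟨?_, ?_⟩ <;> rw [Fintype.card_subtype] <;> decide +kernel

theorem card_block_eq (hf : ∀ i, Nat.card {x // f x = i} = 2) :
    Nat.card (blockStab f ⊓ alternatingGroup Ω : Subgroup (Perm Ω)) =
    Nat.card {g : Perm (Fin b × Bool) // (∀ x y : Fin b × Bool, x.1 = y.1 ↔ (g x).1 = (g y).1) ∧
      Perm.sign g = 1} := by
  have he : ∀ i, Nonempty ({x : Ω // f x = i} ≃ Bool) := fun i =>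
    Finite.card_eq.1 (by rw [hf, Nat.card_eq_fintype_card, Fintype.card_bool])
  let e : Ω ≃ Fin b × Bool := ((Equiv.sigmaFiberEquiv f).symm.trans
    (Equiv.sigmaCongrRight fun i => (he i).some)).trans (Equiv.sigmaEquivProd _ _)
  have hef : ∀ x, (e x).1 = f x := fun x => rfl
  refine Nat.card_congr (Equiv.subtypeEquiv e.permCongr fun g => ?_)
  rw [Subgroup.mem_inf, Perm.mem_alternatingGroup, Perm.sign_permCongr]
  refine and_congr_left' ?_
  show (∀ x y, f x = f y ↔ f (g x) = f (g y)) ↔ _
  constructor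
  · intro h x y
    obtain ⟨x, rfl⟩ := e.surjective x
    obtain ⟨y, rfl⟩ := e.surjective y
    simp only [Equiv.permCongr_apply, Equiv.symm_apply_apply, hef]
    exact h x y
  · intro h x y
    have := h (e x) (e y)
    simpa only [Equiv.permCongr_apply, Equiv.symm_apply_apply, hef] using this

set_option maxHeartbeats 1000000 in
theorem isCoatom_alt (h8 : Fintype.card Ω ≠ 8) (ha : 2 ≤ a) (hb : 2 ≤ b)
    (hf : ∀ i, Nat.card {x // f x = i} = a) :
    IsCoatom ((blockStab f ⊓ alternatingGroup Ω).subgroupOf (alternatingGroup Ω)) := by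
  classical
  set A := alternatingGroup Ω with hA
  set S := blockStab f ⊓ A with hS
  have hn : Fintype.card Ω = b * a := by
    rw [← Nat.card_eq_fintype_card, ← Nat.card_congr (Equiv.sigmaFiberEquiv f), Nat.card_sigma]
    rw [Finset.sum_congr rfl (fun i _ => hf i)]
    simp
  have hn4 : 4 ≤ Fintype.card Ω := by rw [hn]; exact Nat.mul_le_mul hb ha
  haveI : Nontrivial Ω := Fintype.one_lt_card_iff_nontrivial.1 (by omega)
  have hAcard : Nat.card A * 2 = (Fintype.card Ω).factorial := by
    rw [mul_comm, hA, two_mul_nat_card_alternatingGroup, Nat.card_perm, Nat.card_eq_fintype_card]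
  have hSA : Nat.card (S.subgroupOf A) = Nat.card S :=
    Nat.card_congr (Subgroup.subgroupOfEquivOfLe inf_le_right).toEquiv
  have hidx := (S.subgroupOf A).index_mul_card
  by_cases h22 : a = 2 ∧ b = 2
  · obtain ⟨rfl, rfl⟩ := h22
    rw [hSA, card_block_eq f hf, Nat.card_eq_fintype_card, card_block_model.1] at hidx
    rw [hn, show Nat.factorial (2 * 2) = 24 from rfl] at hAcard
    have h3 : (S.subgroupOf A).index = 3 := by omega
    refine ⟨fun h => ?_, fun L hL => ?_⟩
    · rw [h, Subgroup.index_top] at h3; omega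
    · have hd := Subgroup.index_dvd_of_le hL.le
      rw [h3] at hd
      rcases (Nat.dvd_prime Nat.prime_three).1 hd with h1 | h1
      · exact Subgroup.index_eq_one.1 h1
      · exfalso
        have h2 := Subgroup.relIndex_mul_index hL.le
        rw [h1, h3] at h2
        exact hL.not_ge (Subgroup.relIndex_eq_one.1 (by omega))
  have hbig : 3 ≤ a ∨ 3 ≤ b := by omega
  refine ⟨fun h => ?_, fun L' hL' => ?_⟩
  · -- some three-cycle moves a pair out of its fibre
    obtain ⟨x, y, hxy, hx, hy⟩ := exists_in_fibre f a ha hf ⟨0, by omega⟩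
    obtain ⟨u, v, huv, hu, hv⟩ := exists_in_fibre f a ha hf ⟨1, by omega⟩
    have hfxu : f x ≠ f u := by rw [hx, hu]; simp
    have hfxv : f x ≠ f v := by rw [hx, hv]; simp
    have hxu : x ≠ u := fun e => hfxu (by rw [e])
    have hxv : x ≠ v := fun e => hfxv (by rw [e])
    have hmem : swap x u * swap x v ∈ A :=
      (Equiv.Perm.isThreeCycle_swap_mul_swap_same hxu hxv huv).mem_alternatingGroup
    have h1 : swap x u * swap x v ∈ S := Subgroup.subgroupOf_eq_top.1 h hmem
    have hyu : y ≠ u := fun e => by rw [← e, hy] at hu; simp at hu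
    have hyv : y ≠ v := fun e => by rw [← e, hy] at hv; simp at hv
    have h2 := (h1.1 x y).1 (hx.trans hy.symm)
    rw [Perm.mul_apply, Perm.mul_apply, swap_apply_left, swap_apply_of_ne_of_ne hxv.symm huv.symm,
      swap_apply_of_ne_of_ne hxy.symm hyv, swap_apply_of_ne_of_ne hxy.symm hyu, hv, hy] at h2
    simp at h2
  · set L := L'.map A.subtype with hLdef
    have hSL : S ≤ L := fun g hg => ⟨⟨g, hg.2⟩, hL'.le hg, rfl⟩
    have hLA : L ≤ A := Subgroup.map_subtype_le L'
    obtain ⟨k, hk, hk'⟩ := SetLike.exists_of_lt hL'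
    have hprim := isPreprimitive_of_gt f a ha hb hbig hf hSL
      ⟨k, ⟨k, hk, rfl⟩, fun h => hk' ⟨h, k.2⟩⟩
    suffices h : A ≤ L by
      refine eq_top_iff.2 fun x _ => ?_
      obtain ⟨y, hy, he⟩ := h x.2
      exact Subtype.ext he ▸ hy
    by_cases ha3 : 3 ≤ a
    · obtain ⟨x, y, hxy, hx, hy⟩ := exists_in_fibre f a ha hf ⟨0, by omega⟩
      obtain ⟨z, hz, hzx, hzy⟩ : ∃ z, f z = ⟨0, by omega⟩ ∧ z ≠ x ∧ z ≠ y := by
        by_contra hh
        push Not at hh
        have hsub : (Finset.univ.filter fun z => f z = ⟨0, by omega⟩) ⊆ {x, y} := fun z hz => by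
          simp only [Finset.mem_filter, Finset.mem_univ, true_and] at hz
          simp only [Finset.mem_insert, Finset.mem_singleton]
          by_cases e : z = x
          · exact Or.inl e
          · exact Or.inr (hh z hz e)
        have h2 := (Finset.card_le_card hsub).trans Finset.card_le_two
        have hc := hf ⟨0, by omega⟩
        rw [Nat.card_eq_fintype_card, Fintype.card_subtype] at hc
        omega
      exact Equiv.Perm.alternatingGroup_le_of_isPreprimitive_of_isThreeCycle_mem hprim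
        (Equiv.Perm.isThreeCycle_swap_mul_swap_same hxy hzx.symm hzy.symm)
        (hSL ⟨mul_mem (swap_mem f (hx.trans hy.symm)) (swap_mem f (hx.trans hz.symm)),
          (Equiv.Perm.isThreeCycle_swap_mul_swap_same hxy hzx.symm hzy.symm).mem_alternatingGroup⟩)
    obtain rfl : a = 2 := by omega
    by_cases hb3 : b = 3
    · subst hb3
      rw [hSA, card_block_eq f hf, Nat.card_eq_fintype_card, card_block_model.2] at hidx
      rw [hn, show Nat.factorial (3 * 2) = 720 from rfl] at hAcard
      have h15 : (S.subgroupOf A).index = 15 := by omega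
      have hd := Subgroup.index_dvd_of_le hL'.le
      have hr := Subgroup.relIndex_mul_index hL'.le
      rw [h15] at hd hr
      have hne1 : (S.subgroupOf A).relIndex L' ≠ 1 := fun e => hL'.not_ge (Subgroup.relIndex_eq_one.1 e)
      intro g hg
      have hLidx : L.index = L'.index * 2 := by
        have h1 := Subgroup.relIndex_mul_index hLA
        rw [hA, alternatingGroup.index_eq_two, ← hA, Subgroup.relIndex,
          show L.subgroupOf A = L' from Subgroup.comap_map_eq_self_of_injective A.subtype_injective L'] at h1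
        exact h1.symm
      by_cases e : L = A
      · rwa [e]
      exfalso
      have h6 := SymIndex.card_le_index (α := Ω) (by rw [Nat.card_eq_fintype_card, hn]; norm_num) L
        (fun t => by rw [t, Subgroup.index_top] at hLidx; omega) (by rwa [hA] at e)
      rw [Nat.card_eq_fintype_card, hn] at h6
      have hle : L'.index ≤ 15 := Nat.le_of_dvd (by norm_num) hd
      have h5 : L'.index = 3 ∨ L'.index = 5 := by
        have : ∀ i, i ≤ 15 → i ∣ 15 → i = 1 ∨ i = 3 ∨ i = 5 ∨ i = 15 := by decide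
        rcases this _ hle hd with h | h | h | h
        · omega
        · exact Or.inl h
        · exact Or.inr h
        · exfalso; rw [h] at hr; omega
      haveI hsimple : IsSimpleGroup A := alternatingGroup.isSimpleGroup (by
        rw [Nat.card_eq_fintype_card, hn]; norm_num)
      set φ := MulAction.toPermHom A (A ⧸ L')
      rcases IsSimpleGroup.eq_bot_or_eq_top_of_normal φ.ker inferInstance with hk0 | hk1
      · have h7 := Subgroup.card_dvd_of_injective φ (by rwa [← MonoidHom.ker_eq_bot_iff])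
        rw [Nat.card_perm, ← Subgroup.index, show Nat.card A = 360 by omega] at h7
        rcases h5 with h | h <;> rw [h] at h7 <;> norm_num [Nat.factorial] at h7
      · rw [← Subgroup.normalCore_eq_ker] at hk1
        have : L' = ⊤ := top_le_iff.1 (hk1 ▸ Subgroup.normalCore_le L')
        rw [this, Subgroup.index_top] at h5
        omega
    have hb5 : 5 ≤ b := by rw [hn] at h8; omega
    obtain ⟨x, y, hxy, hx, hy⟩ := exists_in_fibre f 2 ha hf ⟨0, by omega⟩
    obtain ⟨u, v, huv, hu, hv⟩ := exists_in_fibre f 2 ha hf ⟨1, by omega⟩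
    have hfib : ∀ {p q : Ω}, p ≠ q → f p = f q → ∀ z, f z = f p → z = p ∨ z = q := by
      intro p q hpq hfe z hz
      by_contra hh
      push Not at hh
      have hsub : ({p, q, z} : Finset Ω) ⊆ Finset.univ.filter fun w => f w = f p := by
        intro w hw
        simp only [Finset.mem_insert, Finset.mem_singleton] at hw
        rcases hw with rfl | rfl | rfl <;> simp [hfe, hz]
      have h1 := Finset.card_le_card hsub
      have hc := hf (f p)
      rw [Nat.card_eq_fintype_card, Fintype.card_subtype] at hc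
      rw [hc, Finset.card_insert_of_notMem (by simp [hpq, Ne.symm hh.1]),
        Finset.card_insert_of_notMem (by simp [Ne.symm hh.2]), Finset.card_singleton] at h1
      omega
    have hne : ∀ {p q : Ω}, f p = ⟨0, by omega⟩ → f q = ⟨1, by omega⟩ → p ≠ q := fun h1 h2 e => by
      rw [e, h2] at h1; simp at h1
    -- exchanging the two fibres
    have hswap : ∀ {x y u v : Ω}, x ≠ y → f x = ⟨0, by omega⟩ → f y = ⟨0, by omega⟩ →
        u ≠ v → f u = ⟨1, by omega⟩ → f v = ⟨1, by omega⟩ → swap x u * swap y v ∈ S := by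
      intro x y u v hxy hx hy huv hu hv
      refine ⟨?_, Perm.mem_alternatingGroup.2 (by
        rw [map_mul, Perm.sign_swap (hne hx hu), Perm.sign_swap (hne hy hv)]; rfl)⟩
      have key : ∀ z, f ((swap x u * swap y v) z) = swap (⟨0, by omega⟩ : Fin b) ⟨1, by omega⟩ (f z) := by
        intro z
        by_cases h0 : f z = ⟨0, by omega⟩
        · rcases hfib hxy (hx.trans hy.symm) z (h0.trans hx.symm) with rfl | rfl
          · rw [Perm.mul_apply, swap_apply_of_ne_of_ne hxy (hne hx hv), swap_apply_left, hu, hx,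
              swap_apply_left]
          · rw [Perm.mul_apply, swap_apply_left, swap_apply_of_ne_of_ne (hne hx hv).symm huv.symm,
              hv, hy, swap_apply_left]
        by_cases h1 : f z = ⟨1, by omega⟩
        · rcases hfib huv (hu.trans hv.symm) z (h1.trans hu.symm) with rfl | rfl
          · rw [Perm.mul_apply, swap_apply_of_ne_of_ne (hne hy hu).symm huv, swap_apply_right, hx, hu,
              swap_apply_right]
          · rw [Perm.mul_apply, swap_apply_right, swap_apply_of_ne_of_ne hxy.symm (hne hy hu),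
              hy, hv, swap_apply_right]
        have n1 : z ≠ y := fun e => h0 (by rw [e]; exact hy)
        have n2 : z ≠ v := fun e => h1 (by rw [e]; exact hv)
        have n3 : z ≠ x := fun e => h0 (by rw [e]; exact hx)
        have n4 : z ≠ u := fun e => h1 (by rw [e]; exact hu)
        rw [Perm.mul_apply, swap_apply_of_ne_of_ne n1 n2, swap_apply_of_ne_of_ne n3 n4,
          swap_apply_of_ne_of_ne h0 h1]
      intro p q
      rw [key, key]
      exact ((swap _ _).injective.eq_iff).symm
    have hin : swap x y * swap u v ∈ S :=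
      ⟨mul_mem (swap_mem f (hx.trans hy.symm)) (swap_mem f (hu.trans hv.symm)),
        Perm.mem_alternatingGroup.2 (by rw [map_mul, Perm.sign_swap hxy, Perm.sign_swap huv]; rfl)⟩
    let Γ : Finset Ω := {x, y, u, v}
    have hΓ4 : Γ.card = 4 := by simp [Γ, hxy, huv, hne hx hu, hne hx hv, hne hy hu, hne hy hv]
    refine Cfsg.Agent.H80.alternatingGroup_le_of_jordan_lt_half (Fintype.card Ω) L rfl hprim Γ
      (by omega) (by rw [hΓ4, hn]; omega) ?_
    intro p hp q hq
    have hp' : p ∈ Γ := by simpa using hp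
    have hq' : q ∈ Γ := by simpa using hq
    have hfix : ∀ {s t s' t' : Ω}, s ∈ Γ → t ∈ Γ → s' ∈ Γ → t' ∈ Γ →
        ∀ z ∈ Γᶜ, (swap s t * swap s' t') z = z := by
      intro s t s' t' hs ht hs' ht' z hz
      rw [Finset.mem_compl] at hz
      have n1 : z ≠ s' := fun e => hz (by rw [e]; exact hs')
      have n2 : z ≠ t' := fun e => hz (by rw [e]; exact ht')
      have n3 : z ≠ s := fun e => hz (by rw [e]; exact hs)
      have n4 : z ≠ t := fun e => hz (by rw [e]; exact ht)
      rw [Perm.mul_apply, swap_apply_of_ne_of_ne n1 n2, swap_apply_of_ne_of_ne n3 n4]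
    have mx : x ∈ Γ := by simp [Γ]
    have my : y ∈ Γ := by simp [Γ]
    have mu : u ∈ Γ := by simp [Γ]
    have mv : v ∈ Γ := by simp [Γ]
    have nxu := hne hx hu
    have nxv := hne hx hv
    have nyu := hne hy hu
    have nyv := hne hy hv
    simp only [Γ, Finset.mem_insert, Finset.mem_singleton] at hp' hq'
    by_cases hpq : p = q
    · exact ⟨1, one_mem _, fun z _ => rfl, hpq⟩
    have k1 : ∀ z, z = x ∨ z = y ∨ z = u ∨ z = v → (swap x y * swap u v) z =
        if z = x then y else if z = y then x else if z = u then v else u := by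
      rintro z (rfl | rfl | rfl | rfl) <;>
        simp [Perm.mul_apply, swap_apply_def, hxy, hxy.symm, huv, huv.symm, nxu, nxu.symm, nxv,
          nxv.symm, nyu, nyu.symm, nyv, nyv.symm]
    have k2 : ∀ z, z = x ∨ z = y ∨ z = u ∨ z = v → (swap x u * swap y v) z =
        if z = x then u else if z = y then v else if z = u then x else y := by
      rintro z (rfl | rfl | rfl | rfl) <;>
        simp [Perm.mul_apply, swap_apply_def, hxy, hxy.symm, huv, huv.symm, nxu, nxu.symm, nxv,
          nxv.symm, nyu, nyu.symm, nyv, nyv.symm]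
    have k3 : ∀ z, z = x ∨ z = y ∨ z = u ∨ z = v → (swap x v * swap y u) z =
        if z = x then v else if z = y then u else if z = u then y else x := by
      rintro z (rfl | rfl | rfl | rfl) <;>
        simp [Perm.mul_apply, swap_apply_def, hxy, hxy.symm, huv, huv.symm, nxu, nxu.symm, nxv,
          nxv.symm, nyu, nyu.symm, nyv, nyv.symm]
    have hcase : (swap x y * swap u v) p = q ∨ (swap x u * swap y v) p = q ∨ (swap x v * swap y u) p = q := by
      rw [k1 p hp', k2 p hp', k3 p hp']
      rcases hp' with rfl | rfl | rfl | rfl <;> rcases hq' with rfl | rfl | rfl | rfl <;>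
        simp [hpq, hxy, hxy.symm, huv, huv.symm, nxu, nxu.symm, nxv, nxv.symm, nyu, nyu.symm, nyv,
          nyv.symm] at hpq ⊢
    rcases hcase with h | h | h
    · exact ⟨_, hSL hin, hfix mx my mu mv, h⟩
    · exact ⟨_, hSL (hswap hxy hx hy huv hu hv), hfix mx mu my mv, h⟩
    · exact ⟨_, hSL (hswap hxy hx hy huv.symm hv hu), hfix mx mv my mu, h⟩

end Cfsg.Agent.H36.SymPartitionAlt
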